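import Mathlib
import Cfsg.Prelude.Def_BrauerPairs

/-!
# Statements of the pieces for S4890

S4890: for a block `B` with a normal defect group `D`, all height-zero characters of `B` have the
same degree iff `B` is nilpotent.  Only definitions and `Prop`-valued statements here; each piece
`X` is proved in its own file as `theorem main : Cfsg.Agent.Lib.Helper75.NDStmt.X` (possibly with
other pieces as hypotheses).
-/

set_option autoImplicit false

namespace Cfsg.Agent.Lib.Helper75.NDStmt

open Cfsg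

universe u

section Defs

variable {G : Type u} [Group G]

/-- The image of `D` in `G ⧸ ⁅D, D⁆`. -/
abbrev Dbar (D : Subgroup G) [D.Normal] : Subgroup (G ⧸ ⁅D, D⁆) :=
  D.map (QuotientGroup.mk' ⁅D, D⁆)

/-- The centralizer of the image of `D` in `G ⧸ ⁅D, D⁆`. -/
abbrev Cbar (D : Subgroup G) [D.Normal] : Subgroup (G ⧸ ⁅D, D⁆) :=
  Subgroup.centralizer ((Dbar D : Subgroup (G ⧸ ⁅D, D⁆)) : Set (G ⧸ ⁅D, D⁆))

/-- The elements of `G` acting trivially on `D / ⁅D, D⁆`. -/
abbrev Ct (D : Subgroup G) [D.Normal] : Subgroup G :=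
  (Cbar D).comap (QuotientGroup.mk' ⁅D, D⁆)

theorem centralizer_le_Ct (D : Subgroup G) [D.Normal] :
    Subgroup.centralizer (D : Set G) ≤ Ct D := by
  intro c hc
  rw [Subgroup.mem_comap, Subgroup.mem_centralizer_iff]
  rintro y ⟨d, hd, rfl⟩
  have h := hc d hd
  simp only [QuotientGroup.mk'_apply]
  rw [← QuotientGroup.mk_mul, ← QuotientGroup.mk_mul, h]

/-- `C_G(D) → C_{G/D'}(D/D')`, induced by the quotient map. -/
def cmap (D : Subgroup G) [D.Normal] : ↥(Subgroup.centralizer (D : Set G)) →* ↥(Cbar D) :=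
  ((QuotientGroup.mk' ⁅D, D⁆).comp (Subgroup.centralizer (D : Set G)).subtype).codRestrict
    (Cbar D) (fun c => centralizer_le_Ct D c.2)

/-- The inclusion `C_G(D) → Ct D`. -/
def cincl (D : Subgroup G) [D.Normal] : ↥(Subgroup.centralizer (D : Set G)) →* ↥(Ct D) :=
  Subgroup.inclusion (centralizer_le_Ct D)

/-- `Ct D → C_{G/D'}(D/D')`, induced by the quotient map (surjective). -/
def tmap (D : Subgroup G) [D.Normal] : ↥(Ct D) →* ↥(Cbar D) :=
  (QuotientGroup.mk' ⁅D, D⁆).subgroupComap (Cbar D)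

/-- The characters of `G ⧸ ⁅D, D⁆` whose inflation lies in `B` (the block dominated by `B`). -/
def quotBlock (D : Subgroup G) [D.Normal] (B : Set (IrrCharacter G)) :
    Set (IrrCharacter (G ⧸ ⁅D, D⁆)) :=
  {ψ | ∃ χ ∈ B, (χ : G → ℂ) = (ψ : G ⧸ ⁅D, D⁆ → ℂ) ∘ (QuotientGroup.mk : G → G ⧸ ⁅D, D⁆)}

/-- Every block of `L = D C_G(D)` with defect group `D` covered by `B` has inertial group `L`. -/
def InertialTrivial (p : ℕ) (M : Ideal AlgInt) (B : Set (IrrCharacter G)) (D : Subgroup G)
    [Fintype ↥(D ⊔ Subgroup.centralizer (D : Set G))] : Prop :=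
  ∀ b : Set (IrrCharacter ↥(D ⊔ Subgroup.centralizer (D : Set G))), IsPBlock M b →
    IsDefectGroup p M b (D.subgroupOf (D ⊔ Subgroup.centralizer (D : Set G))) →
    (∃ χ ∈ B, ∃ θ ∈ b, classInner
      (fun n : ↥(D ⊔ Subgroup.centralizer (D : Set G)) => (χ : G → ℂ) n)
      (θ : ↥(D ⊔ Subgroup.centralizer (D : Set G)) → ℂ) ≠ 0) →
    ∀ t : G, StabilizesBlock (D ⊔ Subgroup.centralizer (D : Set G)) b t →
      t ∈ D ⊔ Subgroup.centralizer (D : Set G)

end Defs

/-! ### Direction "nilpotent ⟹ equal degrees" -/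

/-- EQD1: a nilpotent block with normal defect group has trivial inertial quotient. -/
def EQD1 : Prop :=
  ∀ (G : Type u) [Group G] [Finite G] (p : ℕ) [Fact p.Prime] (M : Ideal AlgInt),
    IsPModular p M → ∀ (B : Set (IrrCharacter G)), IsPBlock M B → ∀ (D : Subgroup G) [D.Normal]
    [Fintype ↥(D ⊔ Subgroup.centralizer (D : Set G))],
    IsDefectGroup p M B D → IsNilpotentBlock p M B → InertialTrivial p M B D

/-- EQD2: trivial inertial quotient: all degrees in `B` are `d₀ * p ^ m` (Fong–Reynolds and the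
structure of blocks of `D C_G(D)`). -/
def EQD2 : Prop :=
  ∀ (G : Type u) [Group G] [Finite G] (p : ℕ) [Fact p.Prime] (M : Ideal AlgInt),
    IsPModular p M → ∀ (B : Set (IrrCharacter G)), IsPBlock M B → ∀ (D : Subgroup G) [D.Normal]
    [Fintype ↥(D ⊔ Subgroup.centralizer (D : Set G))],
    IsDefectGroup p M B D → InertialTrivial p M B D →
    ∃ d₀ : ℕ, ∀ χ ∈ B, ∃ m : ℕ, charDegree (χ : G → ℂ) = d₀ * p ^ m

/-! ### The quotient block -/

/-- QB: the characters of `G ⧸ ⁅D, D⁆` inflating into the block `B` form a block (S4964). -/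
def QB : Prop :=
  ∀ (G : Type u) [Group G] [Finite G] (p : ℕ) [Fact p.Prime] (M : Ideal AlgInt),
    IsPModular p M → ∀ (D : Subgroup G) [D.Normal], IsPGroup p D →
    ∀ (B : Set (IrrCharacter G)), IsPBlock M B → IsPBlock M (quotBlock D B)

/-- DG: the image of the normal defect group is a defect group of the quotient block. -/
def DG : Prop :=
  ∀ (G : Type u) [Group G] [Finite G] (p : ℕ) [Fact p.Prime] (M : Ideal AlgInt),
    IsPModular p M → ∀ (B : Set (IrrCharacter G)), IsPBlock M B → ∀ (D : Subgroup G) [D.Normal],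
    IsDefectGroup p M B D → IsDefectGroup p M (quotBlock D B) (Dbar D)

/-- HT: inflations of the characters of the quotient block have height zero in `B`. -/
def HT : Prop :=
  ∀ (G : Type u) [Group G] [Finite G] (p : ℕ) [Fact p.Prime] (M : Ideal AlgInt),
    IsPModular p M → ∀ (B : Set (IrrCharacter G)), IsPBlock M B → ∀ (D : Subgroup G) [D.Normal],
    IsDefectGroup p M B D → ∀ ψ ∈ quotBlock D B,
      blockHeight p B ((ψ : G ⧸ ⁅D, D⁆ → ℂ) ∘ (QuotientGroup.mk : G → G ⧸ ⁅D, D⁆)) = 0

/-! ### Brauer pairs at the normal defect group -/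

/-- MAXP: a Brauer pair of `B` at a defect group is maximal. -/
def MAXP : Prop :=
  ∀ (G : Type u) [Group G] [Finite G] (p : ℕ) [Fact p.Prime] (M : Ideal AlgInt),
    IsPModular p M → ∀ (B : Set (IrrCharacter G)) (D : Subgroup G), IsDefectGroup p M B D →
    ∀ e : Set (IrrCharacter (Subgroup.centralizer (D : Set G))), IsBrauerPairOf p M B D e →
    IsMaximalBrauerPair p M B D e

/-- CP: a `p`-regular element acting trivially on `D / ⁅D, D⁆` centralizes the `p`-group `D`. -/
def CP : Prop :=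
  ∀ (G : Type u) [Group G] [Finite G] (p : ℕ) [Fact p.Prime] (D : Subgroup G) [D.Normal],
    IsPGroup p D → ∀ x : G, x ∈ Ct D → IsPRegular p x → x ∈ Subgroup.centralizer (D : Set G)

/-- STL: inside `Ct D`, the stabilizer of the block of a maximal pair `(D, e)` is `D C_G(D)`. -/
def STL : Prop :=
  ∀ (G : Type u) [Group G] [Finite G] (p : ℕ) [Fact p.Prime] (M : Ideal AlgInt),
    IsPModular p M → ∀ (B : Set (IrrCharacter G)) (D : Subgroup G) [D.Normal]
    (e : Set (IrrCharacter (Subgroup.centralizer (D : Set G)))), IsMaximalBrauerPair p M B D e →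
    ∀ g : G, g ∈ Ct D → StabilizesBlock (Subgroup.centralizer (D : Set G)) e g →
      g ∈ D ⊔ Subgroup.centralizer (D : Set G)

/-- CAN: the canonical character of a maximal pair `(D, e)`: it is trivial on `Z(D)` and fixed
by every element stabilizing `e`. -/
def CAN : Prop :=
  ∀ (G : Type u) [Group G] [Finite G] (p : ℕ) [Fact p.Prime] (M : Ideal AlgInt),
    IsPModular p M → ∀ (B : Set (IrrCharacter G)) (D : Subgroup G) [D.Normal]
    (e : Set (IrrCharacter (Subgroup.centralizer (D : Set G)))), IsMaximalBrauerPair p M B D e →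
    ∃ θ ∈ e, (∀ z : Subgroup.centralizer (D : Set G), (z : G) ∈ D →
        (θ : Subgroup.centralizer (D : Set G) → ℂ) z
          = (θ : Subgroup.centralizer (D : Set G) → ℂ) 1) ∧
      ∀ x : G, StabilizesBlock (Subgroup.centralizer (D : Set G)) e x →
        IsConjCharOf (Subgroup.centralizer (D : Set G)) x
          (θ : Subgroup.centralizer (D : Set G) → ℂ) (θ : Subgroup.centralizer (D : Set G) → ℂ)

/-! ### Construction of a character of `C_{G/D'}(D/D')` -/

/-- DEFL: an irreducible character constant on the cosets of the kernel of a surjective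
homomorphism descends to an irreducible character of the image. -/
def DEFL : Prop :=
  ∀ (H H' : Type u) [Group H] [Group H'] [Finite H] (f : H →* H'), Function.Surjective f →
    ∀ ψ : IrrCharacter H, (∀ h k : H, f k = 1 → (ψ : H → ℂ) (h * k) = (ψ : H → ℂ) h) →
    ∃ ψ' : IrrCharacter H', ∀ h : H, (ψ' : H' → ℂ) (f h) = (ψ : H → ℂ) h

/-- EXT: a character of `C_G(D)` trivial on `Z(D)` extends to `D C_G(D)` with `D` in its
kernel. -/
def EXT : Prop :=
  ∀ (G : Type u) [Group G] [Finite G] (D : Subgroup G)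
    (θ : IrrCharacter (Subgroup.centralizer (D : Set G))),
    (∀ z : Subgroup.centralizer (D : Set G), (z : G) ∈ D →
      (θ : Subgroup.centralizer (D : Set G) → ℂ) z
        = (θ : Subgroup.centralizer (D : Set G) → ℂ) 1) →
    ∃ η : IrrCharacter ↥(D ⊔ Subgroup.centralizer (D : Set G)),
      ∀ (l : ↥(D ⊔ Subgroup.centralizer (D : Set G))) (d : G)
        (c : Subgroup.centralizer (D : Set G)), d ∈ D → (l : G) = d * (c : G) →
        (η : ↥(D ⊔ Subgroup.centralizer (D : Set G)) → ℂ) l
          = (θ : Subgroup.centralizer (D : Set G) → ℂ) c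

/-- IND: inducing the extension `η` of `θ` from `D C_G(D)` to `Ct D` gives an irreducible
character with `D` in its kernel, lying over `θ`, fixed by everything fixing `θ`. -/
def IND : Prop :=
  ∀ (G : Type u) [Group G] [Finite G] (D : Subgroup G) [D.Normal]
    [Fintype ↥(Subgroup.centralizer (D : Set G))]
    (θ : IrrCharacter (Subgroup.centralizer (D : Set G)))
    (η : IrrCharacter ↥(D ⊔ Subgroup.centralizer (D : Set G))),
    (∀ (l : ↥(D ⊔ Subgroup.centralizer (D : Set G))) (d : G)
        (c : Subgroup.centralizer (D : Set G)), d ∈ D → (l : G) = d * (c : G) →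
        (η : ↥(D ⊔ Subgroup.centralizer (D : Set G)) → ℂ) l
          = (θ : Subgroup.centralizer (D : Set G) → ℂ) c) →
    (∀ g : G, g ∈ Ct D → IsConjCharOf (Subgroup.centralizer (D : Set G)) g
        (θ : Subgroup.centralizer (D : Set G) → ℂ) (θ : Subgroup.centralizer (D : Set G) → ℂ) →
      g ∈ D ⊔ Subgroup.centralizer (D : Set G)) →
    ∃ ψ : IrrCharacter ↥(Ct D),
      (∀ (g g' : ↥(Ct D)) (d : G), d ∈ D → (g' : G) = (g : G) * d →
        (ψ : ↥(Ct D) → ℂ) g' = (ψ : ↥(Ct D) → ℂ) g) ∧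
      classInner (fun c : Subgroup.centralizer (D : Set G) => (ψ : ↥(Ct D) → ℂ) (cincl D c))
        (θ : Subgroup.centralizer (D : Set G) → ℂ) ≠ 0 ∧
      ∀ x : G, IsConjCharOf (Subgroup.centralizer (D : Set G)) x
          (θ : Subgroup.centralizer (D : Set G) → ℂ) (θ : Subgroup.centralizer (D : Set G) → ℂ) →
        IsConjCharOf (Ct D) x (ψ : ↥(Ct D) → ℂ) (ψ : ↥(Ct D) → ℂ)

/-- QP2: from a character `θ ∈ e` trivial on `Z(D)`, where the stabilizer of `e` in `Ct D` is
`D C_G(D)`: an irreducible character of `C_{G/D'}(D/D')` lying over `θ` and fixed by the image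
of everything fixing `θ`. -/
def QP2 : Prop :=
  ∀ (G : Type u) [Group G] [Finite G] (p : ℕ) [Fact p.Prime] (M : Ideal AlgInt),
    IsPModular p M → ∀ (D : Subgroup G) [D.Normal] [Fintype ↥(Subgroup.centralizer (D : Set G))],
    IsPGroup p D → ∀ e : Set (IrrCharacter (Subgroup.centralizer (D : Set G))), IsPBlock M e →
    (∀ g : G, g ∈ Ct D → StabilizesBlock (Subgroup.centralizer (D : Set G)) e g →
      g ∈ D ⊔ Subgroup.centralizer (D : Set G)) →
    ∀ θ ∈ e, (∀ z : Subgroup.centralizer (D : Set G), (z : G) ∈ D →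
        (θ : Subgroup.centralizer (D : Set G) → ℂ) z
          = (θ : Subgroup.centralizer (D : Set G) → ℂ) 1) →
    ∃ ψ' : IrrCharacter ↥(Cbar D),
      classInner (fun c : Subgroup.centralizer (D : Set G) => (ψ' : ↥(Cbar D) → ℂ) (cmap D c))
        (θ : Subgroup.centralizer (D : Set G) → ℂ) ≠ 0 ∧
      ∀ x : G, IsConjCharOf (Subgroup.centralizer (D : Set G)) x
          (θ : Subgroup.centralizer (D : Set G) → ℂ) (θ : Subgroup.centralizer (D : Set G) → ℂ) →
        IsConjCharOf (Cbar D) (QuotientGroup.mk' ⁅D, D⁆ x)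
          (ψ' : ↥(Cbar D) → ℂ) (ψ' : ↥(Cbar D) → ℂ)

/-! ### Covering and Brauer pairs at a normal `p`-subgroup -/

/-- COV: if `χ` lies over `ξ ∈ Irr(C_G(P))`, `P` a normal `p`-subgroup, then `(P, block of ξ)`
is a Brauer pair of the block of `χ`. -/
def COV : Prop :=
  ∀ (G : Type u) [Group G] [Finite G] (p : ℕ) [Fact p.Prime] (M : Ideal AlgInt),
    IsPModular p M → ∀ (P : Subgroup G) [P.Normal] [Fintype ↥(Subgroup.centralizer (P : Set G))],
    IsPGroup p P → ∀ (χ : IrrCharacter G) (ξ : IrrCharacter (Subgroup.centralizer (P : Set G))),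
    classInner (fun c : Subgroup.centralizer (P : Set G) => (χ : G → ℂ) c)
      (ξ : Subgroup.centralizer (P : Set G) → ℂ) ≠ 0 →
    IsBrauerPairOf p M (blockOf M (χ : G → ℂ)) P
      (blockOf M (ξ : Subgroup.centralizer (P : Set G) → ℂ))

/-- COV2: if `(P, e)` is a Brauer pair of `B`, `P` a normal `p`-subgroup, and `χ` lies over some
`ξ ∈ e`, then `χ ∈ B`. -/
def COV2 : Prop :=
  ∀ (G : Type u) [Group G] [Finite G] (p : ℕ) [Fact p.Prime] (M : Ideal AlgInt),
    IsPModular p M → ∀ (P : Subgroup G) [P.Normal] [Fintype ↥(Subgroup.centralizer (P : Set G))],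
    IsPGroup p P → ∀ (B : Set (IrrCharacter G))
    (e : Set (IrrCharacter (Subgroup.centralizer (P : Set G)))), IsBrauerPairOf p M B P e →
    ∀ ξ ∈ e, ∀ χ : IrrCharacter G,
    classInner (fun c : Subgroup.centralizer (P : Set G) => (χ : G → ℂ) c)
      (ξ : Subgroup.centralizer (P : Set G) → ℂ) ≠ 0 → χ ∈ B

/-- STB: an element fixing an irreducible character of a subgroup it normalizes stabilizes the
block of that character. -/
def STB : Prop :=
  ∀ (G : Type u) [Group G] [Finite G] (p : ℕ) [Fact p.Prime] (M : Ideal AlgInt),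
    IsPModular p M → ∀ (N : Subgroup G) (x : G), x ∈ Subgroup.normalizer (N : Set G) →
    ∀ ψ : IrrCharacter N, IsConjCharOf N x (ψ : N → ℂ) (ψ : N → ℂ) →
    StabilizesBlock N (blockOf M (ψ : N → ℂ)) x

/-- QP3: if `(D, e)` is a Brauer pair of `B` and `ψ'` lies over `θ ∈ e`, then
`(D/D', block of ψ')` is a Brauer pair of the quotient block. -/
def QP3 : Prop :=
  ∀ (G : Type u) [Group G] [Finite G] (p : ℕ) [Fact p.Prime] (M : Ideal AlgInt),
    IsPModular p M → ∀ (B : Set (IrrCharacter G)), IsPBlock M B → ∀ (D : Subgroup G) [D.Normal]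
    [Fintype ↥(Subgroup.centralizer (D : Set G))], IsPGroup p D →
    ∀ e : Set (IrrCharacter (Subgroup.centralizer (D : Set G))), IsBrauerPairOf p M B D e →
    ∀ θ ∈ e, ∀ ψ' : IrrCharacter ↥(Cbar D),
    classInner (fun c : Subgroup.centralizer (D : Set G) => (ψ' : ↥(Cbar D) → ℂ) (cmap D c))
      (θ : Subgroup.centralizer (D : Set G) → ℂ) ≠ 0 →
    IsBrauerPairOf p M (quotBlock D B) (Dbar D) (blockOf M (ψ' : ↥(Cbar D) → ℂ))

/-! ### Nilpotency from the inertial quotient -/

/-- QLE: the subgroup of a Brauer pair of `B` lies in the normal defect group. -/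
def QLE : Prop :=
  ∀ (G : Type u) [Group G] [Finite G] (p : ℕ) [Fact p.Prime] (M : Ideal AlgInt),
    IsPModular p M → ∀ (B : Set (IrrCharacter G)) (D : Subgroup G) [D.Normal],
    IsDefectGroup p M B D → ∀ (Q : Subgroup G)
    (f : Set (IrrCharacter (Subgroup.centralizer (Q : Set G)))), IsBrauerPairOf p M B Q f → Q ≤ D

/-- NILA1: a Brauer pair `(Q, f)` of `B` with `C_G(D) ≤ C_G(Q)`, `D` a normal `p`-subgroup: the
block of any constituent on `C_G(D)` of a member of `f` gives a Brauer pair of `B` at `D`. -/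
def NILA1 : Prop :=
  ∀ (G : Type u) [Group G] [Finite G] (p : ℕ) [Fact p.Prime] (M : Ideal AlgInt),
    IsPModular p M → ∀ (B : Set (IrrCharacter G)) (D : Subgroup G) [D.Normal]
    [Fintype ↥(Subgroup.centralizer (D : Set G))], IsPGroup p D →
    ∀ (Q : Subgroup G) (f : Set (IrrCharacter (Subgroup.centralizer (Q : Set G)))),
    IsBrauerPairOf p M B Q f →
    ∀ (hle : Subgroup.centralizer (D : Set G) ≤ Subgroup.centralizer (Q : Set G)),
    ∀ ζ ∈ f, ∀ ξ : IrrCharacter (Subgroup.centralizer (D : Set G)),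
    classInner (fun c : Subgroup.centralizer (D : Set G) =>
      (ζ : Subgroup.centralizer (Q : Set G) → ℂ) ⟨(c : G), hle c.2⟩)
      (ξ : Subgroup.centralizer (D : Set G) → ℂ) ≠ 0 →
    IsBrauerPairOf p M B D (blockOf M (ξ : Subgroup.centralizer (D : Set G) → ℂ))

/-- NILA: for a Brauer pair `(Q, f)` of `B` and `x ∈ N_G(Q, f)` there are a Brauer pair
`(D, e')` of `B` and `c ∈ C_G(Q)` with `x c` stabilizing `e'`. -/
def NILA : Prop :=
  ∀ (G : Type u) [Group G] [Finite G] (p : ℕ) [Fact p.Prime] (M : Ideal AlgInt),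
    IsPModular p M → ∀ (B : Set (IrrCharacter G)) (D : Subgroup G) [D.Normal],
    IsDefectGroup p M B D → ∀ (Q : Subgroup G)
    (f : Set (IrrCharacter (Subgroup.centralizer (Q : Set G)))), IsBrauerPairOf p M B Q f →
    ∀ x : G, x ∈ Subgroup.normalizer (Q : Set G) →
    StabilizesBlock (Subgroup.centralizer (Q : Set G)) f x →
    ∃ e' : Set (IrrCharacter (Subgroup.centralizer (D : Set G))), IsBrauerPairOf p M B D e' ∧
      ∃ c ∈ Subgroup.centralizer (Q : Set G),
        StabilizesBlock (Subgroup.centralizer (D : Set G)) e' (x * c)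

/-- NILB: group theory: if the `p`-regular elements stabilizing `e'` centralize `D ≥ Q`, and
`x c` stabilizes `e'` with `x ∈ N_G(Q)` `p`-regular and `c ∈ C_G(Q)`, then `x ∈ C_G(Q)`. -/
def NILB : Prop :=
  ∀ (G : Type u) [Group G] [Finite G] (p : ℕ) [Fact p.Prime] (D Q : Subgroup G), Q ≤ D →
    ∀ e' : Set (IrrCharacter (Subgroup.centralizer (D : Set G))),
    (∀ z : G, StabilizesBlock (Subgroup.centralizer (D : Set G)) e' z → IsPRegular p z →
      z ∈ Subgroup.centralizer (D : Set G)) →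
    ∀ x c : G, x ∈ Subgroup.normalizer (Q : Set G) → c ∈ Subgroup.centralizer (Q : Set G) →
    IsPRegular p x → StabilizesBlock (Subgroup.centralizer (D : Set G)) e' (x * c) →
    x ∈ Subgroup.centralizer (Q : Set G)

end Cfsg.Agent.Lib.Helper75.NDStmt
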