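import Mathlib
import Cfsg.Agent.Lib.Helper75.SymAlg2

/-!
# Blocks of a finite-dimensional algebra: centre, quotient, trace functions

Pure algebra used for blocks with one simple module:
* `centE`: the central elements fixed by a central idempotent `ē`;
* `exists_fin_span`: a space of dimension at most `n` is spanned by `n` vectors;
* `finrank_centE_one_le`: the centre splits along a central idempotent;
* `exists_quot`: the quotient by the annihilator of `ē` with its symmetric form and centre;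
* `exists_traces`: the trace functions of the simple modules of an algebra.
-/

set_option autoImplicit false
set_option linter.style.haveILetI false

namespace Cfsg.Agent.Lib.Helper75.BlockAlg

open Module Cfsg.Agent.Lib.Helper75.SymAlg2

variable {F Γ : Type*} [Field F] [Ring Γ] [Algebra F Γ]

/-- The central elements fixed by `ē`. -/
def centE (F : Type*) {Γ : Type*} [Field F] [Ring Γ] [Algebra F Γ] (ē : Γ) : Submodule F Γ where
  carrier := {w | (∀ x, w * x = x * w) ∧ ē * w = w}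
  add_mem' := by
    rintro a b ⟨ha, ha'⟩ ⟨hb, hb'⟩
    refine ⟨fun x => ?_, ?_⟩
    · rw [add_mul, mul_add, ha, hb]
    · rw [mul_add, ha', hb']
  zero_mem' := ⟨fun x => by rw [zero_mul, mul_zero], mul_zero ē⟩
  smul_mem' := by
    rintro c a ⟨ha, ha'⟩
    refine ⟨fun x => ?_, ?_⟩
    · rw [smul_mul_assoc, mul_smul_comm, ha]
    · rw [mul_smul_comm, ha']

theorem mem_centE (ē w : Γ) : w ∈ centE F ē ↔ (∀ x, w * x = x * w) ∧ ē * w = w := Iff.rfl

theorem exists_fin_span {V : Type*} [AddCommGroup V] [Module F V] [FiniteDimensional F V]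
    (n : ℕ) (h : finrank F V ≤ n) :
    ∃ v : Fin n → V, ∀ x, ∃ t : Fin n → F, x = ∑ i, t i • v i := by
  classical
  obtain ⟨b⟩ : Nonempty (Basis (Fin (finrank F V)) F V) := ⟨Module.finBasis F V⟩
  refine ⟨fun i => if hi : i.val < finrank F V then b ⟨i.val, hi⟩ else 0, fun x => ?_⟩
  refine ⟨fun i => if hi : i.val < finrank F V then b.repr x ⟨i.val, hi⟩ else 0, ?_⟩
  conv_lhs => rw [← b.sum_repr x]
  refine Fintype.sum_of_injective (Fin.castLE h) (Fin.castLE_injective h) _ _ ?_ ?_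
  · intro i hi
    have h1 : ¬ i.val < finrank F V := by
      intro h2
      exact hi ⟨⟨i.val, h2⟩, Fin.ext rfl⟩
    simp only [dif_neg h1, smul_zero]
  · intro j
    have h1 : (Fin.castLE h j).val < finrank F V := j.2
    simp only [dif_pos h1]
    rfl

variable [FiniteDimensional F Γ]

theorem finrank_centE_one_le (ē : Γ) (hē : ē * ē = ē) (hēc : ∀ x, ē * x = x * ē) :
    finrank F ↥(centE F (1 : Γ)) ≤ finrank F ↥(centE F ē) + finrank F ↥(centE F (1 - ē)) := by
  obtain ⟨f₁, hf₁⟩ : ∃ f₁ : ↥(centE F (1 : Γ)) →ₗ[F] ↥(centE F ē),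
      ∀ w, ((f₁ w : ↥(centE F ē)) : Γ) = ē * (w : Γ) :=
    ⟨LinearMap.codRestrict (centE F ē)
      ((LinearMap.mulLeft F ē).comp (centE F (1 : Γ)).subtype) (fun w => by
        refine ⟨fun x => ?_, ?_⟩
        · show ē * (w : Γ) * x = x * (ē * (w : Γ))
          rw [mul_assoc, w.2.1 x, ← mul_assoc, hēc x, mul_assoc]
        · show ē * (ē * (w : Γ)) = ē * (w : Γ)
          rw [← mul_assoc, hē]), fun w => rfl⟩
  have hē' : (1 - ē) * (1 - ē) = 1 - ē := by
    simp only [mul_sub, sub_mul, mul_one, one_mul, hē, sub_self, sub_zero]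
  have hēc' : ∀ x, (1 - ē) * x = x * (1 - ē) := by
    intro x
    rw [sub_mul, mul_sub, one_mul, mul_one, hēc]
  obtain ⟨f₂, hf₂⟩ : ∃ f₂ : ↥(centE F (1 : Γ)) →ₗ[F] ↥(centE F (1 - ē)),
      ∀ w, ((f₂ w : ↥(centE F (1 - ē))) : Γ) = (1 - ē) * (w : Γ) :=
    ⟨LinearMap.codRestrict (centE F (1 - ē))
      ((LinearMap.mulLeft F (1 - ē)).comp (centE F (1 : Γ)).subtype) (fun w => by
        refine ⟨fun x => ?_, ?_⟩
        · show (1 - ē) * (w : Γ) * x = x * ((1 - ē) * (w : Γ))
          rw [mul_assoc, w.2.1 x, ← mul_assoc, hēc' x, mul_assoc]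
        · show (1 - ē) * ((1 - ē) * (w : Γ)) = (1 - ē) * (w : Γ)
          rw [← mul_assoc, hē']), fun w => rfl⟩
  have hinj : Function.Injective (f₁.prod f₂) := by
    rw [← LinearMap.ker_eq_bot, LinearMap.ker_eq_bot']
    intro w hw
    have h1 : f₁ w = 0 := congrArg Prod.fst hw
    have h2 : f₂ w = 0 := congrArg Prod.snd hw
    have h3 : ē * (w : Γ) = 0 := by rw [← hf₁, h1]; rfl
    have h4 : (1 - ē) * (w : Γ) = 0 := by rw [← hf₂, h2]; rfl
    apply Subtype.ext
    show (w : Γ) = 0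
    rw [sub_mul, one_mul, h3, sub_zero] at h4
    exact h4
  have h5 := LinearMap.finrank_le_finrank_of_injective hinj
  rw [Module.finrank_prod] at h5
  exact h5

theorem exists_quot (lam : Γ →ₗ[F] F) (hsym : ∀ x y, lam (x * y) = lam (y * x))
    (hnd : ∀ x, x ≠ 0 → ∃ y, lam (x * y) ≠ 0)
    (ē : Γ) (hē : ē * ē = ē) (hēc : ∀ x, ē * x = x * ē) :
    ∃ (π : Γ →ₐ[F] Γ ⧸ annIdeal ē hēc) (lam' : (Γ ⧸ annIdeal ē hēc) →ₗ[F] F),
      Function.Surjective π ∧ (∀ x, π x = 0 ↔ ē * x = 0) ∧ π ē = 1 ∧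
      (∀ a b, lam' (a * b) = lam' (b * a)) ∧ (∀ a, a ≠ 0 → ∃ b, lam' (a * b) ≠ 0) ∧
      (∀ w, (∀ x, w * x = x * w) → ∃ w0 ∈ centE F ē, π w0 = w) ∧
      finrank F ↥(centE F ē) ≤ finrank F ↥(Subalgebra.center F (Γ ⧸ annIdeal ē hēc)) ∧
      finrank F (Γ ⧸ annIdeal ē hēc) = finrank F ↥(LinearMap.range (LinearMap.mulLeft F ē)) := by
  classical
  obtain ⟨π, hπdef⟩ : ∃ π : Γ →ₐ[F] Γ ⧸ annIdeal ē hēc,
      ∀ x, π x = Ideal.Quotient.mk (annIdeal ē hēc) x :=
    ⟨Ideal.Quotient.mkₐ F (annIdeal ē hēc), fun x => rfl⟩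
  have hπsurj : Function.Surjective π := by
    intro y
    obtain ⟨x, hx⟩ := Ideal.Quotient.mk_surjective y
    exact ⟨x, by rw [hπdef, hx]⟩
  have hπ0 : ∀ x, π x = 0 ↔ ē * x = 0 := by
    intro x
    rw [hπdef, Ideal.Quotient.eq_zero_iff_mem]
    rfl
  have hπeq : ∀ x y, π x = π y ↔ ē * x = ē * y := by
    intro x y
    rw [← sub_eq_zero, ← map_sub, hπ0, mul_sub, sub_eq_zero]
  have hπē : ∀ x, π (ē * x) = π x := by
    intro x
    rw [hπeq, ← mul_assoc, hē]
  have hπ1 : π ē = 1 := by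
    rw [← map_one π, hπeq, mul_one, hē]
  haveI : FiniteDimensional F (Γ ⧸ annIdeal ē hēc) :=
    Module.Finite.of_surjective π.toLinearMap hπsurj
  have hrange : LinearMap.range π.toLinearMap = ⊤ := LinearMap.range_eq_top.2 hπsurj
  obtain ⟨σ, hσ⟩ := π.toLinearMap.exists_rightInverse_of_surjective hrange
  have hσ' : ∀ y, π (σ y) = y := fun y => LinearMap.congr_fun hσ y
  obtain ⟨lam', hlam'def⟩ : ∃ lam' : (Γ ⧸ annIdeal ē hēc) →ₗ[F] F,
      ∀ y, lam' y = lam (ē * σ y) :=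
    ⟨lam.comp ((LinearMap.mulLeft F ē).comp σ), fun y => rfl⟩
  have hlam' : ∀ x, lam' (π x) = lam (ē * x) := by
    intro x
    rw [hlam'def]
    congr 1
    exact (hπeq _ _).1 (hσ' (π x))
  have hsym' : ∀ a b, lam' (a * b) = lam' (b * a) := by
    intro a b
    obtain ⟨x, rfl⟩ := hπsurj a
    obtain ⟨y, rfl⟩ := hπsurj b
    rw [← map_mul, ← map_mul, hlam', hlam']
    calc lam (ē * (x * y)) = lam ((ē * x) * y) := by rw [mul_assoc]
      _ = lam (y * (ē * x)) := hsym _ _
      _ = lam ((ē * y) * x) := by rw [← mul_assoc, hēc y]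
      _ = lam (ē * (y * x)) := by rw [mul_assoc]
  have hnd' : ∀ a, a ≠ 0 → ∃ b, lam' (a * b) ≠ 0 := by
    intro a ha
    obtain ⟨x, rfl⟩ := hπsurj a
    have hx : ē * x ≠ 0 := fun h => ha ((hπ0 x).2 h)
    obtain ⟨y, hy⟩ := hnd _ hx
    refine ⟨π y, ?_⟩
    rw [← map_mul, hlam', ← mul_assoc]
    exact hy
  have hcen' : ∀ w : Γ ⧸ annIdeal ē hēc, (∀ x, w * x = x * w) →
      ∃ w0 ∈ centE F ē, π w0 = w := by
    intro w hw
    obtain ⟨w0, rfl⟩ := hπsurj w
    have hc : ∀ x, (ē * w0) * x = x * (ē * w0) := by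
      intro x
      have h1 : π (w0 * x - x * w0) = 0 := by
        rw [map_sub, map_mul, map_mul, hw (π x), sub_self]
      have h2 := (hπ0 _).1 h1
      rw [mul_sub, sub_eq_zero] at h2
      rw [mul_assoc, h2, ← mul_assoc, hēc x, mul_assoc]
    exact ⟨ē * w0, ⟨hc, by rw [← mul_assoc, hē]⟩, hπē w0⟩
  refine ⟨π, lam', hπsurj, hπ0, hπ1, hsym', hnd', hcen', ?_, ?_⟩
  · obtain ⟨f, hf⟩ : ∃ f : ↥(centE F ē) →ₗ[F] ↥(Subalgebra.center F (Γ ⧸ annIdeal ē hēc)),
        ∀ w, ((f w : ↥(Subalgebra.center F (Γ ⧸ annIdeal ē hēc))) : Γ ⧸ annIdeal ē hēc)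
          = π (w : Γ) :=
      ⟨LinearMap.codRestrict (Subalgebra.toSubmodule (Subalgebra.center F (Γ ⧸ annIdeal ē hēc)))
        (π.toLinearMap.comp (centE F ē).subtype) (fun w => by
          show π (w : Γ) ∈ Subalgebra.center F (Γ ⧸ annIdeal ē hēc)
          rw [Subalgebra.mem_center_iff]
          intro y
          obtain ⟨x, rfl⟩ := hπsurj y
          rw [← map_mul, ← map_mul, w.2.1 x]), fun w => rfl⟩
    apply LinearMap.finrank_le_finrank_of_injective (f := f)
    rw [← LinearMap.ker_eq_bot, LinearMap.ker_eq_bot']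
    intro w hw
    have h1 : π (w : Γ) = 0 := by rw [← hf, hw]; rfl
    rw [hπ0, w.2.2] at h1
    exact Subtype.ext h1
  · have h1 := LinearMap.finrank_range_add_finrank_ker π.toLinearMap
    rw [hrange, finrank_top] at h1
    have h2 := LinearMap.finrank_range_add_finrank_ker (LinearMap.mulLeft F ē)
    have hker : LinearMap.ker (LinearMap.mulLeft F ē) = LinearMap.ker π.toLinearMap := by
      ext x
      rw [LinearMap.mem_ker, LinearMap.mem_ker, LinearMap.mulLeft_apply]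
      exact (hπ0 x).symm
    rw [hker] at h2
    omega

/-- The trace functions of the simple modules of a finite-dimensional algebra over an
algebraically closed field. -/
theorem exists_traces {A : Type*} [Ring A] [Algebra F A] [FiniteDimensional F A] [IsAlgClosed F]
    [Nontrivial A] :
    ∃ (L : ℕ) (τ : Fin L → A →ₗ[F] F), 0 < L ∧
      (∀ i x y, τ i (x * y) = τ i (y * x)) ∧
      (∀ i x, IsNilpotent x → τ i x = 0) ∧
      (∀ a : Fin L → F, (∀ x, ∑ i, a i * τ i x = 0) → ∀ i, a i = 0) ∧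
      (L = 1 → ∃ (n : ℕ) (_ : NeZero n) (ψ : A →ₐ[F] Matrix (Fin n) (Fin n) F),
        Function.Surjective ψ ∧
        ∃ k : ℕ, (RingHom.ker (ψ : A →+* Matrix (Fin n) (Fin n) F)) ^ k = ⊥) := by
  classical
  haveI : IsArtinianRing A := IsArtinianRing.of_finite F A
  have hJnil : IsNilpotent (Ring.jacobson A) := IsSemiprimaryRing.isNilpotent
  haveI : FiniteDimensional F (A ⧸ Ring.jacobson A) :=
    Module.Finite.of_surjective (Ideal.Quotient.mkₐ F (Ring.jacobson A)).toLinearMap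
      (Ideal.Quotient.mkₐ_surjective F (Ring.jacobson A))
  obtain ⟨l, d, hd, ⟨e⟩⟩ :=
    IsSemisimpleRing.exists_algEquiv_pi_matrix_of_isAlgClosed F (A ⧸ Ring.jacobson A)
  obtain ⟨φ, hφdef⟩ : ∃ φ : A →ₐ[F] (Π i : Fin l, Matrix (Fin (d i)) (Fin (d i)) F),
      ∀ x, φ x = e (Ideal.Quotient.mk (Ring.jacobson A) x) :=
    ⟨(e : (A ⧸ Ring.jacobson A) →ₐ[F] _).comp (Ideal.Quotient.mkₐ F (Ring.jacobson A)),
      fun x => rfl⟩
  have hφsurj : Function.Surjective φ := by
    intro y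
    obtain ⟨q, hq⟩ := e.surjective y
    obtain ⟨x, hx⟩ := Ideal.Quotient.mk_surjective q
    exact ⟨x, by rw [hφdef, hx, hq]⟩
  have hφker : ∀ x, φ x = 0 ↔ x ∈ Ring.jacobson A := by
    intro x
    rw [hφdef, ← Ideal.Quotient.eq_zero_iff_mem]
    constructor
    · intro h
      exact e.injective (h.trans (map_zero e).symm)
    · intro h
      rw [h, map_zero]
  obtain ⟨kk, hkk⟩ := hJnil
  have hJelt : ∀ x ∈ Ring.jacobson A, IsNilpotent x := by
    intro x hx
    refine ⟨kk, ?_⟩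
    have h1 : x ^ kk ∈ (Ring.jacobson A) ^ kk := Submodule.pow_mem_pow _ hx kk
    rw [hkk] at h1
    exact h1
  obtain ⟨t, htdef⟩ : ∃ t : Fin l → (A →ₗ[F] F), ∀ i x, t i x = (φ x i).trace :=
    ⟨fun i => (Matrix.traceLinearMap (Fin (d i)) F F).comp
      ((LinearMap.proj i).comp φ.toLinearMap), fun i x => rfl⟩
  have httr : ∀ i x y, t i (x * y) = t i (y * x) := by
    intro i x y
    rw [htdef, htdef, map_mul, map_mul, Pi.mul_apply, Pi.mul_apply, Matrix.trace_mul_comm]
  refine ⟨l, t, ?_, httr, ?_, ?_, ?_⟩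
  · by_contra h0
    have hl0 : l = 0 := by omega
    subst hl0
    have h1 : φ 1 = 0 := by
      funext i
      exact i.elim0
    obtain ⟨m, hm⟩ := hJelt 1 ((hφker 1).1 h1)
    rw [one_pow] at hm
    exact one_ne_zero hm
  · intro i x hx
    rw [htdef]
    have h1 : IsNilpotent (φ x i) := by
      obtain ⟨m, hm⟩ := hx
      refine ⟨m, ?_⟩
      have h2 : φ (x ^ m) i = 0 := by rw [hm, map_zero]; rfl
      rw [map_pow, Pi.pow_apply] at h2
      exact h2
    exact (Matrix.isNilpotent_trace_of_isNilpotent h1).eq_zero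
  · intro a ha i
    haveI := hd i
    obtain ⟨y, hy⟩ := hφsurj (Pi.single i (Matrix.single 0 0 1))
    have h1 := ha y
    rw [Finset.sum_eq_single i] at h1
    · rw [htdef, hy, Pi.single_eq_same, Matrix.trace_single_eq_same, mul_one] at h1
      exact h1
    · intro j _ hji
      rw [htdef, hy, Pi.single_eq_of_ne hji, Matrix.trace_zero, mul_zero]
    · intro h
      exact absurd (Finset.mem_univ i) h
  · intro hl1
    subst hl1
    refine ⟨d 0, hd 0, (Pi.evalAlgHom F _ 0).comp φ, ?_, kk, ?_⟩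
    · intro Y
      obtain ⟨y, hy⟩ := hφsurj (Pi.single 0 Y)
      refine ⟨y, ?_⟩
      show φ y 0 = Y
      rw [hy, Pi.single_eq_same]
    · have hle : RingHom.ker (((Pi.evalAlgHom F _ 0).comp φ : A →ₐ[F] _) :
          A →+* Matrix (Fin (d 0)) (Fin (d 0)) F) ≤ Ring.jacobson A := by
        intro x hx
        rw [RingHom.mem_ker] at hx
        have hx' : φ x 0 = 0 := hx
        rw [← hφker]
        funext i
        have hi : i = 0 := Subsingleton.elim _ _
        rw [hi, hx']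
        rfl
      have h2 := Ideal.pow_right_mono hle kk
      rw [hkk] at h2
      exact le_bot_iff.1 h2

end Cfsg.Agent.Lib.Helper75.BlockAlg
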