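import Mathlib

/-!
# Linear independence lifts from a residue field

`indep_of_reduction`: a finite family of functions with values in a commutative ring `R` whose
reductions modulo a surjection `q : R → F` onto a field are linearly independent is linearly
independent over any field `K` into which `R` embeds.
-/

set_option autoImplicit false
set_option linter.style.haveILetI false

namespace Cfsg.Agent.Lib.Helper75.LiftIndep

theorem indep_of_reduction {R K F : Type*} [CommRing R] [Field K] [Field F]
    (ι : R →+* K) (hι : Function.Injective ι) (q : R →+* F) (hq : Function.Surjective q)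
    {X I : Type*} [Fintype X] [Fintype I] (ψ : I → X → R)
    (hli : ∀ a : I → F, (∀ x, ∑ i, a i * q (ψ i x) = 0) → ∀ i, a i = 0) :
    ∀ c : I → K, (∀ x, ∑ i, c i * ι (ψ i x) = 0) → ∀ i, c i = 0 := by
  classical
  obtain ⟨φ, hφ⟩ : ∃ φ : I → X → F, ∀ i x, φ i x = q (ψ i x) := ⟨fun i x => q (ψ i x), fun _ _ => rfl⟩
  have hinj : LinearMap.ker (Fintype.linearCombination F φ) = ⊥ := by
    rw [LinearMap.ker_eq_bot']
    intro a ha
    have ha' : ∀ x : X, ∑ i, a i * q (ψ i x) = 0 := by
      intro x
      have := congrFun ha x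
      rw [Fintype.linearCombination_apply] at this
      simpa [Finset.sum_apply, hφ] using this
    funext i
    exact hli a ha' i
  obtain ⟨Λ, hΛ⟩ := LinearMap.exists_leftInverse_of_injective _ hinj
  obtain ⟨A, hAdef⟩ : ∃ A : I → X → F, ∀ j x, A j x = Λ (fun x' => if x = x' then 1 else 0) j :=
    ⟨fun j x => Λ (fun x' => if x = x' then 1 else 0) j, fun _ _ => rfl⟩
  have hA : ∀ i j, ∑ x, φ i x * A j x = if i = j then 1 else 0 := by
    intro i j
    have h1 : Λ (φ i) j = ∑ x, φ i x * A j x := by
      rw [LinearMap.pi_apply_eq_sum_univ Λ (φ i), Finset.sum_apply]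
      exact Finset.sum_congr rfl fun x _ => by rw [Pi.smul_apply, smul_eq_mul, hAdef]
    have h2 : Fintype.linearCombination F φ (Pi.single i 1) = φ i := by
      rw [Fintype.linearCombination_apply, Finset.sum_eq_single i]
      · rw [Pi.single_eq_same, one_smul]
      · intro j _ hj
        rw [Pi.single_eq_of_ne hj, zero_smul]
      · intro h
        exact absurd (Finset.mem_univ _) h
    have h3 := LinearMap.congr_fun hΛ (Pi.single i 1)
    rw [LinearMap.comp_apply, h2, LinearMap.id_apply] at h3
    rw [← h1, h3, Pi.single_apply]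
    by_cases hij : i = j
    · rw [if_pos hij, if_pos hij.symm]
    · rw [if_neg hij, if_neg (fun h => hij h.symm)]
  obtain ⟨σ, hσ⟩ : ∃ σ : F → R, ∀ c, q (σ c) = c :=
    ⟨Function.surjInv hq, Function.surjInv_eq hq⟩
  obtain ⟨T, hTdef⟩ : ∃ T : Matrix I I R, ∀ i j, T i j = ∑ x, ψ i x * σ (A j x) :=
    ⟨fun i j => ∑ x, ψ i x * σ (A j x), fun _ _ => rfl⟩
  have hT : q.mapMatrix T = (1 : Matrix I I F) := by
    ext i j
    rw [RingHom.mapMatrix_apply, Matrix.map_apply, hTdef, map_sum, Matrix.one_apply, ← hA i j]
    refine Finset.sum_congr rfl fun x _ => ?_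
    rw [map_mul, hσ, hφ]
  have hdet : T.det ≠ 0 := by
    intro h0
    have h1 := RingHom.map_det q T
    rw [h0, map_zero, hT, Matrix.det_one] at h1
    exact zero_ne_one h1
  have hdetK : (ι.mapMatrix T).det ≠ 0 := by
    rw [← RingHom.map_det]
    intro h0
    exact hdet (hι (h0.trans (map_zero ι).symm))
  intro c hc
  have hv : Matrix.vecMul c (ι.mapMatrix T) = 0 := by
    funext j
    show ∑ i, c i * (ι.mapMatrix T) i j = 0
    have e2 : ∀ i, c i * (ι.mapMatrix T) i j = ∑ x, (c i * ι (ψ i x)) * ι (σ (A j x)) := by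
      intro i
      rw [RingHom.mapMatrix_apply, Matrix.map_apply, hTdef, map_sum, Finset.mul_sum]
      exact Finset.sum_congr rfl fun x _ => by rw [map_mul]; ring
    rw [Finset.sum_congr rfl (fun i _ => e2 i), Finset.sum_comm]
    refine Finset.sum_eq_zero fun x _ => ?_
    rw [← Finset.sum_mul, hc x, zero_mul]
  have := Matrix.eq_zero_of_vecMul_eq_zero hdetK hv
  intro i
  exact congrFun this i

end Cfsg.Agent.Lib.Helper75.LiftIndep
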