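import Mathlib
import Cfsg.Agent.Lib.Helper17.BrBridge
import Cfsg.Agent.Lib.Helper75.LiftIndep

/-!
# Invariant class functions over the residue field are bounded by ordinary characters

`bridge`: let `β` be the (local-integral) coefficients of the idempotent of a set `X` of
irreducible characters, `q` a surjection of the local ring onto a field `F`, and `φ i` class
functions with values in `F`, invariant under convolution with the reduced idempotent and
linearly independent on a set `T` of group elements.  Then their number is at most the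
dimension of the span of the restrictions to `T` of the characters in `X`.
-/

set_option autoImplicit false
set_option linter.style.haveILetI false
set_option linter.unusedSectionVars false

namespace Cfsg.Agent.Lib.Helper75.ModBridge

open Cfsg Cfsg.Agent.Lib.Helper77.LocalRing Cfsg.Agent.Lib.Helper17.BrBridge

universe u
variable {G : Type u} [Group G] [Fintype G] {M : Ideal AlgInt}

open Classical in
/-- Restriction of a function to a set, extended by zero. -/
noncomputable def restr (T : Set G) : (G → ℂ) →ₗ[ℂ] (G → ℂ) where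
  toFun f := fun g => if g ∈ T then f g else 0
  map_add' f f' := by
    funext g
    simp only [Pi.add_apply]
    split_ifs <;> simp
  map_smul' c f := by
    funext g
    simp only [Pi.smul_apply, smul_eq_mul, RingHom.id_apply]
    split_ifs <;> simp

open Classical in
theorem restr_apply (T : Set G) (f : G → ℂ) (g : G) :
    restr T f g = if g ∈ T then f g else 0 := rfl

theorem bridge (hMp : M.IsPrime) {F : Type*} [Field F] (q : localSubring M hMp →+* F)
    (hqs : Function.Surjective q)
    (X : Set (IrrCharacter G)) (β : G → localSubring M hMp)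
    (hβ : ∀ g, ((β g : localSubring M hMp) : ℂ) = blockCoeff X g)
    (T : Set G) {I : Type*} [Fintype I] (φ : I → G → F)
    (hcl : ∀ i g h, φ i (h * g * h⁻¹) = φ i g)
    (hinv : ∀ i g, ∑ y, q (β y) * φ i (y * g) = φ i g)
    (hli : ∀ a : I → F, (∀ g ∈ T, ∑ i, a i * φ i g = 0) → ∀ i, a i = 0) :
    Fintype.card I ≤ Module.finrank ℂ ↥(Submodule.map (restr T) (spanB X)) := by
  classical
  obtain ⟨σ, hσ⟩ : ∃ σ : F → localSubring M hMp, ∀ c, q (σ c) = c :=
    ⟨Function.surjInv hqs, Function.surjInv_eq hqs⟩
  obtain ⟨ψ, hψdef⟩ : ∃ ψ : I → G → localSubring M hMp,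
      ∀ i g, ψ i g = ∑ y, β y * σ (φ i (y * g)) :=
    ⟨fun i g => ∑ y, β y * σ (φ i (y * g)), fun _ _ => rfl⟩
  have hqψ : ∀ i g, q (ψ i g) = φ i g := by
    intro i g
    rw [hψdef, map_sum, ← hinv i g]
    exact Finset.sum_congr rfl fun y _ => by rw [map_mul, hσ]
  obtain ⟨Ψ, hΨdef⟩ : ∃ Ψ : I → G → ℂ, ∀ i g, Ψ i g = ((ψ i g : localSubring M hMp) : ℂ) :=
    ⟨fun i g => ((ψ i g : localSubring M hMp) : ℂ), fun _ _ => rfl⟩
  have hΨmem : ∀ i, Ψ i ∈ spanB X := by
    intro i
    have hcf : IsClassFunction G (fun g => ((σ (φ i g) : localSubring M hMp) : ℂ)) := by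
      intro g h
      show ((σ (φ i (h * g * h⁻¹)) : localSubring M hMp) : ℂ) = _
      rw [hcl]
    have e1 : Ψ i = conv X (fun g => ((σ (φ i g) : localSubring M hMp) : ℂ)) := by
      funext g
      rw [hΨdef, hψdef, conv_apply]
      push_cast
      exact Finset.sum_congr rfl fun y _ => by rw [hβ]
    rw [e1]
    exact conv_mem_span X _ hcf
  obtain ⟨ψ', hψ'def⟩ : ∃ ψ' : I → G → localSubring M hMp,
      ∀ i g, ψ' i g = if g ∈ T then ψ i g else 0 :=
    ⟨fun i g => if g ∈ T then ψ i g else 0, fun _ _ => rfl⟩
  have hind := Cfsg.Agent.Lib.Helper75.LiftIndep.indep_of_reduction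
    (localSubring M hMp).subtype Subtype.val_injective q hqs ψ' (by
      intro a ha i
      refine hli a (fun g hg => ?_) i
      have h1 := ha g
      rw [← h1]
      exact Finset.sum_congr rfl fun j _ => by rw [hψ'def, if_pos hg, hqψ])
  have hΨli : LinearIndependent ℂ (fun i => restr T (Ψ i)) := by
    rw [Fintype.linearIndependent_iff]
    intro c hc
    refine hind c (fun g => ?_)
    have h1 := congrFun hc g
    simp only [Finset.sum_apply, Pi.smul_apply, smul_eq_mul, Pi.zero_apply] at h1
    rw [← h1]
    refine Finset.sum_congr rfl fun j _ => ?_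
    rw [hψ'def, restr_apply, hΨdef]
    split_ifs <;> simp
  obtain ⟨Ψ', hΨ'⟩ : ∃ Ψ' : I → ↥(Submodule.map (restr T) (spanB X)),
      ∀ i, (Ψ' i : G → ℂ) = restr T (Ψ i) :=
    ⟨fun i => ⟨restr T (Ψ i), Submodule.mem_map_of_mem (hΨmem i)⟩, fun _ => rfl⟩
  have hΨ'li : LinearIndependent ℂ Ψ' := by
    apply LinearIndependent.of_comp (Submodule.map (restr T) (spanB X)).subtype
    have : (Submodule.map (restr T) (spanB X)).subtype ∘ Ψ' = fun i => restr T (Ψ i) := by
      funext i
      exact hΨ' i
    rw [this]
    exact hΨli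
  exact hΨ'li.fintype_card_le_finrank

end Cfsg.Agent.Lib.Helper75.ModBridge
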