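import Mathlib
import Cfsg.Prelude.Def_Blocks
import Cfsg.Agent.Lib.Helper77.LocalRing
import Cfsg.Agent.Lib.Helper75.RankExt

/-!
# The residue field of the local ring is algebraically closed (with surjectivity)

`exists_resField2`: there is an algebraically closed field `F` and a ring homomorphism from the
local subring at `M` to `F` whose kernel is the local ideal.
-/

set_option autoImplicit false
set_option linter.style.haveILetI false

namespace Cfsg.Agent.Lib.Helper75.ResField2

open Cfsg Cfsg.Agent.Lib.Helper77.LocalRing Cfsg.Agent.Lib.Helper75.RankExt Polynomial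

variable {M : Ideal AlgInt}

theorem exists_resField2 (hMp : M.IsPrime) (hMmax : M.IsMaximal) :
    ∃ (F : Type) (_ : Field F) (_ : IsAlgClosed F) (q : localSubring M hMp →+* F),
      (∀ x : localSubring M hMp, q x = 0 ↔ MemLocalIdeal M (x : ℂ)) ∧ Function.Surjective q := by
  haveI := locIdeal_isMaximal hMp
  letI : Field (localSubring M hMp ⧸ locIdeal hMp) := Ideal.Quotient.field (locIdeal hMp)
  obtain ⟨q, hqdef⟩ : ∃ q : localSubring M hMp →+* (localSubring M hMp ⧸ locIdeal hMp),
      q = Ideal.Quotient.mk (locIdeal hMp) := ⟨_, rfl⟩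
  have hq0 : ∀ x : localSubring M hMp, q x = 0 ↔ MemLocalIdeal M (x : ℂ) := by
    intro x
    rw [hqdef, Ideal.Quotient.eq_zero_iff_mem]
    rfl
  -- the map from the algebraic integers
  obtain ⟨inc, hinc⟩ : ∃ inc : AlgInt →+* localSubring M hMp, ∀ a : AlgInt,
      ((inc a : localSubring M hMp) : ℂ) = (a : ℂ) :=
    ⟨{ toFun := fun a => ⟨(a : ℂ), memLocalRing_algInt hMp a⟩
       map_one' := rfl
       map_mul' := fun _ _ => rfl
       map_zero' := rfl
       map_add' := fun _ _ => rfl }, fun _ => rfl⟩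
  have hsurj : Function.Surjective (q.comp inc) := by
    intro y
    obtain ⟨x, rfl⟩ : ∃ x, q x = y := by
      rw [hqdef]
      exact Ideal.Quotient.mk_surjective y
    obtain ⟨a, b, hb, hab⟩ := x.2
    obtain ⟨b', i, hi, hbi⟩ := hMmax.exists_inv hb
    refine ⟨a * b', ?_⟩
    rw [RingHom.comp_apply, ← sub_eq_zero, ← map_sub, hq0]
    refine ⟨-(a * i), b, M.neg_mem (M.mul_mem_left a hi), hb, ?_⟩
    have hb0 : (b : ℂ) ≠ 0 := coe_ne_zero_of_not_mem hb
    have h1 : (b' : ℂ) * (b : ℂ) + (i : ℂ) = 1 := by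
      have := congrArg (fun t : AlgInt => (t : ℂ)) hbi
      simpa using this
    have h2 : (i : ℂ) = 1 - (b' : ℂ) * (b : ℂ) := by rw [← h1]; ring
    push_cast
    rw [hinc, ← hab]
    push_cast
    rw [h2]
    field_simp
    ring
  have hAC : IsAlgClosed (localSubring M hMp ⧸ locIdeal hMp) := by
    apply IsAlgClosed.of_exists_root
    intro P hPmon hPirr
    obtain ⟨P0, hP0⟩ := Polynomial.map_surjective (q.comp inc) hsurj P
    obtain ⟨P1, hP1map, hP1deg, hP1mon⟩ :=
      Polynomial.lifts_and_natDegree_eq_and_monic ((Polynomial.mem_lifts P).2 ⟨P0, hP0⟩) hPmon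
    have hdeg : (P1.map (algebraMap AlgInt ℂ)).degree ≠ 0 := by
      rw [Polynomial.degree_map_eq_of_injective (FaithfulSMul.algebraMap_injective AlgInt ℂ)]
      intro h0
      have h1 : P1.natDegree = 0 := Polynomial.natDegree_eq_zero_iff_degree_le_zero.2 h0.le
      rw [hP1deg] at h1
      have h2 := Polynomial.degree_pos_of_irreducible hPirr
      rw [Polynomial.degree_eq_natDegree hPmon.ne_zero, h1] at h2
      exact lt_irrefl _ h2
    obtain ⟨x, hx⟩ := IsAlgClosed.exists_root (P1.map (algebraMap AlgInt ℂ)) hdeg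
    have hxint : IsIntegral AlgInt x := by
      refine ⟨P1, hP1mon, ?_⟩
      rw [← Polynomial.eval_map]
      exact hx
    have hxint' : IsIntegral ℤ x := isIntegral_trans x hxint
    obtain ⟨xa, hxa⟩ : ∃ xa : AlgInt, (xa : ℂ) = x := ⟨⟨x, hxint'⟩, rfl⟩
    refine ⟨q.comp inc xa, ?_⟩
    rw [← hP1map, Polynomial.eval_map, Polynomial.eval₂_hom]
    have h0 : Polynomial.eval xa P1 = 0 := by
      apply Subtype.ext
      have h1 : ((Polynomial.eval xa P1 : AlgInt) : ℂ)
          = Polynomial.eval₂ (algebraMap AlgInt ℂ) (xa : ℂ) P1 :=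
        (Polynomial.eval₂_at_apply (algebraMap AlgInt ℂ) xa).symm
      rw [h1, hxa, ← Polynomial.eval_map]
      exact hx
    rw [h0, map_zero]
  refine ⟨_, _, hAC, q, hq0, ?_⟩
  rw [hqdef]
  exact Ideal.Quotient.mk_surjective

end Cfsg.Agent.Lib.Helper75.ResField2
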