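import Mathlib
import Cfsg.Prelude.Def_Blocks
import Cfsg.Prelude.Def_BlockRank
import Cfsg.Agent.Lib.Helper77.BlockIdem
import Cfsg.Agent.Lib.Helper75.TwoChar
import Cfsg.Agent.Lib.Helper75.BlockAlg
import Cfsg.Agent.Lib.Helper75.ModBridge
import Cfsg.Agent.Lib.Helper75.ResField2
import Cfsg.Agent.Lib.CT.SectionOrth
import Cfsg.Agent.Lib.CT.PrincipalSection
import Cfsg.Agent.Lib.CT.Orth

/-!
# Reduction of a block modulo the local ideal

Group-algebra lemmas for the reduction `ē` of a block idempotent to the residue field `F`: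
* `eq_sum_single`, `central_of_class`: basic group algebra facts;
* `finrank_of_idem`: the dimension of `ē F[G]` is `|G| e(1)`;
* `card_conjClasses_le`: the centre of `F[G]` has dimension at least the class number;
* `finrank_centE_le`: the centre of `ē F[G]` has dimension at most the number of characters;
* `num_traces_le`: the number of trace functions of `ē F[G]` is at most the block rank.
-/

set_option autoImplicit false
set_option linter.style.haveILetI false
set_option linter.unusedSectionVars false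

namespace Cfsg.Agent.Lib.Helper75.BlockRed

open Cfsg Cfsg.Agent.Lib.Helper77.LocalRing Cfsg.Agent.Lib.Helper77.CentralChar
  Cfsg.Agent.Lib.Helper77.ClassSum Cfsg.Agent.Lib.Helper77.BlockIdem
  Cfsg.Agent.Lib.CT.Wedderburn Cfsg.Agent.Lib.Helper75.GrpAlg
  Cfsg.Agent.Lib.Helper75.TwoChar Cfsg.Agent.Lib.Helper75.BlockAlg
open scoped ComplexConjugate

universe u
variable {G : Type u} [Group G] {M : Ideal AlgInt}

theorem eq_sum_single {k : Type*} [CommRing k] [Fintype G] (x : MonoidAlgebra k G) :
    x = ∑ g, x.coeff g • MonoidAlgebra.single g (1 : k) := by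
  classical
  apply MonoidAlgebra.ext
  ext h
  rw [MonoidAlgebra.coeff_sum, Finsupp.finsetSum_apply, Finset.sum_eq_single h]
  · rw [MonoidAlgebra.coeff_smul, Finsupp.smul_apply, MonoidAlgebra.coeff_single,
      Finsupp.single_eq_same, smul_eq_mul, mul_one]
  · intro g _ hg
    rw [MonoidAlgebra.coeff_smul, Finsupp.smul_apply, MonoidAlgebra.coeff_single,
      Finsupp.single_eq_of_ne hg.symm, smul_zero]
  · intro hh
    exact absurd (Finset.mem_univ h) hh

theorem central_of_class {k : Type*} [CommRing k] (x : MonoidAlgebra k G)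
    (h : ∀ a g : G, x.coeff (a * g * a⁻¹) = x.coeff g) : ∀ y, x * y = y * x := by
  apply central_of_comm_single
  intro g
  apply MonoidAlgebra.ext
  ext b
  rw [MonoidAlgebra.coeff_mul_single_apply, MonoidAlgebra.coeff_single_mul_apply, mul_one,
    one_mul]
  have h1 := h g⁻¹ (b * g⁻¹)
  rw [inv_inv, mul_assoc, inv_mul_cancel_right] at h1
  exact h1.symm

theorem finrank_of_idem {R F : Type*} [CommRing R] [Field F] [Fintype G]
    (ι : R →+* ℂ) (hι : Function.Injective ι) (q : R →+* F) (ê : MonoidAlgebra R G)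
    (hê : ê * ê = ê) (r : ℕ)
    (hr : (Nat.card G : ℂ) * (MonoidAlgebra.mapRingHom G ι ê).coeff 1 = r) :
    Module.finrank F (LinearMap.range (LinearMap.mulLeft F (MonoidAlgebra.mapRingHom G q ê)))
      = r := by
  classical
  rw [finrank_range_mulLeft, ← lmat_map q ê]
  apply Cfsg.Agent.Lib.Helper75.IdemRank.finrank_range_of_idem ι hι q (lmat ê)
    (by rw [← lmat_mul, hê]) r
  rw [lmat_map, trace_lmat, ← Nat.card_eq_fintype_card]
  exact hr

theorem card_conjClasses_le {F : Type*} [Field F] [Fintype G] :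
    Nat.card (ConjClasses G) ≤ Module.finrank F ↥(centE F (1 : MonoidAlgebra F G)) := by
  classical
  haveI : Module.Finite F (MonoidAlgebra F G) :=
    Module.Finite.equiv (MonoidAlgebra.coeffLinearEquiv (R := F) (S := F) (M := G)).symm
  obtain ⟨e, he⟩ : ∃ e : MonoidAlgebra F G ≃ₗ[F] (G → F), ∀ y g, e y g = y.coeff g :=
    ⟨(MonoidAlgebra.coeffLinearEquiv F).trans (Finsupp.linearEquivFunOnFinite F F G),
      fun y g => rfl⟩
  obtain ⟨Θ₀, hΘ₀⟩ : ∃ Θ₀ : (ConjClasses G → F) →ₗ[F] MonoidAlgebra F G,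
      ∀ f g, (Θ₀ f).coeff g = f (ConjClasses.mk g) :=
    ⟨e.symm.toLinearMap.comp (LinearMap.funLeft F F ConjClasses.mk), fun f g => by
      rw [← he]
      show e (e.symm _) g = _
      rw [LinearEquiv.apply_symm_apply]
      rfl⟩
  obtain ⟨Θ, hΘ⟩ : ∃ Θ : (ConjClasses G → F) →ₗ[F] ↥(centE F (1 : MonoidAlgebra F G)),
      ∀ f, ((Θ f : ↥(centE F (1 : MonoidAlgebra F G))) : MonoidAlgebra F G) = Θ₀ f :=
    ⟨LinearMap.codRestrict (centE F (1 : MonoidAlgebra F G)) Θ₀ (fun f => by
      refine ⟨central_of_class _ (fun a g => ?_), one_mul _⟩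
      rw [hΘ₀, hΘ₀]
      congr 1
      exact ConjClasses.mk_eq_mk_iff_isConj.2 (isConj_iff.2 ⟨a, rfl⟩).symm), fun f => rfl⟩
  have hinj : Function.Injective Θ := by
    rw [← LinearMap.ker_eq_bot, LinearMap.ker_eq_bot']
    intro f hf
    funext c
    obtain ⟨g, rfl⟩ := ConjClasses.mk_surjective c
    have h2 := hΘ₀ f g
    rw [← hΘ, hf] at h2
    exact h2.symm
  have h1 := LinearMap.finrank_le_finrank_of_injective hinj
  rw [Module.finrank_fintype_fun_eq_card] at h1
  rw [Nat.card_eq_fintype_card]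
  exact h1

theorem finrank_centE_le [Fintype G] (hMp : M.IsPrime) {F : Type*} [Field F]
    (q : localSubring M hMp →+* F) (hqs : Function.Surjective q) (X : Set (IrrCharacter G))
    (ê : MonoidAlgebra (localSubring M hMp) G) (hê : incl hMp ê = blockIdem X) :
    Module.finrank F ↥(centE F (MonoidAlgebra.mapRingHom G q ê)) ≤ Nat.card X := by
  classical
  haveI : Module.Finite F (MonoidAlgebra F G) :=
    Module.Finite.equiv (MonoidAlgebra.coeffLinearEquiv (R := F) (S := F) (M := G)).symm
  obtain ⟨ē, hēdef⟩ : ∃ ē, ē = MonoidAlgebra.mapRingHom G q ê := ⟨_, rfl⟩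
  rw [← hēdef]
  obtain ⟨m, hm⟩ : ∃ m, m = Module.finrank F ↥(centE F ē) := ⟨_, rfl⟩
  obtain ⟨b⟩ : Nonempty (Module.Basis (Fin m) F ↥(centE F ē)) :=
    ⟨hm ▸ Module.finBasis F _⟩
  have hēcoeff : ∀ g, ē.coeff g = q (ê.coeff g) := by
    intro g
    rw [hēdef, MonoidAlgebra.coeff_mapRingHom]
  have hb := Cfsg.Agent.Lib.Helper75.ModBridge.bridge hMp q hqs X (fun g => ê.coeff g)
    (fun g => by rw [← coeff_incl, hê, coeff_blockIdem]) Set.univ
    (fun i g => ((b i : ↥(centE F ē)) : MonoidAlgebra F G).coeff g⁻¹)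
    (by
      intro i g h
      show ((b i : ↥(centE F ē)) : MonoidAlgebra F G).coeff (h * g * h⁻¹)⁻¹ = _
      rw [show (h * g * h⁻¹)⁻¹ = h * g⁻¹ * h⁻¹ by group]
      exact coeff_conj_of_central _ (b i).2.1 h g⁻¹)
    (by
      intro i g
      have h1 : ((b i : ↥(centE F ē)) : MonoidAlgebra F G) * ē
          = ((b i : ↥(centE F ē)) : MonoidAlgebra F G) := by
        rw [(b i).2.1 ē]
        exact (b i).2.2
      have h2 := congrArg (fun y : MonoidAlgebra F G => y.coeff g⁻¹) h1
      simp only [coeff_mul_eq_sum] at h2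
      rw [← h2]
      refine Finset.sum_congr rfl fun y _ => ?_
      rw [hēcoeff, mul_inv_rev, mul_comm])
    (by
      intro a ha i
      have h1 : ∑ j, a j • b j = 0 := by
        apply Subtype.ext
        apply MonoidAlgebra.ext
        ext h
        have h2 := ha h⁻¹ (Set.mem_univ _)
        rw [inv_inv] at h2
        rw [Submodule.coe_sum, MonoidAlgebra.coeff_sum, Finsupp.finsetSum_apply]
        refine Eq.trans ?_ h2
        refine Finset.sum_congr rfl fun j _ => ?_
        rw [Submodule.coe_smul, MonoidAlgebra.coeff_smul, Finsupp.smul_apply, smul_eq_mul]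
      exact Fintype.linearIndependent_iff.1 b.linearIndependent a h1 i)
  rw [Fintype.card_fin] at hb
  rw [← hm]
  exact hb.trans ((Submodule.finrank_map_le _ _).trans
    (Cfsg.Agent.Lib.Helper17.BrBridge.finrank_spanB_le X))

theorem restr_eq_pRegularPart (p : ℕ) (χ : G → ℂ) [Fintype G] :
    Cfsg.Agent.Lib.Helper75.ModBridge.restr {g : G | IsPRegular p g} χ = pRegularPart p χ := by
  classical
  funext g
  rw [Cfsg.Agent.Lib.Helper75.ModBridge.restr_apply]
  unfold pRegularPart
  by_cases h : IsPRegular p g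
  · rw [if_pos h, if_pos (show g ∈ {g : G | IsPRegular p g} from h)]
  · rw [if_neg h, if_neg (show g ∉ {g : G | IsPRegular p g} from h)]

theorem num_traces_le [Fintype G] (p : ℕ) [Fact p.Prime] (hM : IsPModular p M)
    (hMp : M.IsPrime) {F : Type*} [Field F] (q : localSubring M hMp →+* F)
    (hq0 : ∀ x : localSubring M hMp, q x = 0 ↔ MemLocalIdeal M (x : ℂ))
    (hqs : Function.Surjective q) (B : Set (IrrCharacter G))
    (ê : MonoidAlgebra (localSubring M hMp) G) (hê : incl hMp ê = blockIdem B)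
    {L : ℕ} (τ : Fin L → MonoidAlgebra F G →ₗ[F] F)
    (hτc : ∀ i x y, τ i (x * y) = τ i (y * x))
    (hτn : ∀ i x, IsNilpotent x → τ i x = 0)
    (hτe : ∀ i x, τ i (MonoidAlgebra.mapRingHom G q ê * x) = τ i x)
    (hτli : ∀ a : Fin L → F, (∀ x, ∑ i, a i * τ i x = 0) → ∀ i, a i = 0) :
    L ≤ blockRank p B := by
  classical
  have hpp : p.Prime := Fact.out
  -- characteristic `p`
  have hpF : (p : F) = 0 := by
    have h1 : q (p : localSubring M hMp) = 0 := by
      rw [hq0]
      have h2 := memLocalIdeal_natCast_of_dvd hM (dvd_refl p)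
      exact_mod_cast h2
    rw [map_natCast] at h1
    exact h1
  haveI : CharP F p := by
    obtain ⟨c, hc⟩ := CharP.exists F
    have h1 : c ∣ p := (CharP.cast_eq_zero_iff F c p).1 hpF
    rcases (Nat.dvd_prime hpp).1 h1 with h2 | h2
    · exact absurd h2 (CharP.char_ne_one F c)
    · rw [← h2]
      exact hc
  haveI : CharP (MonoidAlgebra F G) p :=
    charP_of_injective_algebraMap (algebraMap F (MonoidAlgebra F G)).injective p
  obtain ⟨ē, hēdef⟩ : ∃ ē, ē = MonoidAlgebra.mapRingHom G q ê := ⟨_, rfl⟩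
  rw [← hēdef] at hτe
  have hēcoeff : ∀ g, ē.coeff g = q (ê.coeff g) := by
    intro g
    rw [hēdef, MonoidAlgebra.coeff_mapRingHom]
  -- constancy on `p`-sections
  have hsec : ∀ g : G, ∃ s : G, IsPRegular p s ∧
      ∀ i, τ i (MonoidAlgebra.single g 1) = τ i (MonoidAlgebra.single s 1) := by
    intro g
    obtain ⟨u, s, hus, hcomm, ⟨k, hk⟩, hs⟩ :=
      Cfsg.Agent.Lib.CT.SectionOrth.exists_isPPart p hpp g
    refine ⟨s, hs, fun i => ?_⟩
    obtain ⟨N, hN⟩ : ∃ N : MonoidAlgebra F G, N = MonoidAlgebra.single u 1 - 1 := ⟨_, rfl⟩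
    have hNnil : IsNilpotent N := by
      refine ⟨p ^ k, ?_⟩
      rw [hN, sub_pow_char_pow_of_commute _ _ (Commute.one_right _), one_pow,
        MonoidAlgebra.single_pow, one_pow, ← hk, pow_orderOf_eq_one, MonoidAlgebra.one_def,
        sub_self]
    have hNc : Commute N (MonoidAlgebra.single s (1 : F)) := by
      show N * MonoidAlgebra.single s (1 : F) = MonoidAlgebra.single s (1 : F) * N
      rw [hN, sub_mul, mul_sub, MonoidAlgebra.single_mul_single,
        MonoidAlgebra.single_mul_single, hcomm.eq]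
      simp only [one_mul, mul_one]
    have h1 : (MonoidAlgebra.single g 1 : MonoidAlgebra F G)
        = N * MonoidAlgebra.single s 1 + MonoidAlgebra.single s 1 := by
      rw [hN, sub_mul, one_mul, sub_add_cancel, MonoidAlgebra.single_mul_single, hus, mul_one]
    rw [h1, map_add, hτn i _ (hNc.isNilpotent_mul_right hNnil), zero_add]
  have hb := Cfsg.Agent.Lib.Helper75.ModBridge.bridge hMp q hqs B (fun g => ê.coeff g)
    (fun g => by rw [← coeff_incl, hê, coeff_blockIdem]) {g : G | IsPRegular p g}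
    (fun i g => τ i (MonoidAlgebra.single g 1))
    (by
      intro i g h
      show τ i (MonoidAlgebra.single (h * g * h⁻¹) 1) = τ i (MonoidAlgebra.single g 1)
      have h1 : (MonoidAlgebra.single (h * g * h⁻¹) 1 : MonoidAlgebra F G)
          = MonoidAlgebra.single h 1 * (MonoidAlgebra.single g 1 * MonoidAlgebra.single h⁻¹ 1) := by
        rw [MonoidAlgebra.single_mul_single, MonoidAlgebra.single_mul_single, mul_one, mul_one,
          mul_assoc]
      rw [h1, hτc, mul_assoc, MonoidAlgebra.single_mul_single, inv_mul_cancel, mul_one,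
        ← MonoidAlgebra.one_def, mul_one])
    (by
      intro i g
      show ∑ y, q (ê.coeff y) * τ i (MonoidAlgebra.single (y * g) 1)
        = τ i (MonoidAlgebra.single g 1)
      rw [← hτe i (MonoidAlgebra.single g 1)]
      conv_rhs => rw [eq_sum_single ē, Finset.sum_mul, map_sum]
      refine Finset.sum_congr rfl fun y _ => ?_
      rw [smul_mul_assoc, map_smul, MonoidAlgebra.single_mul_single, mul_one, hēcoeff,
        smul_eq_mul])
    (by
      intro a ha
      apply hτli
      intro x
      have hg : ∀ g : G, ∑ i, a i * τ i (MonoidAlgebra.single g 1) = 0 := by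
        intro g
        obtain ⟨s, hs, hsg⟩ := hsec g
        rw [← ha s hs]
        exact Finset.sum_congr rfl fun i _ => by rw [hsg i]
      rw [eq_sum_single x]
      simp only [map_sum, map_smul, smul_eq_mul, Finset.mul_sum]
      rw [Finset.sum_comm]
      refine Finset.sum_eq_zero fun g _ => ?_
      rw [← mul_zero (x.coeff g), ← hg g, Finset.mul_sum]
      refine Finset.sum_congr rfl fun i _ => ?_
      ring)
  rw [Fintype.card_fin] at hb
  refine hb.trans (le_of_eq ?_)
  unfold blockRank Cfsg.Agent.Lib.Helper17.BrBridge.spanB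
  rw [Submodule.map_span, Set.image_image]
  have hset : (fun χ : IrrCharacter G =>
      Cfsg.Agent.Lib.Helper75.ModBridge.restr {g : G | IsPRegular p g} (χ : G → ℂ)) '' B
      = (fun χ : IrrCharacter G => pRegularPart p (χ : G → ℂ)) '' B :=
    Set.image_congr fun χ _ => restr_eq_pRegularPart p _
  rw [hset]

end Cfsg.Agent.Lib.Helper75.BlockRed
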