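import Mathlib
import Cfsg.Agent.Lib.Helper75.BlockRed
import Cfsg.Agent.Lib.Helper75.IdemRank
import Cfsg.Agent.Lib.Helper75.GrpAlg
import Cfsg.Agent.Lib.CT.Wedderburn
import Cfsg.Agent.Lib.CT.Orth

/-!
# The Gram form of idempotents of a group algebra

For `a b` in a group algebra, `tmat a b` is the matrix of `x ↦ a * x * b` in the basis of group
elements.  Over `ℂ` its trace is `∑ χ, χ[a] χ[b]` (`sum_pair_mul_pair`), where
`χ[a] = pair χ a = ∑ g, a_g χ(g)`; for an idempotent `a` the number `χ[a]` is a natural number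
(`exists_nat_pair`).  Hence for idempotents `ê, ε'` of the group algebra over the local ring the
rank over the residue field of `tmat (red ê) (red ε')` (the dimension of `ē F[G] ε̄`) is
`∑ χ, χ[ê] χ[ε']` (`rank_tmat_eq`).
-/

set_option autoImplicit false
set_option linter.style.haveILetI false
set_option linter.unusedSectionVars false

namespace Cfsg.Agent.Lib.Helper75.IdemGram

open Cfsg Module Cfsg.Agent.Lib.Helper77.LocalRing Cfsg.Agent.Lib.Helper77.CentralChar
  Cfsg.Agent.Lib.Helper75.GrpAlg Cfsg.Agent.Lib.Helper75.BlockRed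
  Cfsg.Agent.Lib.Helper75.TwoChar

section TMat

variable {k : Type*} [CommRing k] {G : Type*} [Group G]

/-- The matrix of `x ↦ a * x * b` in the basis of group elements. -/
noncomputable def tmat (a b : MonoidAlgebra k G) : Matrix G G k :=
  fun g h => (a * MonoidAlgebra.single h 1 * b).coeff g

theorem tmat_apply (a b : MonoidAlgebra k G) (g h : G) :
    tmat a b g h = (a * MonoidAlgebra.single h 1 * b).coeff g := rfl

theorem coeff_mul_mul_eq_sum [Fintype G] (a y b : MonoidAlgebra k G) (g : G) :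
    (a * y * b).coeff g = ∑ s, tmat a b g s * y.coeff s := by
  conv_lhs => rw [eq_sum_single y]
  rw [Finset.mul_sum, Finset.sum_mul, MonoidAlgebra.coeff_sum, Finsupp.finsetSum_apply]
  refine Finset.sum_congr rfl fun s _ => ?_
  rw [mul_smul_comm, smul_mul_assoc, MonoidAlgebra.coeff_smul, Finsupp.smul_apply, smul_eq_mul,
    mul_comm]
  rfl

theorem tmat_mul [Fintype G] (a b a' b' : MonoidAlgebra k G) :
    tmat a b * tmat a' b' = tmat (a * a') (b' * b) := by
  ext g h
  rw [Matrix.mul_apply, tmat_apply]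
  have h1 : a * a' * MonoidAlgebra.single h 1 * (b' * b)
      = a * (a' * MonoidAlgebra.single h 1 * b') * b := by
    simp only [mul_assoc]
  rw [h1, coeff_mul_mul_eq_sum]
  rfl

theorem tmat_one [DecidableEq G] : tmat (1 : MonoidAlgebra k G) 1 = 1 := by
  ext g h
  rw [tmat_apply, one_mul, mul_one, MonoidAlgebra.coeff_single, Finsupp.single_apply,
    Matrix.one_apply]
  by_cases hgh : g = h
  · rw [if_pos hgh, if_pos hgh.symm]
  · rw [if_neg hgh, if_neg (Ne.symm hgh)]

theorem tmat_add_left (a a' b : MonoidAlgebra k G) :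
    tmat (a + a') b = tmat a b + tmat a' b := by
  ext g h
  rw [Matrix.add_apply, tmat_apply, tmat_apply, tmat_apply, add_mul, add_mul,
    MonoidAlgebra.coeff_add]
  rfl

theorem tmat_zero_left (b : MonoidAlgebra k G) : tmat (0 : MonoidAlgebra k G) b = 0 := by
  ext g h
  rw [tmat_apply, zero_mul, zero_mul]
  rfl

theorem tmat_map {k' : Type*} [CommRing k'] (f : k →+* k') (a b : MonoidAlgebra k G) :
    (tmat a b).map f = tmat (MonoidAlgebra.mapRingHom G f a) (MonoidAlgebra.mapRingHom G f b) := by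
  ext g h
  rw [Matrix.map_apply, tmat_apply, tmat_apply, ← mapRingHom_single_one f h, ← map_mul,
    ← map_mul, MonoidAlgebra.coeff_mapRingHom]

theorem tmat_coeff [Fintype G] (a b : MonoidAlgebra k G) (g h : G) :
    tmat a b g h = ∑ s, a.coeff s * b.coeff (h⁻¹ * s⁻¹ * g) := by
  rw [tmat_apply, mul_assoc, coeff_mul_eq_sum]
  refine (Fintype.sum_equiv ((Equiv.inv G).trans (Equiv.mulRight g)) _ _ (fun s => ?_)).symm
  simp only [Equiv.trans_apply, Equiv.inv_apply, Equiv.coe_mulRight,
    MonoidAlgebra.coeff_single_mul_apply, one_mul, mul_inv_rev, inv_inv, mul_inv_cancel_left,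
    mul_assoc]

theorem trace_tmat [Fintype G] (a b : MonoidAlgebra k G) :
    (tmat a b).trace = ∑ s, a.coeff s * ∑ g, b.coeff (g⁻¹ * s⁻¹ * g) := by
  unfold Matrix.trace
  simp only [Matrix.diag_apply, tmat_coeff]
  rw [Finset.sum_comm]
  refine Finset.sum_congr rfl fun s _ => ?_
  rw [Finset.mul_sum]

end TMat

section Complex

variable {G : Type*} [Group G]

open scoped ComplexConjugate

/-- Trace of `x ↦ a * x * b` on the complex group algebra. -/
theorem sum_pair_mul_pair [Fintype G] [Fintype (IrrCharacter G)] (a b : MonoidAlgebra ℂ G) :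
    ∑ χ : IrrCharacter G, pair (χ : G → ℂ) a * pair (χ : G → ℂ) b = (tmat a b).trace := by
  classical
  rw [trace_tmat]
  have h1 : ∀ χ : IrrCharacter G, pair (χ : G → ℂ) a * pair (χ : G → ℂ) b
      = ∑ s, ∑ t, a.coeff s * b.coeff t * ((χ : G → ℂ) s * conj ((χ : G → ℂ) t⁻¹)) := by
    intro χ
    rw [pair_eq_sum, pair_eq_sum, Finset.sum_mul_sum]
    refine Finset.sum_congr rfl fun s _ => Finset.sum_congr rfl fun t _ => ?_
    rw [Cfsg.Agent.Lib.CT.Wedderburn.char_apply_inv
      (Cfsg.Agent.Lib.CT.Wedderburn.isCharacter_of_irr χ.2), Complex.conj_conj]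
    ring
  rw [Finset.sum_congr rfl fun χ _ => h1 χ, Finset.sum_comm]
  refine Finset.sum_congr rfl fun s _ => ?_
  rw [Finset.sum_comm]
  have h2 : ∀ t : G, ∑ χ : IrrCharacter G,
      a.coeff s * b.coeff t * ((χ : G → ℂ) s * conj ((χ : G → ℂ) t⁻¹))
      = a.coeff s * (b.coeff t * ∑ c : G, if c * s * c⁻¹ = t⁻¹ then (1 : ℂ) else 0) := by
    intro t
    rw [← Finset.mul_sum, Cfsg.Agent.Lib.CT.Orth.second_orthogonality_card s t⁻¹,
      Finset.card_filter]
    push_cast
    ring
  rw [Finset.sum_congr rfl fun t _ => h2 t, ← Finset.mul_sum]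
  congr 1
  have h3 : ∀ t : G, b.coeff t * ∑ c : G, (if c * s * c⁻¹ = t⁻¹ then (1 : ℂ) else 0)
      = ∑ c : G, if t = c * s⁻¹ * c⁻¹ then b.coeff t else 0 := by
    intro t
    rw [Finset.mul_sum]
    refine Finset.sum_congr rfl fun c _ => ?_
    have hiff : c * s * c⁻¹ = t⁻¹ ↔ t = c * s⁻¹ * c⁻¹ := by
      constructor
      · intro h
        rw [← inv_inv t, ← h]
        group
      · intro h
        rw [h]
        group
    by_cases hc : c * s * c⁻¹ = t⁻¹
    · rw [if_pos hc, if_pos (hiff.1 hc), mul_one]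
    · rw [if_neg hc, if_neg (fun h => hc (hiff.2 h)), mul_zero]
  rw [Finset.sum_congr rfl fun t _ => h3 t, Finset.sum_comm]
  refine Fintype.sum_equiv (Equiv.inv G) _ _ (fun c => ?_)
  rw [Finset.sum_ite_eq' Finset.univ (c * s⁻¹ * c⁻¹) (fun t => b.coeff t),
    if_pos (Finset.mem_univ _), Equiv.inv_apply, inv_inv]

/-- For an idempotent `x` of the complex group algebra, `χ[x]` is a natural number. -/
theorem exists_nat_pair [Finite G] (x : MonoidAlgebra ℂ G) (hx : x * x = x)
    (χ : IrrCharacter G) : ∃ m : ℕ, pair (χ : G → ℂ) x = m := by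
  classical
  haveI : Fintype G := Fintype.ofFinite G
  obtain ⟨n, d, hd, ⟨e⟩⟩ := Cfsg.Agent.Lib.CT.Wedderburn.exists_wedderburn G
  haveI := hd
  obtain ⟨i, hi⟩ := Cfsg.Agent.Lib.CT.Wedderburn.irr_eq_wChar e χ.2
  have hxf : x = Cfsg.Agent.Lib.CT.Wedderburn.fnElt (fun g => x.coeff g) := by
    apply MonoidAlgebra.ext
    ext g
    rw [Cfsg.Agent.Lib.CT.Wedderburn.fnElt_coeff]
  have h1 : pair (χ : G → ℂ) x = (e x i).trace := by
    rw [pair_eq_sum, hi]
    conv_rhs => rw [hxf]
    rw [Cfsg.Agent.Lib.CT.Wedderburn.trace_wProj_fnElt]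
  have hP : e x i * e x i = e x i := by
    have h2 : e (x * x) i = e x i := by rw [hx]
    rw [map_mul, Pi.mul_apply] at h2
    exact h2
  have hidem : IsIdempotentElem (Matrix.toLin' (e x i)) := by
    unfold IsIdempotentElem
    rw [Module.End.mul_eq_comp, ← Matrix.toLin'_mul, hP]
  have h3 := (LinearMap.IsIdempotentElem.isProj_range _ hidem).trace
  rw [Cfsg.Agent.Lib.CT.Wedderburn.trace_toLin'] at h3
  exact ⟨_, h1.trans h3⟩

end Complex

section Rank

variable {F : Type*} [Field F] {n : Type*} [Fintype n]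

/-- Orthogonal idempotent matrices have additive ranks. -/
theorem rank_add_of_orth (P Q : Matrix n n F) (hP : P * P = P) (hQ : Q * Q = Q)
    (hPQ : P * Q = 0) (hQP : Q * P = 0) : (P + Q).rank = P.rank + Q.rank := by
  classical
  unfold Matrix.rank
  have hsup : LinearMap.range (P + Q).mulVecLin
      = LinearMap.range P.mulVecLin ⊔ LinearMap.range Q.mulVecLin := by
    apply le_antisymm
    · rintro y ⟨v, rfl⟩
      rw [Matrix.mulVecLin_apply, Matrix.add_mulVec]
      exact Submodule.add_mem_sup ⟨v, rfl⟩ ⟨v, rfl⟩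
    · apply sup_le
      · rintro y ⟨v, rfl⟩
        refine ⟨P.mulVec v, ?_⟩
        rw [Matrix.mulVecLin_apply, Matrix.mulVecLin_apply, Matrix.mulVec_mulVec, add_mul, hP,
          hQP, add_zero]
      · rintro y ⟨v, rfl⟩
        refine ⟨Q.mulVec v, ?_⟩
        rw [Matrix.mulVecLin_apply, Matrix.mulVecLin_apply, Matrix.mulVec_mulVec, add_mul, hQ,
          hPQ, zero_add]
  have hdisj : LinearMap.range P.mulVecLin ⊓ LinearMap.range Q.mulVecLin = ⊥ := by
    rw [eq_bot_iff]
    rintro y ⟨⟨v, hv⟩, ⟨w, hw⟩⟩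
    rw [Submodule.mem_bot]
    rw [Matrix.mulVecLin_apply] at hv hw
    have h1 : P.mulVec y = y := by
      rw [← hv, Matrix.mulVec_mulVec, hP]
    rw [← h1, ← hw, Matrix.mulVec_mulVec, hPQ, Matrix.zero_mulVec]
  have h2 := Submodule.finrank_sup_add_finrank_inf_eq (LinearMap.range P.mulVecLin)
    (LinearMap.range Q.mulVecLin)
  rw [hdisj, finrank_bot, add_zero, ← hsup] at h2
  exact h2

/-- The rank is invariant under conjugation. -/
theorem rank_conj [DecidableEq n] (U V P : Matrix n n F) (hUV : U * V = 1) :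
    (U * P * V).rank = P.rank := by
  rw [Matrix.rank_mul_eq_left_of_isUnit_det V (U * P) (Matrix.isUnit_det_of_left_inverse hUV),
    Matrix.rank_mul_eq_right_of_isUnit_det U P (Matrix.isUnit_det_of_right_inverse hUV)]

end Rank

section Gram

variable {G : Type*} [Group G] {M : Ideal AlgInt}

/-- **Gram form.**  For idempotents `ê, ε'` of the group algebra over the local ring, the rank of
`x ↦ ē x ε̄` over the residue field is `∑ χ, χ[ê] χ[ε']`. -/
theorem rank_tmat_eq [Fintype G] [Fintype (IrrCharacter G)] (hMp : M.IsPrime) {F : Type*}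
    [Field F] (q : localSubring M hMp →+* F)
    (ê ε' : MonoidAlgebra (localSubring M hMp) G) (hê : ê * ê = ê) (hε : ε' * ε' = ε') :
    (((tmat (MonoidAlgebra.mapRingHom G q ê) (MonoidAlgebra.mapRingHom G q ε')).rank : ℕ) : ℂ)
      = ∑ χ : IrrCharacter G, pair (χ : G → ℂ) (incl hMp ê) * pair (χ : G → ℂ) (incl hMp ε') := by
  classical
  have hê' : incl hMp ê * incl hMp ê = incl hMp ê := by rw [← map_mul, hê]
  have hε' : incl hMp ε' * incl hMp ε' = incl hMp ε' := by rw [← map_mul, hε]
  choose m hm using fun χ : IrrCharacter G => exists_nat_pair (incl hMp ê) hê' χ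
  choose m' hm' using fun χ : IrrCharacter G => exists_nat_pair (incl hMp ε') hε' χ
  have hE : tmat ê ε' * tmat ê ε' = tmat ê ε' := by rw [tmat_mul, hê, hε]
  have htr : ((tmat ê ε').map (localSubring M hMp).subtype).trace
      = ((∑ χ : IrrCharacter G, m χ * m' χ : ℕ) : ℂ) := by
    rw [tmat_map]
    have h1 := sum_pair_mul_pair (incl hMp ê) (incl hMp ε')
    unfold incl at h1
    rw [← h1]
    push_cast
    refine Finset.sum_congr rfl fun χ _ => ?_
    have h2 := hm χ
    have h3 := hm' χ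
    unfold incl at h2 h3
    rw [h2, h3]
  have h4 := Cfsg.Agent.Lib.Helper75.IdemRank.finrank_range_of_idem
    (localSubring M hMp).subtype Subtype.val_injective q (tmat ê ε') hE _ htr
  rw [tmat_map] at h4
  have h5 : (tmat (MonoidAlgebra.mapRingHom G q ê) (MonoidAlgebra.mapRingHom G q ε')).rank
      = ∑ χ : IrrCharacter G, m χ * m' χ := by
    rw [← h4]
    rfl
  rw [h5]
  push_cast
  refine Finset.sum_congr rfl fun χ _ => ?_
  rw [hm χ, hm' χ]

/-- The dimension of `e F[G] ε` is the rank of `tmat e ε`. -/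
theorem finrank_range_twoSided {F : Type*} [Field F] [Fintype G]
    (e ε : MonoidAlgebra F G) :
    finrank F (LinearMap.range ((LinearMap.mulLeft F e).comp (LinearMap.mulRight F ε)))
      = (tmat e ε).rank := by
  classical
  obtain ⟨c, hc⟩ : ∃ c : MonoidAlgebra F G ≃ₗ[F] (G → F), ∀ y g, c y g = y.coeff g :=
    ⟨(MonoidAlgebra.coeffLinearEquiv F).trans (Finsupp.linearEquivFunOnFinite F F G),
      fun y g => rfl⟩
  have h1 : (tmat e ε).mulVecLin.comp c.toLinearMap
      = c.toLinearMap.comp ((LinearMap.mulLeft F e).comp (LinearMap.mulRight F ε)) := by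
    apply LinearMap.ext
    intro y
    funext g
    show (tmat e ε).mulVec (c y) g = c (e * (y * ε)) g
    rw [hc, ← mul_assoc, coeff_mul_mul_eq_sum, Matrix.mulVec, dotProduct]
    refine Finset.sum_congr rfl fun h _ => ?_
    rw [hc]
  have h2 : LinearMap.range ((tmat e ε).mulVecLin.comp c.toLinearMap)
      = LinearMap.range (tmat e ε).mulVecLin :=
    LinearMap.range_comp_of_range_eq_top _ (LinearEquiv.range c)
  unfold Matrix.rank
  rw [← h2, h1, LinearMap.range_comp ((LinearMap.mulLeft F e).comp (LinearMap.mulRight F ε))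
    c.toLinearMap]
  exact (LinearEquiv.finrank_map_eq c _).symm

end Gram

end Cfsg.Agent.Lib.Helper75.IdemGram
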