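import Mathlib
import Cfsg.Agent.Lib.Helper75.IdemGram

/-!
# Decomposition numbers via idempotents

`WData F A`: Wedderburn data of a finite-dimensional algebra (the simple quotients `ρ j`,
idempotents `ε j` with `ρ j (ε i) = δ_ij E_00`, independence of traces, and the master lemma for
conjugation-invariant additive functions on idempotents).

`decomp`: for the group algebra, with idempotent lifts `εh j` of the `ε j` to the local ring, and
any idempotent `ê` over the local ring: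
`χ[ê] = ∑ j, rank (ρ j (red ê)) * χ[εh j]` for every irreducible character `χ`.
-/

set_option autoImplicit false
set_option linter.style.haveILetI false
set_option linter.unusedSectionVars false

namespace Cfsg.Agent.Lib.Helper75.Decomp

open Cfsg Module Cfsg.Agent.Lib.Helper77.LocalRing Cfsg.Agent.Lib.Helper77.CentralChar
  Cfsg.Agent.Lib.Helper75.GrpAlg Cfsg.Agent.Lib.Helper75.BlockRed
  Cfsg.Agent.Lib.Helper75.TwoChar Cfsg.Agent.Lib.Helper75.IdemGram
  Cfsg.Agent.Lib.CT.Wedderburn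

/-- Wedderburn data of a finite-dimensional algebra, with the master lemma. -/
structure WData (F : Type*) [Field F] (A : Type*) [Ring A] [Algebra F A] where
  /-- number of simple modules -/
  L : ℕ
  /-- their dimensions -/
  f : Fin L → ℕ
  hf : ∀ j, 0 < f j
  /-- the simple quotients -/
  ρ : ∀ j : Fin L, A →ₐ[F] Matrix (Fin (f j)) (Fin (f j)) F
  /-- primitive idempotents -/
  ε : Fin L → A
  surj : ∀ j, Function.Surjective (ρ j)
  nil : ∀ x : A, (∀ j, ρ j x = 0) → IsNilpotent x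
  idem : ∀ i, ε i * ε i = ε i
  ρε : ∀ i j, ρ j (ε i)
    = if i = j then Matrix.single (⟨0, hf j⟩ : Fin (f j)) ⟨0, hf j⟩ 1 else 0
  indep : ∀ a : Fin L → F, (∀ x : A, ∑ j, a j * (ρ j x).trace = 0) → ∀ j, a j = 0
  master : ∀ Ψ : A → ℤ,
    (∀ e e' : A, e * e = e → e' * e' = e' → e * e' = 0 → e' * e = 0 →
      Ψ (e + e') = Ψ e + Ψ e') →
    (∀ e u v : A, e * e = e → u * v = 1 → v * u = 1 → Ψ (u * e * v) = Ψ e) →
    ∀ e : A, e * e = e → Ψ e = ∑ j, ((ρ j e).rank : ℤ) * Ψ (ε j)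

theorem nonempty_wdata {F : Type*} [Field F] {A : Type*} [Ring A] [Algebra F A]
    (h : ∃ (L : ℕ) (f : Fin L → ℕ) (hf : ∀ j, 0 < f j)
      (ρ : ∀ j : Fin L, A →ₐ[F] Matrix (Fin (f j)) (Fin (f j)) F) (ε : Fin L → A),
      (∀ j, Function.Surjective (ρ j)) ∧
      (∀ x : A, (∀ j, ρ j x = 0) → IsNilpotent x) ∧
      (∀ i, ε i * ε i = ε i) ∧
      (∀ i j, ρ j (ε i)
        = if i = j then Matrix.single (⟨0, hf j⟩ : Fin (f j)) ⟨0, hf j⟩ 1 else 0) ∧
      (∀ a : Fin L → F, (∀ x : A, ∑ j, a j * (ρ j x).trace = 0) → ∀ j, a j = 0) ∧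
      (∀ Ψ : A → ℤ,
        (∀ e e' : A, e * e = e → e' * e' = e' → e * e' = 0 → e' * e = 0 →
          Ψ (e + e') = Ψ e + Ψ e') →
        (∀ e u v : A, e * e = e → u * v = 1 → v * u = 1 → Ψ (u * e * v) = Ψ e) →
        ∀ e : A, e * e = e → Ψ e = ∑ j, ((ρ j e).rank : ℤ) * Ψ (ε j))) :
    Nonempty (WData F A) := by
  obtain ⟨L, f, hf, ρ, ε, h1, h2, h3, h4, h5, h6⟩ := h
  exact ⟨⟨L, f, hf, ρ, ε, h1, h2, h3, h4, h5, h6⟩⟩

section

variable {G : Type*} [Group G] {M : Ideal AlgInt} {F : Type*} [Field F]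

/-- The rank function `e ↦ rank (tmat e b)` (`b` idempotent) is additive on orthogonal
idempotents. -/
theorem rank_tmat_add [Fintype G] (b : MonoidAlgebra F G) (hb : b * b = b)
    (e e' : MonoidAlgebra F G) (he : e * e = e) (he' : e' * e' = e') (h1 : e * e' = 0)
    (h2 : e' * e = 0) : (tmat (e + e') b).rank = (tmat e b).rank + (tmat e' b).rank := by
  rw [tmat_add_left]
  apply rank_add_of_orth
  · rw [tmat_mul, he, hb]
  · rw [tmat_mul, he', hb]
  · rw [tmat_mul, h1, tmat_zero_left]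
  · rw [tmat_mul, h2, tmat_zero_left]

/-- The rank function `e ↦ rank (tmat e b)` is conjugation invariant. -/
theorem rank_tmat_conj [Fintype G] (b : MonoidAlgebra F G)
    (e u v : MonoidAlgebra F G) (huv : u * v = 1) :
    (tmat (u * e * v) b).rank = (tmat e b).rank := by
  classical
  have h1 : tmat (u * e * v) b = tmat u 1 * tmat e b * tmat v 1 := by
    rw [tmat_mul, tmat_mul, mul_one, one_mul]
  rw [h1]
  apply rank_conj
  rw [tmat_mul, huv, mul_one, tmat_one]

/-- **Decomposition of idempotents.** -/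
theorem decomp [Fintype G] (hMp : M.IsPrime) (q : localSubring M hMp →+* F)
    (W : WData F (MonoidAlgebra F G)) (εh : Fin W.L → MonoidAlgebra (localSubring M hMp) G)
    (hεh : ∀ i, εh i * εh i = εh i) (hεr : ∀ i, MonoidAlgebra.mapRingHom G q (εh i) = W.ε i)
    (ê : MonoidAlgebra (localSubring M hMp) G) (hê : ê * ê = ê) (χ : IrrCharacter G) :
    pair (χ : G → ℂ) (incl hMp ê)
      = ∑ j, ((W.ρ j (MonoidAlgebra.mapRingHom G q ê)).rank : ℂ)
          * pair (χ : G → ℂ) (incl hMp (εh j)) := by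
  classical
  haveI := finite_irrCharacter G
  haveI : Fintype (IrrCharacter G) := Fintype.ofFinite _
  obtain ⟨v, hv⟩ : ∃ v : IrrCharacter G → ℂ, ∀ ψ : IrrCharacter G,
      v ψ = pair (ψ : G → ℂ) (incl hMp ê)
        - ∑ j, ((W.ρ j (MonoidAlgebra.mapRingHom G q ê)).rank : ℂ)
          * pair (ψ : G → ℂ) (incl hMp (εh j)) := ⟨_, fun _ => rfl⟩
  have hêr : MonoidAlgebra.mapRingHom G q ê * MonoidAlgebra.mapRingHom G q ê
      = MonoidAlgebra.mapRingHom G q ê := by rw [← map_mul, hê]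
  -- orthogonality to all idempotents
  have horth : ∀ ε' : MonoidAlgebra (localSubring M hMp) G, ε' * ε' = ε' →
      ∑ ψ : IrrCharacter G, v ψ * pair (ψ : G → ℂ) (incl hMp ε') = 0 := by
    intro ε' hε'
    have hb : MonoidAlgebra.mapRingHom G q ε' * MonoidAlgebra.mapRingHom G q ε'
        = MonoidAlgebra.mapRingHom G q ε' := by rw [← map_mul, hε']
    have hm := W.master (fun e => ((tmat e (MonoidAlgebra.mapRingHom G q ε')).rank : ℤ))
      (fun e e' he he' h1 h2 => by
        show (((tmat (e + e') (MonoidAlgebra.mapRingHom G q ε')).rank : ℕ) : ℤ) = _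
        rw [rank_tmat_add _ hb e e' he he' h1 h2]
        push_cast
        rfl)
      (fun e u v _ huv _ => by
        show (((tmat (u * e * v) (MonoidAlgebra.mapRingHom G q ε')).rank : ℕ) : ℤ) = _
        rw [rank_tmat_conj _ e u v huv])
      (MonoidAlgebra.mapRingHom G q ê) hêr
    have hm' : (((tmat (MonoidAlgebra.mapRingHom G q ê)
        (MonoidAlgebra.mapRingHom G q ε')).rank : ℕ) : ℂ)
        = ∑ j, ((W.ρ j (MonoidAlgebra.mapRingHom G q ê)).rank : ℂ)
          * (((tmat (W.ε j) (MonoidAlgebra.mapRingHom G q ε')).rank : ℕ) : ℂ) := by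
      have h3 : (((tmat (MonoidAlgebra.mapRingHom G q ê)
          (MonoidAlgebra.mapRingHom G q ε')).rank : ℤ) : ℂ)
          = ((∑ j, ((W.ρ j (MonoidAlgebra.mapRingHom G q ê)).rank : ℤ)
            * ((tmat (W.ε j) (MonoidAlgebra.mapRingHom G q ε')).rank : ℤ) : ℤ) : ℂ) := by
        rw [← hm]
      push_cast at h3
      exact h3
    have h4 : ∀ ψ : IrrCharacter G, v ψ * pair (ψ : G → ℂ) (incl hMp ε')
        = pair (ψ : G → ℂ) (incl hMp ê) * pair (ψ : G → ℂ) (incl hMp ε')
          - ∑ j, ((W.ρ j (MonoidAlgebra.mapRingHom G q ê)).rank : ℂ)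
            * (pair (ψ : G → ℂ) (incl hMp (εh j)) * pair (ψ : G → ℂ) (incl hMp ε')) := by
      intro ψ
      rw [hv ψ, sub_mul, Finset.sum_mul]
      congr 1
      refine Finset.sum_congr rfl fun j _ => ?_
      ring
    rw [Finset.sum_congr rfl fun ψ _ => h4 ψ, Finset.sum_sub_distrib,
      ← rank_tmat_eq hMp q ê ε' hê hε', hm', Finset.sum_comm, sub_eq_zero]
    refine Finset.sum_congr rfl fun j _ => ?_
    rw [← hεr j, rank_tmat_eq hMp q (εh j) ε' (hεh j) hε', Finset.mul_sum]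
  -- integrality of `v`
  have hint : ∀ ψ : IrrCharacter G, ∃ z : ℤ, v ψ = z := by
    intro ψ
    obtain ⟨m, hm⟩ := exists_nat_pair (incl hMp ê) (by rw [← map_mul, hê]) ψ
    choose m' hm' using fun j =>
      exists_nat_pair (incl hMp (εh j)) (by rw [← map_mul, hεh j]) ψ
    refine ⟨(m : ℤ) - ∑ j, ((W.ρ j (MonoidAlgebra.mapRingHom G q ê)).rank : ℤ) * (m' j : ℤ), ?_⟩
    rw [hv ψ, hm]
    push_cast
    congr 1
    refine Finset.sum_congr rfl fun j _ => ?_
    rw [hm' j]
  choose z hz using hint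
  have hsq : ∑ ψ : IrrCharacter G, v ψ * v ψ = 0 := by
    have h5 : ∀ ψ : IrrCharacter G, v ψ * v ψ
        = v ψ * pair (ψ : G → ℂ) (incl hMp ê)
          - ∑ j, ((W.ρ j (MonoidAlgebra.mapRingHom G q ê)).rank : ℂ)
            * (v ψ * pair (ψ : G → ℂ) (incl hMp (εh j))) := by
      intro ψ
      conv_lhs => rw [show v ψ * v ψ = v ψ * (pair (ψ : G → ℂ) (incl hMp ê)
        - ∑ j, ((W.ρ j (MonoidAlgebra.mapRingHom G q ê)).rank : ℂ)
          * pair (ψ : G → ℂ) (incl hMp (εh j))) by rw [← hv ψ]]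
      rw [mul_sub, Finset.mul_sum]
      congr 1
      refine Finset.sum_congr rfl fun j _ => ?_
      ring
    rw [Finset.sum_congr rfl fun ψ _ => h5 ψ, Finset.sum_sub_distrib, horth ê hê, zero_sub,
      Finset.sum_comm, neg_eq_zero]
    refine Finset.sum_eq_zero fun j _ => ?_
    rw [← Finset.mul_sum, horth (εh j) (hεh j), mul_zero]
  have hz0 : ∑ ψ : IrrCharacter G, z ψ * z ψ = 0 := by
    have h6 : ((∑ ψ : IrrCharacter G, z ψ * z ψ : ℤ) : ℂ) = 0 := by
      push_cast
      rw [← hsq]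
      exact Finset.sum_congr rfl fun ψ _ => by rw [hz ψ]
    exact_mod_cast h6
  have hzχ : z χ = 0 := by
    have h7 := (Finset.sum_eq_zero_iff_of_nonneg (fun ψ _ => mul_self_nonneg (z ψ))).1 hz0 χ
      (Finset.mem_univ _)
    exact mul_self_eq_zero.1 h7
  have h8 := hv χ
  rw [hz χ, hzχ, Int.cast_zero] at h8
  exact (sub_eq_zero.1 h8.symm)

/-- The decomposition numbers are natural numbers. -/
theorem exists_dnum [Finite G] (hMp : M.IsPrime) {L : ℕ}
    (εh : Fin L → MonoidAlgebra (localSubring M hMp) G) (hεh : ∀ i, εh i * εh i = εh i) :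
    ∃ d : IrrCharacter G → Fin L → ℕ,
      ∀ (χ : IrrCharacter G) (j : Fin L), pair (χ : G → ℂ) (incl hMp (εh j)) = d χ j := by
  choose d hd using fun (χ : IrrCharacter G) (j : Fin L) =>
    exists_nat_pair (incl hMp (εh j)) (by rw [← map_mul, hεh j]) χ
  exact ⟨d, hd⟩

end

end Cfsg.Agent.Lib.Helper75.Decomp
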