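import Mathlib
import Cfsg.Agent.Lib.Helper75.Decomp
import Cfsg.Agent.Lib.Helper77.BPMax2

/-!
# Statements of the pieces for S4889 (equal degrees iff nilpotent, abelian defect) and S4641

Only `Prop`-valued definitions; each piece is proved in its own file as
`theorem main : Cfsg.Agent.Lib.Helper75.OTStmt.X`.
-/

set_option autoImplicit false

namespace Cfsg.Agent.Lib.Helper75.OTStmt

open Cfsg Module Cfsg.Agent.Lib.Helper77.LocalRing Cfsg.Agent.Lib.Helper77.CentralChar
  Cfsg.Agent.Lib.Helper77.ClassSum Cfsg.Agent.Lib.Helper77.BlockIdem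
  Cfsg.Agent.Lib.Helper77.BPBasic Cfsg.Agent.Lib.Helper77.BPMax
  Cfsg.Agent.Lib.Helper75.TwoChar Cfsg.Agent.Lib.Helper75.BlockAlg
  Cfsg.Agent.Lib.Helper75.Decomp
open scoped ComplexConjugate

universe u

/-- Integrality of the reduced trace of a block all of whose characters have degree `n`. -/
def TraceInt {G : Type u} [Group G] (M : Ideal AlgInt) (B : Set (IrrCharacter G)) (n : ℕ) :
    Prop :=
  ∀ g h : G, MemLocalRing M ((n : ℂ) / (Nat.card G : ℂ)
    * ∑ᶠ χ ∈ B, (χ : G → ℂ) g * conj ((χ : G → ℂ) h))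

/-- The class sum of `g` times the block idempotent vanishes modulo the local ideal. -/
def ClassVanish {G : Type u} [Group G] [Finite G] (M : Ideal AlgInt)
    (B : Set (IrrCharacter G)) (g : G) : Prop :=
  ∀ h : G, MemLocalIdeal M ((classSum g * blockIdem B).coeff h)

/-- `y` is the truncation of `x` to the subgroup `C`. -/
def IsTrunc {k : Type*} [Semiring k] {G : Type*} [Group G] (C : Subgroup G)
    (x y : MonoidAlgebra k G) : Prop :=
  (∀ g ∈ C, y.coeff g = x.coeff g) ∧ ∀ g, g ∉ C → y.coeff g = 0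

/-- `v` is supported on `C`, commutes with `C` and is fixed by left multiplication with `ε`. -/
def InWc {G : Type u} [Group G] {F : Type} [Field F] (C : Subgroup G)
    (ε v : MonoidAlgebra F G) : Prop :=
  (∀ g, g ∉ C → v.coeff g = 0) ∧
  (∀ y ∈ C, MonoidAlgebra.single y (1 : F) * v = v * MonoidAlgebra.single y (1 : F)) ∧
  ε * v = v

/-- Abstract decomposition data of a block: `f i` the degrees of the simple modules, `d χ i` the
decomposition numbers, `J` the simple modules of the block. -/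
def DecData {G : Type u} [Group G] (p : ℕ) (B : Set (IrrCharacter G)) (L : ℕ) (f : Fin L → ℕ)
    (d : IrrCharacter G → Fin L → ℕ) (J : Finset (Fin L)) : Prop :=
  (∀ i, 0 < f i) ∧
  (∀ χ : IrrCharacter G, charDegree (χ : G → ℂ) = ∑ i, d χ i * f i) ∧
  (∀ (χ : IrrCharacter G) (i : Fin L), χ ∈ B → i ∉ J → d χ i = 0) ∧
  (∀ (χ : IrrCharacter G) (i : Fin L), χ ∉ B → i ∈ J → d χ i = 0) ∧
  (∀ i, ∃ z : IrrCharacter G → ℤ, ∀ i',
    ∑ᶠ χ : IrrCharacter G, z χ * (d χ i' : ℤ) = if i = i' then 1 else 0) ∧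
  (∀ i, p ^ (Nat.card G).factorization p
    ∣ ∑ᶠ χ : IrrCharacter G, d χ i * charDegree (χ : G → ℂ)) ∧
  blockRank p B ≤ J.card

/-- TF: the trace formula. -/
def TF : Prop :=
  ∀ (G : Type u) [Group G] [Finite G] (B : Set (IrrCharacter G)) (ε : MonoidAlgebra ℂ G),
    ε * ε = ε → (∀ χ : IrrCharacter G, χ ∈ B → pair (χ : G → ℂ) ε = 1) →
    (∀ χ : IrrCharacter G, χ ∉ B → pair (χ : G → ℂ) ε = 0) →
    ∀ (m : ℕ) (a c : Fin m → MonoidAlgebra ℂ G), ∑ s, a s * ε * c s = blockIdem B →
    ∀ (x : MonoidAlgebra ℂ G) (h : G),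
      (∑ s, ∑ s', a s' * ε * c s * x * a s * ε * c s').coeff h
        = (Nat.card G : ℂ)⁻¹ * ∑ᶠ χ ∈ B, pair (χ : G → ℂ) x
          * ((χ : G → ℂ) 1 * conj ((χ : G → ℂ) h))

/-- GEN: a block with one simple module is generated, as a two-sided ideal, by a lift of a
primitive idempotent. -/
def GEN : Prop :=
  ∀ (G : Type u) [Group G] [Finite G] (M : Ideal AlgInt) (hMp : M.IsPrime) (F : Type)
    [Field F] (q : localSubring M hMp →+* F),
    (∀ x : localSubring M hMp, q x = 0 ↔ MemLocalIdeal M (x : ℂ)) → Function.Surjective q →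
    ∀ (W : WData F (MonoidAlgebra F G)) (i₀ : Fin W.L)
      (ê ε' : MonoidAlgebra (localSubring M hMp) G),
      ê * ê = ê → (∀ x, ê * x = x * ê) →
      W.ρ i₀ (MonoidAlgebra.mapRingHom G q ê) = 1 →
      (∀ i, i ≠ i₀ → W.ρ i (MonoidAlgebra.mapRingHom G q ê) = 0) →
      MonoidAlgebra.mapRingHom G q ε' = W.ε i₀ * MonoidAlgebra.mapRingHom G q ê →
      ∃ (m : ℕ) (a c : Fin m → MonoidAlgebra (localSubring M hMp) G),
        ∑ s, a s * ε' * c s = ê

/-- N1: classes with small centralizers vanish in the block. -/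
def N1 : Prop :=
  ∀ (G : Type u) [Group G] [Finite G] (p : ℕ) [Fact p.Prime] (M : Ideal AlgInt),
    IsPModular p M → ∀ (B : Set (IrrCharacter G)), IsPBlock M B → ∀ (D : Subgroup G),
    IsDefectGroup p M B D → ∀ n : ℕ, (∀ χ ∈ B, charDegree (χ : G → ℂ) = n) →
    TraceInt M B n → ∀ g : G,
    ¬ Nat.card D ∣ Nat.card (Subgroup.centralizer ({g} : Set G)) → ClassVanish M B g

/-- N2: classes not meeting the centralizer of the defect group vanish in the block. -/
def N2 : Prop :=
  ∀ (G : Type u) [Group G] [Finite G] (p : ℕ) [Fact p.Prime] (M : Ideal AlgInt),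
    IsPModular p M → ∀ (B : Set (IrrCharacter G)), IsPBlock M B → ∀ (D : Subgroup G),
    IsDefectGroup p M B D →
    (∀ g : G, ¬ Nat.card D ∣ Nat.card (Subgroup.centralizer ({g} : Set G)) →
      ClassVanish M B g) →
    ∀ g : G, (∀ x : G, x * g * x⁻¹ ∉ Subgroup.centralizer (D : Set G)) → ClassVanish M B g

/-- K1: the case `y = 1` of S4716. -/
def K1 : Prop :=
  ∀ (G : Type u) [Group G] [Finite G] (p : ℕ) [Fact p.Prime] (M : Ideal AlgInt),
    IsPModular p M → ∀ (B : Set (IrrCharacter G)), IsPBlock M B →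
    (∀ χ ∈ B, blockHeight p B (χ : G → ℂ) = 0) →
    Nat.card B ^ 2 ≤ p ^ (2 * blockDefect p B) * blockRank p B

/-- AR: the arithmetic of S4641 from decomposition data. -/
def AR : Prop :=
  ∀ (G : Type u) [Group G] [Finite G] (p : ℕ) [Fact p.Prime] (M : Ideal AlgInt),
    IsPModular p M → ∀ (B : Set (IrrCharacter G)), IsPBlock M B → ∀ (D : Subgroup G),
    IsDefectGroup p M B D → ∀ (L : ℕ) (f : Fin L → ℕ) (d : IrrCharacter G → Fin L → ℕ)
    (J : Finset (Fin L)), DecData p B L f d J →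
    ∀ (a dd : ℕ), (Nat.card G).factorization p = a → Nat.card D = p ^ dd →
    ∀ g : ℕ, (∀ χ ∈ B, g ∣ charDegree (χ : G → ℂ)) →
    (∀ g' : ℕ, (∀ χ ∈ B, g' ∣ charDegree (χ : G → ℂ)) → g' ∣ g) →
    g.factorization p = a - dd ∧ ∃ v : ℕ, 0 < v ∧ ¬ p ∣ v ∧ blockRank p B ≤ v ∧
      ∑ᶠ χ ∈ B, charDegree (χ : G → ℂ) ^ 2 = p ^ (2 * a - dd) * (g / p ^ (a - dd)) ^ 2 * v

/-- AR2: equal degrees and `k(B) = |D|` force one simple module and decomposition numbers 1. -/
def AR2 : Prop :=
  ∀ (G : Type u) [Group G] [Finite G] (p : ℕ) [Fact p.Prime] (M : Ideal AlgInt),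
    IsPModular p M → ∀ (B : Set (IrrCharacter G)), IsPBlock M B → ∀ (D : Subgroup G),
    IsDefectGroup p M B D → ∀ (L : ℕ) (f : Fin L → ℕ) (d : IrrCharacter G → Fin L → ℕ)
    (J : Finset (Fin L)), DecData p B L f d J →
    ∀ n : ℕ, (∀ χ ∈ B, charDegree (χ : G → ℂ) = n) → Nat.card B = Nat.card D →
    ∃ i₀ : Fin L, J = {i₀} ∧ ∀ χ ∈ B, d χ i₀ = 1

/-- LOC: the block of `C_G(D)` in a maximal Brauer pair with abelian `D` has `|D|` characters. -/
def LOC : Prop :=
  ∀ (G : Type u) [Group G] [Finite G] (p : ℕ) [Fact p.Prime] (M : Ideal AlgInt),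
    IsPModular p M → ∀ (B : Set (IrrCharacter G)) (D : Subgroup G)
    (c : Set (IrrCharacter (Subgroup.centralizer (D : Set G)))),
    IsMaximalBrauerPair p M B D c → (∀ a ∈ D, ∀ b ∈ D, a * b = b * a) →
    Nat.card c = Nat.card D

/-- BRM: truncation to `C_G(D)` is multiplicative on `D`-fixed elements in characteristic `p`. -/
def BRM : Prop :=
  ∀ (G : Type u) [Group G] [Finite G] (p : ℕ) [Fact p.Prime] (F : Type) [Field F] [CharP F p]
    (D : Subgroup G), IsPGroup p D → ∀ x y x' y' z' : MonoidAlgebra F G,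
    (∀ u ∈ D, MonoidAlgebra.single u (1 : F) * x = x * MonoidAlgebra.single u (1 : F)) →
    (∀ u ∈ D, MonoidAlgebra.single u (1 : F) * y = y * MonoidAlgebra.single u (1 : F)) →
    IsTrunc (Subgroup.centralizer (D : Set G)) x x' →
    IsTrunc (Subgroup.centralizer (D : Set G)) y y' →
    IsTrunc (Subgroup.centralizer (D : Set G)) (x * y) z' → z' = x' * y'

/-- BRK: a central element of the reduced block vanishing on `C` is zero, when the classes not
meeting `C` vanish in the block. -/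
def BRK : Prop :=
  ∀ (G : Type u) [Group G] [Finite G] (M : Ideal AlgInt) (hMp : M.IsPrime) (F : Type)
    [Field F] (q : localSubring M hMp →+* F),
    (∀ x : localSubring M hMp, q x = 0 ↔ MemLocalIdeal M (x : ℂ)) →
    ∀ (B : Set (IrrCharacter G)) (ê : MonoidAlgebra (localSubring M hMp) G),
    incl hMp ê = blockIdem B → ∀ (C : Subgroup G),
    (∀ g : G, (∀ x : G, x * g * x⁻¹ ∉ C) → ClassVanish M B g) →
    ∀ w : MonoidAlgebra F G, (∀ x, w * x = x * w) →
    MonoidAlgebra.mapRingHom G q ê * w = w → (∀ g ∈ C, w.coeff g = 0) → w = 0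

/-- BRO: the truncated block idempotent is congruent to the orbit sum of a maximal pair. -/
def BRO : Prop :=
  ∀ (G : Type u) [Group G] [Finite G] (p : ℕ) [Fact p.Prime] (M : Ideal AlgInt),
    IsPModular p M → ∀ (B : Set (IrrCharacter G)) (D : Subgroup G)
    (c : Set (IrrCharacter (Subgroup.centralizer (D : Set G)))),
    IsMaximalBrauerPair p M B D c → ∀ g : G, MemLocalIdeal M
      ((trunc (Subgroup.centralizer (D : Set G)) (blockIdem B)).coeff g
        - (orbitSum D c).coeff g)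

/-- BRW: the dimension of a space of `C`-central elements under the block idempotent of `c`. -/
def BRW : Prop :=
  ∀ (G : Type u) [Group G] [Finite G] (M : Ideal AlgInt) (hMp : M.IsPrime) (F : Type)
    [Field F] (q : localSubring M hMp →+* F), Function.Surjective q →
    ∀ (C : Subgroup G) (c : Set (IrrCharacter C)) (ε' : MonoidAlgebra (localSubring M hMp) G),
    incl hMp ε' = ext C (blockIdem c) → ∀ V : Submodule F (MonoidAlgebra F G),
    (∀ v ∈ V, InWc C (MonoidAlgebra.mapRingHom G q ε') v) → Module.finrank F V ≤ Nat.card c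

/-- BRX: an element of `N_G(D)` outside `C_G(D)` moves some element of the local centre. -/
def BRX : Prop :=
  ∀ (G : Type u) [Group G] [Finite G] (p : ℕ) [Fact p.Prime] (M : Ideal AlgInt),
    IsPModular p M → ∀ (hMp : M.IsPrime) (F : Type) [Field F] (q : localSubring M hMp →+* F),
    (∀ x : localSubring M hMp, q x = 0 ↔ MemLocalIdeal M (x : ℂ)) →
    ∀ (D : Subgroup G), IsPGroup p D → (∀ a ∈ D, ∀ b ∈ D, a * b = b * a) →
    ∀ (c : Set (IrrCharacter (Subgroup.centralizer (D : Set G)))), IsPBlock M c →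
    ∀ (ε' : MonoidAlgebra (localSubring M hMp) G),
    incl hMp ε' = ext (Subgroup.centralizer (D : Set G)) (blockIdem c) →
    ∀ x : G, x ∈ Subgroup.normalizer (D : Set G) → x ∉ Subgroup.centralizer (D : Set G) →
    ∃ v : MonoidAlgebra F G,
      InWc (Subgroup.centralizer (D : Set G)) (MonoidAlgebra.mapRingHom G q ε') v ∧
      MonoidAlgebra.single x (1 : F) * v * MonoidAlgebra.single x⁻¹ (1 : F) ≠ v

/-- BRD: the centre of the reduced block has dimension at least `k(B)`. -/
def BRD : Prop :=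
  ∀ (G : Type u) [Group G] [Finite G] (M : Ideal AlgInt) (hMp : M.IsPrime) (F : Type)
    [Field F] (q : localSubring M hMp →+* F), Function.Surjective q →
    ∀ (B : Set (IrrCharacter G)) (ê : MonoidAlgebra (localSubring M hMp) G),
    incl hMp ê = blockIdem B →
    Nat.card B ≤ Module.finrank F ↥(centE F (MonoidAlgebra.mapRingHom G q ê))

/-- BRI: injectivity of the Brauer map followed by multiplication with the local block
idempotent. -/
def BRI : Prop :=
  ∀ (G : Type u) [Group G] [Finite G] (p : ℕ) [Fact p.Prime] (M : Ideal AlgInt),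
    IsPModular p M → ∀ (hMp : M.IsPrime) (F : Type) [Field F] (q : localSubring M hMp →+* F),
    (∀ x : localSubring M hMp, q x = 0 ↔ MemLocalIdeal M (x : ℂ)) → Function.Surjective q →
    ∀ (B : Set (IrrCharacter G)) (D : Subgroup G)
    (c : Set (IrrCharacter (Subgroup.centralizer (D : Set G)))),
    IsMaximalBrauerPair p M B D c →
    (∀ g : G, (∀ x : G, x * g * x⁻¹ ∉ Subgroup.centralizer (D : Set G)) → ClassVanish M B g) →
    ∀ (ê ε' : MonoidAlgebra (localSubring M hMp) G), incl hMp ê = blockIdem B →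
    incl hMp ε' = ext (Subgroup.centralizer (D : Set G)) (blockIdem c) →
    ∀ w v : MonoidAlgebra F G, (∀ x, w * x = x * w) →
    MonoidAlgebra.mapRingHom G q ê * w = w →
    IsTrunc (Subgroup.centralizer (D : Set G)) w v →
    v * MonoidAlgebra.mapRingHom G q ε' = 0 → w = 0

/-- BR: the inertial quotient is trivial. -/
def BR : Prop :=
  ∀ (G : Type u) [Group G] [Finite G] (p : ℕ) [Fact p.Prime] (M : Ideal AlgInt),
    IsPModular p M → ∀ (B : Set (IrrCharacter G)) (D : Subgroup G)
    (c : Set (IrrCharacter (Subgroup.centralizer (D : Set G)))),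
    IsMaximalBrauerPair p M B D c → (∀ a ∈ D, ∀ b ∈ D, a * b = b * a) →
    Nat.card B = Nat.card D →
    (∀ g : G, (∀ x : G, x * g * x⁻¹ ∉ Subgroup.centralizer (D : Set G)) → ClassVanish M B g) →
    ∀ x ∈ Subgroup.normalizer (D : Set G),
      StabilizesBlock (Subgroup.centralizer (D : Set G)) c x →
      x ∈ Subgroup.centralizer (D : Set G)

end Cfsg.Agent.Lib.Helper75.OTStmt
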