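import Mathlib
import Cfsg.Agent.Lib.Helper75.Decomp
import Cfsg.Agent.Lib.Helper75.LiftIndep

/-!
# Spectral idempotents and the Brauer lift

For `g` with `g ^ m = 1` (`m` prime to `p`) and a primitive `m`-th root of unity `ζ` in the local
ring, `sp ζ' c m g j = (1/m) ∑ t, ζ^{-jt} g^t` are idempotents of the group algebra over the
local ring with `g = ∑ j, ζ^j sp_j` (`sp_idem`, `sp_sum`).

`blift q Z ρ g = ∑ j, ζ^j rank (ρ (red (sp_j)))` is the Brauer lift of the matrix representation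
`ρ` of `F[G]`: it reduces to the trace of `ρ g` (`q_bliftO`), is a class function (`blift_conj`),
is compatible with subgroups (`blift_comp_subtype`), every irreducible character is on
`m`-torsion elements the combination of the Brauer lifts of the simple modules with the
decomposition numbers as coefficients (`char_eq_sum_blift`), and these Brauer lifts are linearly
independent on `p`-regular elements (`blift_indep`).
-/

set_option autoImplicit false
set_option linter.style.haveILetI false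
set_option linter.unusedSectionVars false

namespace Cfsg.Agent.Lib.Helper75.Spectral

open Cfsg Module Cfsg.Agent.Lib.Helper77.LocalRing Cfsg.Agent.Lib.Helper77.CentralChar
  Cfsg.Agent.Lib.Helper75.GrpAlg Cfsg.Agent.Lib.Helper75.BlockRed
  Cfsg.Agent.Lib.Helper75.TwoChar Cfsg.Agent.Lib.Helper75.IdemGram
  Cfsg.Agent.Lib.Helper75.Decomp Cfsg.Agent.Lib.CT.Wedderburn

section Avg

variable {A : Type*} [Ring A]

theorem geom_mul (x : A) (m : ℕ) (hx : x ^ m = 1) :
    x * ∑ t ∈ Finset.range m, x ^ t = ∑ t ∈ Finset.range m, x ^ t := by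
  rw [Finset.mul_sum]
  have h1 : ∑ t ∈ Finset.range m, x * x ^ t = ∑ t ∈ Finset.range m, x ^ (t + 1) :=
    Finset.sum_congr rfl fun t _ => (pow_succ' x t).symm
  rw [h1]
  have h2 := Finset.sum_range_succ' (fun t => x ^ t) m
  have h3 := Finset.sum_range_succ (fun t => x ^ t) m
  rw [h3, hx, pow_zero] at h2
  exact (add_right_cancel h2).symm

theorem geom_sq (x : A) (m : ℕ) (hx : x ^ m = 1) :
    (∑ t ∈ Finset.range m, x ^ t) * ∑ t ∈ Finset.range m, x ^ t
      = m • ∑ t ∈ Finset.range m, x ^ t := by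
  have h1 : ∀ t : ℕ, x ^ t * ∑ s ∈ Finset.range m, x ^ s = ∑ s ∈ Finset.range m, x ^ s := by
    intro t
    induction t with
    | zero => rw [pow_zero, one_mul]
    | succ t ih => rw [pow_succ, mul_assoc, geom_mul x m hx, ih]
  rw [Finset.sum_mul, Finset.sum_congr rfl fun t _ => h1 t, Finset.sum_const, Finset.card_range]

theorem geom_root {R : Type*} [CommRing R] [IsDomain R] (η : R) (m : ℕ) (hη : η ^ m = 1)
    (h1 : η ≠ 1) : ∑ j ∈ Finset.range m, η ^ j = 0 := by
  have h2 := mul_geom_sum η m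
  rw [hη, sub_self] at h2
  rcases mul_eq_zero.1 h2 with h3 | h3
  · exact absurd (sub_eq_zero.1 h3) h1
  · exact h3

end Avg

section Sp

variable {R : Type*} [CommRing R] {G : Type*} [Group G]

/-- The spectral idempotent `(1/m) ∑ t, ζ'^{jt} g^t`. -/
noncomputable def sp (ζ' c : R) (m : ℕ) (g : G) (j : ℕ) : MonoidAlgebra R G :=
  c • ∑ t ∈ Finset.range m, MonoidAlgebra.single (g ^ t) (ζ' ^ (j * t))

theorem sp_eq (ζ' c : R) (m : ℕ) (g : G) (j : ℕ) :
    sp ζ' c m g j = c • ∑ t ∈ Finset.range m, (MonoidAlgebra.single g (ζ' ^ j)) ^ t := by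
  unfold sp
  congr 1
  refine Finset.sum_congr rfl fun t _ => ?_
  rw [MonoidAlgebra.single_pow, pow_mul]

theorem sp_idem (ζ' c : R) (m : ℕ) (g : G) (j : ℕ) (hζ' : ζ' ^ m = 1) (hc : c * (m : R) = 1)
    (hg : g ^ m = 1) : sp ζ' c m g j * sp ζ' c m g j = sp ζ' c m g j := by
  have hx : (MonoidAlgebra.single g (ζ' ^ j) : MonoidAlgebra R G) ^ m = 1 := by
    rw [MonoidAlgebra.single_pow, hg, ← pow_mul, mul_comm, pow_mul, hζ', one_pow,
      MonoidAlgebra.one_def]
  rw [sp_eq, smul_mul_smul_comm, geom_sq _ m hx, ← Nat.cast_smul_eq_nsmul R, smul_smul]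
  congr 1
  rw [mul_assoc, hc, mul_one]

theorem single_sum' (a : G) {ι : Type*} (s : Finset ι) (r : ι → R) :
    ∑ i ∈ s, MonoidAlgebra.single a (r i) = MonoidAlgebra.single a (∑ i ∈ s, r i) :=
  (map_sum (MonoidAlgebra.singleAddHom a) r s).symm

theorem sp_sum [IsDomain R] (ζ ζ' c : R) (m : ℕ) (g : G) (hm : 0 < m) (hζ : ζ * ζ' = 1)
    (hζ' : ζ' ^ m = 1) (hc : c * (m : R) = 1) (hprim : ∀ s, 0 < s → s < m → ζ' ^ s ≠ 1)
    (hg : g ^ m = 1) :
    ∑ j ∈ Finset.range m, ζ ^ j • sp ζ' c m g j = MonoidAlgebra.single g 1 := by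
  classical
  have hζm : ζ ^ m = 1 := by
    have h1 : (ζ * ζ') ^ m = 1 := by rw [hζ, one_pow]
    rw [mul_pow, hζ', mul_one] at h1
    exact h1
  have hζ'0 : ζ' ≠ 0 := by
    intro h0
    rw [h0, mul_zero] at hζ
    exact zero_ne_one hζ
  -- rewrite the left-hand side
  have h1 : ∑ j ∈ Finset.range m, ζ ^ j • sp ζ' c m g j
      = c • ∑ t ∈ Finset.range m,
          MonoidAlgebra.single (g ^ t) (∑ j ∈ Finset.range m, (ζ * ζ' ^ t) ^ j) := by
    unfold sp
    rw [Finset.smul_sum]
    have h2 : ∀ j ∈ Finset.range m,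
        ζ ^ j • c • ∑ t ∈ Finset.range m, MonoidAlgebra.single (g ^ t) (ζ' ^ (j * t))
        = ∑ t ∈ Finset.range m, c • MonoidAlgebra.single (g ^ t) ((ζ * ζ' ^ t) ^ j) := by
      intro j _
      rw [smul_comm, Finset.smul_sum, Finset.smul_sum]
      refine Finset.sum_congr rfl fun t _ => ?_
      rw [MonoidAlgebra.smul_single', mul_pow, ← pow_mul, mul_comm t j]
    rw [Finset.sum_congr rfl h2, Finset.sum_comm]
    refine Finset.sum_congr rfl fun t _ => ?_
    rw [← Finset.smul_sum, single_sum']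
  rw [h1]
  by_cases hm1 : m = 1
  · subst hm1
    rw [pow_one] at hg
    rw [Nat.cast_one, mul_one] at hc
    simp only [Finset.range_one, Finset.sum_singleton, pow_zero]
    rw [hc, one_smul, hg]
  · have hm2 : 2 ≤ m := by omega
    have hval : ∀ t ∈ Finset.range m, t ≠ 1 →
        ∑ j ∈ Finset.range m, (ζ * ζ' ^ t) ^ j = 0 := by
      intro t ht ht1
      have htm : t < m := Finset.mem_range.1 ht
      apply geom_root
      · rw [mul_pow, hζm, one_mul, ← pow_mul, mul_comm, pow_mul, hζ', one_pow]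
      · intro h3
        have h4 : ζ' ^ t = ζ' := by
          calc ζ' ^ t = ζ' * (ζ * ζ' ^ t) := by
                rw [← mul_assoc, mul_comm ζ' ζ, hζ, one_mul]
            _ = ζ' := by rw [h3, mul_one]
        rcases Nat.eq_zero_or_pos t with h0 | h0
        · rw [h0, pow_zero] at h4
          exact hprim 1 one_pos (by omega) (by rw [pow_one]; exact h4.symm)
        · have h5 : ζ' ^ (t - 1) = 1 := by
            have h6 : ζ' ^ (t - 1) * ζ' = 1 * ζ' := by
              rw [← pow_succ, Nat.sub_add_cancel h0, one_mul, h4]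
            exact mul_right_cancel₀ hζ'0 h6
          exact hprim (t - 1) (by omega) (by omega) h5
    rw [Finset.sum_eq_single 1]
    · rw [pow_one, pow_one, hζ]
      simp only [one_pow, Finset.sum_const, Finset.card_range, nsmul_eq_mul, mul_one]
      rw [MonoidAlgebra.smul_single', hc]
    · intro t ht ht1
      rw [hval t ht ht1, MonoidAlgebra.single_zero]
    · intro h
      exact absurd (Finset.mem_range.2 (by omega)) h

theorem sp_conj (ζ' c : R) (m : ℕ) (g h : G) (j : ℕ) :
    MonoidAlgebra.single h (1 : R) * sp ζ' c m g j * MonoidAlgebra.single h⁻¹ (1 : R)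
      = sp ζ' c m (h * g * h⁻¹) j := by
  unfold sp
  rw [mul_smul_comm, smul_mul_assoc, Finset.mul_sum, Finset.sum_mul]
  congr 1
  refine Finset.sum_congr rfl fun t _ => ?_
  rw [MonoidAlgebra.single_mul_single, MonoidAlgebra.single_mul_single, one_mul, mul_one,
    conj_pow]

theorem sp_map {R' : Type*} [CommRing R'] (f : R →+* R') (ζ' c : R) (m : ℕ) (g : G) (j : ℕ) :
    MonoidAlgebra.mapRingHom G f (sp ζ' c m g j) = sp (f ζ') (f c) m g j := by
  unfold sp
  rw [mapRingHom_smul, map_sum]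
  congr 1
  refine Finset.sum_congr rfl fun t _ => ?_
  rw [MonoidAlgebra.mapRingHom_single, map_pow]

theorem sp_mapDomain {K : Type*} [Group K] (φ : K →* G) (ζ' c : R) (m : ℕ) (k : K) (j : ℕ) :
    MonoidAlgebra.mapDomainAlgHom R R φ (sp ζ' c m k j) = sp ζ' c m (φ k) j := by
  unfold sp
  rw [map_smul, map_sum]
  congr 1
  refine Finset.sum_congr rfl fun t _ => ?_
  rw [← map_pow]
  exact MonoidAlgebra.mapDomain_single

end Sp

section Roots

variable {M : Ideal AlgInt}

/-- Root data: a primitive `m`-th root of unity, its inverse and `1/m` in the local ring. -/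
structure RootData (M : Ideal AlgInt) (hMp : M.IsPrime) (m : ℕ) where
  /-- a primitive root of unity -/
  ζ : localSubring M hMp
  /-- its inverse -/
  ζ' : localSubring M hMp
  /-- the inverse of `m` -/
  c : localSubring M hMp
  hm : 0 < m
  mul : ζ * ζ' = 1
  pow : ζ' ^ m = 1
  inv : c * (m : localSubring M hMp) = 1
  prim : ∀ s, 0 < s → s < m → ζ' ^ s ≠ 1

theorem nonempty_rootData {p : ℕ} [Fact p.Prime] (hM : IsPModular p M) (hMp : M.IsPrime)
    (m : ℕ) (hm : 0 < m) (hpm : ¬ p ∣ m) : Nonempty (RootData M hMp m) := by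
  have hprim := Complex.isPrimitiveRoot_exp m hm.ne'
  obtain ⟨z, hz⟩ : ∃ z : ℂ, z = Complex.exp (2 * Real.pi * Complex.I / m) := ⟨_, rfl⟩
  rw [← hz] at hprim
  have hzint : MemLocalRing M z := memLocalRing_of_isIntegral hMp (hprim.isIntegral hm)
  have hz'prim : IsPrimitiveRoot z⁻¹ m := hprim.inv
  have hz'int : MemLocalRing M z⁻¹ := memLocalRing_of_isIntegral hMp (hz'prim.isIntegral hm)
  have hmint : MemLocalRing M ((m : ℂ)⁻¹) :=
    memLocalRing_inv (memLocalRing_natCast hMp m)
      (fun h => hpm ((memLocalIdeal_natCast_iff hM m).1 h))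
  refine ⟨⟨⟨z, (mem_localSubring hMp).2 hzint⟩, ⟨z⁻¹, (mem_localSubring hMp).2 hz'int⟩,
    ⟨(m : ℂ)⁻¹, (mem_localSubring hMp).2 hmint⟩, hm, ?_, ?_, ?_, ?_⟩⟩
  · apply Subtype.ext
    show z * z⁻¹ = 1
    exact mul_inv_cancel₀ (hprim.ne_zero hm.ne')
  · apply Subtype.ext
    show z⁻¹ ^ m = 1
    exact hz'prim.pow_eq_one
  · apply Subtype.ext
    show (m : ℂ)⁻¹ * ((m : localSubring M hMp) : ℂ) = 1
    rw [Subring.coe_natCast]
    exact inv_mul_cancel₀ (Nat.cast_ne_zero.2 hm.ne')
  · intro s hs0 hsm h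
    have h1 : z⁻¹ ^ s = 1 := by
      have h2 := congrArg (fun x : localSubring M hMp => (x : ℂ)) h
      exact h2
    have h3 := hz'prim.dvd_of_pow_eq_one s h1
    exact absurd (Nat.le_of_dvd hs0 h3) (by omega)

variable {G : Type*} [Group G] {F : Type*} [Field F]

/-- The Brauer lift of a matrix representation, with values in the local ring. -/
noncomputable def bliftO (hMp : M.IsPrime) (q : localSubring M hMp →+* F) {m : ℕ}
    (Z : RootData M hMp m) {f : ℕ} (ρ : MonoidAlgebra F G →ₐ[F] Matrix (Fin f) (Fin f) F)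
    (g : G) : localSubring M hMp :=
  ∑ j ∈ Finset.range m, Z.ζ ^ j
    * (((ρ (MonoidAlgebra.mapRingHom G q (sp Z.ζ' Z.c m g j))).rank : ℕ) : localSubring M hMp)

/-- The Brauer lift of a matrix representation. -/
noncomputable def blift (hMp : M.IsPrime) (q : localSubring M hMp →+* F) {m : ℕ}
    (Z : RootData M hMp m) {f : ℕ} (ρ : MonoidAlgebra F G →ₐ[F] Matrix (Fin f) (Fin f) F)
    (g : G) : ℂ :=
  ((bliftO hMp q Z ρ g : localSubring M hMp) : ℂ)

theorem blift_eq (hMp : M.IsPrime) (q : localSubring M hMp →+* F) {m : ℕ}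
    (Z : RootData M hMp m) {f : ℕ} (ρ : MonoidAlgebra F G →ₐ[F] Matrix (Fin f) (Fin f) F)
    (g : G) :
    blift hMp q Z ρ g = ∑ j ∈ Finset.range m, ((Z.ζ ^ j : localSubring M hMp) : ℂ)
      * (((ρ (MonoidAlgebra.mapRingHom G q (sp Z.ζ' Z.c m g j))).rank : ℕ) : ℂ) := by
  unfold blift bliftO
  push_cast
  rfl

theorem trace_eq_rank {f : ℕ} (P : Matrix (Fin f) (Fin f) F) (hP : P * P = P) :
    P.trace = (P.rank : F) := by
  have hidem : IsIdempotentElem (Matrix.toLin' P) := by
    show Matrix.toLin' P * Matrix.toLin' P = Matrix.toLin' P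
    rw [Module.End.mul_eq_comp, ← Matrix.toLin'_mul, hP]
  have h3 := (LinearMap.IsIdempotentElem.isProj_range _ hidem).trace
  rw [LinearMap.trace_eq_matrix_trace F (Pi.basisFun F (Fin f)),
    LinearMap.toMatrix_eq_toMatrix', LinearMap.toMatrix'_toLin'] at h3
  rw [h3]
  rfl

theorem sp_red_idem (hMp : M.IsPrime) (q : localSubring M hMp →+* F) {m : ℕ}
    (Z : RootData M hMp m) (g : G) (hg : g ^ m = 1) (j : ℕ) :
    MonoidAlgebra.mapRingHom G q (sp Z.ζ' Z.c m g j)
        * MonoidAlgebra.mapRingHom G q (sp Z.ζ' Z.c m g j)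
      = MonoidAlgebra.mapRingHom G q (sp Z.ζ' Z.c m g j) := by
  rw [← map_mul, sp_idem Z.ζ' Z.c m g j Z.pow Z.inv hg]

/-- The Brauer lift reduces to the trace. -/
theorem q_bliftO (hMp : M.IsPrime) (q : localSubring M hMp →+* F) {m : ℕ}
    (Z : RootData M hMp m) {f : ℕ} (ρ : MonoidAlgebra F G →ₐ[F] Matrix (Fin f) (Fin f) F)
    (g : G) (hg : g ^ m = 1) :
    q (bliftO hMp q Z ρ g) = (ρ (MonoidAlgebra.single g 1)).trace := by
  have hsum := sp_sum Z.ζ Z.ζ' Z.c m g Z.hm Z.mul Z.pow Z.inv Z.prim hg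
  have h1 : (MonoidAlgebra.single g 1 : MonoidAlgebra F G)
      = ∑ j ∈ Finset.range m, q (Z.ζ ^ j) • MonoidAlgebra.mapRingHom G q (sp Z.ζ' Z.c m g j) := by
    rw [← mapRingHom_single_one q g, ← hsum, map_sum]
    exact Finset.sum_congr rfl fun j _ => mapRingHom_smul q _ _
  rw [h1, map_sum, Matrix.trace_sum]
  unfold bliftO
  rw [map_sum]
  refine Finset.sum_congr rfl fun j _ => ?_
  rw [map_smul, Matrix.trace_smul, smul_eq_mul, map_mul, map_natCast,
    trace_eq_rank _ (by rw [← map_mul, sp_red_idem hMp q Z g hg j])]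

/-- Every function on the group is recovered from its values on the spectral idempotents. -/
theorem eval_eq_sum (hMp : M.IsPrime) {m : ℕ} (Z : RootData M hMp m) (χ : G → ℂ) (g : G)
    (hg : g ^ m = 1) :
    χ g = ∑ j ∈ Finset.range m, ((Z.ζ ^ j : localSubring M hMp) : ℂ)
      * pair χ (incl hMp (sp Z.ζ' Z.c m g j)) := by
  have hsum := sp_sum Z.ζ Z.ζ' Z.c m g Z.hm Z.mul Z.pow Z.inv Z.prim hg
  have h1 := congrArg (fun x => pair χ (incl hMp x)) hsum
  simp only [map_sum, pair_sum] at h1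
  rw [incl_single_one, pair_single, one_mul] at h1
  rw [← h1]
  refine Finset.sum_congr rfl fun j _ => ?_
  rw [incl_smul, pair_smul]

/-- **Brauer's decomposition**: on `m`-torsion elements every irreducible character is the
combination of the Brauer lifts of the simple modules with the decomposition numbers. -/
theorem char_eq_sum_blift [Fintype G] (hMp : M.IsPrime) (q : localSubring M hMp →+* F)
    (W : WData F (MonoidAlgebra F G)) (εh : Fin W.L → MonoidAlgebra (localSubring M hMp) G)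
    (hεh : ∀ i, εh i * εh i = εh i) (hεr : ∀ i, MonoidAlgebra.mapRingHom G q (εh i) = W.ε i)
    {m : ℕ} (Z : RootData M hMp m) (χ : IrrCharacter G) (g : G) (hg : g ^ m = 1) :
    (χ : G → ℂ) g
      = ∑ i, pair (χ : G → ℂ) (incl hMp (εh i)) * blift hMp q Z (W.ρ i) g := by
  rw [eval_eq_sum hMp Z (χ : G → ℂ) g hg]
  have h1 : ∀ j ∈ Finset.range m, ((Z.ζ ^ j : localSubring M hMp) : ℂ)
        * pair (χ : G → ℂ) (incl hMp (sp Z.ζ' Z.c m g j))
      = ∑ i, pair (χ : G → ℂ) (incl hMp (εh i)) * (((Z.ζ ^ j : localSubring M hMp) : ℂ)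
        * (((W.ρ i (MonoidAlgebra.mapRingHom G q (sp Z.ζ' Z.c m g j))).rank : ℕ) : ℂ)) := by
    intro j _
    rw [decomp hMp q W εh hεh hεr _ (sp_idem Z.ζ' Z.c m g j Z.pow Z.inv hg) χ, Finset.mul_sum]
    refine Finset.sum_congr rfl fun i _ => by ring
  rw [Finset.sum_congr rfl h1, Finset.sum_comm]
  refine Finset.sum_congr rfl fun i _ => ?_
  rw [blift_eq, Finset.mul_sum]

/-- The Brauer lift is a class function. -/
theorem blift_conj (hMp : M.IsPrime) (q : localSubring M hMp →+* F) {m : ℕ}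
    (Z : RootData M hMp m) {f : ℕ} (ρ : MonoidAlgebra F G →ₐ[F] Matrix (Fin f) (Fin f) F)
    (g h : G) : blift hMp q Z ρ (h * g * h⁻¹) = blift hMp q Z ρ g := by
  rw [blift_eq, blift_eq]
  refine Finset.sum_congr rfl fun j _ => ?_
  have h1 : (ρ (MonoidAlgebra.mapRingHom G q (sp Z.ζ' Z.c m (h * g * h⁻¹) j))).rank
      = (ρ (MonoidAlgebra.mapRingHom G q (sp Z.ζ' Z.c m g j))).rank := by
    have h0 : MonoidAlgebra.mapRingHom G q (sp Z.ζ' Z.c m (h * g * h⁻¹) j)
        = MonoidAlgebra.single h 1 * MonoidAlgebra.mapRingHom G q (sp Z.ζ' Z.c m g j)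
          * MonoidAlgebra.single h⁻¹ 1 := by
      rw [← sp_conj, map_mul, map_mul, mapRingHom_single_one, mapRingHom_single_one]
    rw [h0, map_mul, map_mul]
    apply rank_conj
    rw [← map_mul, MonoidAlgebra.single_mul_single, mul_inv_cancel, mul_one,
      ← MonoidAlgebra.one_def, map_one]
  rw [h1]

/-- The Brauer lift is compatible with restriction to subgroups. -/
theorem blift_comp_subtype (hMp : M.IsPrime) (q : localSubring M hMp →+* F) {m : ℕ}
    (Z : RootData M hMp m) {f : ℕ} (ρ : MonoidAlgebra F G →ₐ[F] Matrix (Fin f) (Fin f) F)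
    (K : Subgroup G) (k : K) :
    blift hMp q Z (ρ.comp (MonoidAlgebra.mapDomainAlgHom F F K.subtype)) k
      = blift hMp q Z ρ (k : G) := by
  rw [blift_eq, blift_eq]
  refine Finset.sum_congr rfl fun j _ => ?_
  have h1 : (ρ.comp (MonoidAlgebra.mapDomainAlgHom F F K.subtype))
      (MonoidAlgebra.mapRingHom K q (sp Z.ζ' Z.c m k j))
      = ρ (MonoidAlgebra.mapRingHom G q (sp Z.ζ' Z.c m (k : G) j)) := by
    rw [AlgHom.comp_apply, sp_map, sp_map, sp_mapDomain]
    rfl
  rw [h1]

/-- The residue field has characteristic `p`. -/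
theorem charP_resField {p : ℕ} [Fact p.Prime] (hM : IsPModular p M) (hMp : M.IsPrime)
    (q : localSubring M hMp →+* F)
    (hq0 : ∀ x : localSubring M hMp, q x = 0 ↔ MemLocalIdeal M (x : ℂ)) : CharP F p := by
  have hpp : p.Prime := Fact.out
  have hpF : (p : F) = 0 := by
    have h1 : q (p : localSubring M hMp) = 0 := by
      rw [hq0]
      have h2 := memLocalIdeal_natCast_of_dvd hM (dvd_refl p)
      exact_mod_cast h2
    rw [map_natCast] at h1
    exact h1
  obtain ⟨c, hc⟩ := CharP.exists F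
  have h1 : c ∣ p := (CharP.cast_eq_zero_iff F c p).1 hpF
  rcases (Nat.dvd_prime hpp).1 h1 with h2 | h2
  · exact absurd h2 (CharP.char_ne_one F c)
  · rw [← h2]
    exact hc

/-- Traces of matrix representations are constant on `p`-sections. -/
theorem trace_section [Finite G] {p : ℕ} [Fact p.Prime] [CharP F p] {f : ℕ}
    (ρ : MonoidAlgebra F G →ₐ[F] Matrix (Fin f) (Fin f) F) (g u s : G) (hus : u * s = g)
    (hcomm : Commute u s) (k : ℕ) (hk : orderOf u = p ^ k) :
    (ρ (MonoidAlgebra.single g 1)).trace = (ρ (MonoidAlgebra.single s 1)).trace := by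
  haveI : CharP (MonoidAlgebra F G) p :=
    charP_of_injective_algebraMap (algebraMap F (MonoidAlgebra F G)).injective p
  obtain ⟨N, hN⟩ : ∃ N : MonoidAlgebra F G, N = MonoidAlgebra.single u 1 - 1 := ⟨_, rfl⟩
  have hNnil : IsNilpotent N := by
    refine ⟨p ^ k, ?_⟩
    rw [hN, sub_pow_char_pow_of_commute _ _ (Commute.one_right _), one_pow,
      MonoidAlgebra.single_pow, one_pow, ← hk, pow_orderOf_eq_one, MonoidAlgebra.one_def,
      sub_self]
  have hNc : Commute N (MonoidAlgebra.single s (1 : F)) := by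
    show N * MonoidAlgebra.single s (1 : F) = MonoidAlgebra.single s (1 : F) * N
    rw [hN, sub_mul, mul_sub, MonoidAlgebra.single_mul_single,
      MonoidAlgebra.single_mul_single, hcomm.eq]
    simp only [one_mul, mul_one]
  have h1 : (MonoidAlgebra.single g 1 : MonoidAlgebra F G)
      = N * MonoidAlgebra.single s 1 + MonoidAlgebra.single s 1 := by
    rw [hN, sub_mul, one_mul, sub_add_cancel, MonoidAlgebra.single_mul_single, hus, mul_one]
  have h2 : IsNilpotent (ρ (N * MonoidAlgebra.single s 1)) :=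
    (hNc.isNilpotent_mul_right hNnil).map ρ
  rw [h1, map_add, Matrix.trace_add, (Matrix.isNilpotent_trace_of_isNilpotent h2).eq_zero,
    zero_add]

/-- The Brauer lifts of the simple modules are linearly independent on `p`-regular elements. -/
theorem blift_indep [Fintype G] {p : ℕ} [Fact p.Prime] (hM : IsPModular p M) (hMp : M.IsPrime)
    (q : localSubring M hMp →+* F)
    (hq0 : ∀ x : localSubring M hMp, q x = 0 ↔ MemLocalIdeal M (x : ℂ))
    (hqs : Function.Surjective q) (W : WData F (MonoidAlgebra F G)) {m : ℕ}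
    (Z : RootData M hMp m) (hreg : ∀ g : G, IsPRegular p g → g ^ m = 1) (a : Fin W.L → ℂ)
    (ha : ∀ g : G, g ^ m = 1 → ∑ i, a i * blift hMp q Z (W.ρ i) g = 0) : ∀ i, a i = 0 := by
  classical
  have hpp : p.Prime := Fact.out
  haveI := charP_resField hM hMp q hq0
  have hsec : ∀ g : G, ∃ s : G, IsPRegular p s ∧ ∀ i,
      (W.ρ i (MonoidAlgebra.single g 1)).trace = (W.ρ i (MonoidAlgebra.single s 1)).trace := by
    intro g
    obtain ⟨u, s, hus, hcomm, ⟨k, hk⟩, hs⟩ :=
      Cfsg.Agent.Lib.CT.SectionOrth.exists_isPPart p hpp g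
    exact ⟨s, hs, fun i => trace_section (W.ρ i) g u s hus hcomm k hk⟩
  have hli : ∀ b : Fin W.L → F,
      (∀ x : {g : G // g ^ m = 1}, ∑ i, b i * q (bliftO hMp q Z (W.ρ i) x.1) = 0) →
      ∀ i, b i = 0 := by
    intro b hb
    apply W.indep
    intro y
    have hg : ∀ g : G, ∑ i, b i * (W.ρ i (MonoidAlgebra.single g 1)).trace = 0 := by
      intro g
      obtain ⟨s, hs, hsg⟩ := hsec g
      rw [← hb ⟨s, hreg s hs⟩]
      refine Finset.sum_congr rfl fun i _ => ?_
      rw [hsg i, q_bliftO hMp q Z (W.ρ i) s (hreg s hs)]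
    rw [eq_sum_single y]
    simp only [map_sum, map_smul, Matrix.trace_sum, Matrix.trace_smul, smul_eq_mul,
      Finset.mul_sum]
    rw [Finset.sum_comm]
    refine Finset.sum_eq_zero fun g _ => ?_
    rw [← mul_zero (y.coeff g), ← hg g, Finset.mul_sum]
    refine Finset.sum_congr rfl fun i _ => by ring
  exact Cfsg.Agent.Lib.Helper75.LiftIndep.indep_of_reduction (localSubring M hMp).subtype
    Subtype.val_injective q hqs
    (fun i (x : {g : G // g ^ m = 1}) => bliftO hMp q Z (W.ρ i) x.1) hli a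
    (fun x => ha x.1 x.2)

end Roots

end Cfsg.Agent.Lib.Helper75.Spectral
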