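import Mathlib
import Cfsg.Agent.Lib.Helper75.Spectral
import Cfsg.Agent.Lib.CT.Ops
import Cfsg.Agent.S0164

/-!
# Brauer lifts are generalized characters

* `eq_zero_of_rho`: the group algebra of a `p'`-group over the residue field is semisimple;
* `rank_tmat_eps`: the Gram matrix of its primitive idempotents is the identity;
* `blift_isCharacter`: for a `p'`-group the Brauer lift of any matrix representation is a
  character;
* `blift_generalized`: the Brauer lift `g ↦ blift ρ (g ^ N)` (`g ^ N` the `p'`-part) is a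
  generalized character, by Brauer's characterization of characters.
-/

set_option autoImplicit false
set_option linter.style.haveILetI false
set_option linter.unusedSectionVars false

namespace Cfsg.Agent.Lib.Helper75.BrauerLift

open Cfsg Module Cfsg.Agent.Lib.Helper77.LocalRing Cfsg.Agent.Lib.Helper77.CentralChar
  Cfsg.Agent.Lib.Helper75.GrpAlg Cfsg.Agent.Lib.Helper75.BlockRed
  Cfsg.Agent.Lib.Helper75.TwoChar Cfsg.Agent.Lib.Helper75.IdemGram
  Cfsg.Agent.Lib.Helper75.Decomp Cfsg.Agent.Lib.Helper75.Spectral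
  Cfsg.Agent.Lib.CT.Wedderburn

universe u v

section Coprime

variable {K : Type u} [Group K] {M : Ideal AlgInt} {F : Type v} [Field F]

theorem lmat_one'' [DecidableEq K] : lmat (1 : MonoidAlgebra F K) = 1 := by
  ext g h
  rw [lmat_apply, MonoidAlgebra.one_def, MonoidAlgebra.coeff_single, Finsupp.single_apply,
    Matrix.one_apply]
  by_cases hgh : g = h
  · rw [if_pos hgh, if_pos (by rw [hgh, mul_inv_cancel])]
  · rw [if_neg hgh, if_neg (fun h1 => hgh (mul_inv_eq_one.1 h1.symm))]

theorem lmat_pow' [Fintype K] [DecidableEq K] (y : MonoidAlgebra F K) (n : ℕ) :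
    lmat (y ^ n) = lmat y ^ n := by
  induction n with
  | zero => rw [pow_zero, pow_zero, lmat_one'']
  | succ n ih => rw [pow_succ, pow_succ, lmat_mul, ih]

/-- The group algebra of a `p'`-group over a field of characteristic `p` is semisimple. -/
theorem eq_zero_of_rho [Fintype K] {p : ℕ} [Fact p.Prime] [CharP F p]
    (hK : ¬ p ∣ Nat.card K) (W : WData F (MonoidAlgebra F K)) (x : MonoidAlgebra F K)
    (hx : ∀ j, W.ρ j x = 0) : x = 0 := by
  classical
  apply MonoidAlgebra.ext
  ext g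
  have hy : IsNilpotent (MonoidAlgebra.single g⁻¹ (1 : F) * x) :=
    W.nil _ (fun j => by rw [map_mul, hx j, mul_zero])
  obtain ⟨n, hn⟩ := hy
  have hnil : IsNilpotent (lmat (MonoidAlgebra.single g⁻¹ (1 : F) * x)) := by
    refine ⟨n, ?_⟩
    rw [← lmat_pow', hn]
    ext a b
    rfl
  have htr := (Matrix.isNilpotent_trace_of_isNilpotent hnil).eq_zero
  rw [trace_lmat, MonoidAlgebra.coeff_single_mul_apply, one_mul, inv_inv, mul_one] at htr
  rcases mul_eq_zero.1 htr with h0 | h0
  · exfalso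
    rw [← Nat.card_eq_fintype_card] at h0
    exact hK ((CharP.cast_eq_zero_iff F p _).1 h0)
  · rw [h0]
    rfl

/-- The Gram matrix of the primitive idempotents of a semisimple group algebra. -/
theorem rank_tmat_eps [Fintype K] {p : ℕ} [Fact p.Prime] [CharP F p]
    (hK : ¬ p ∣ Nat.card K) (W : WData F (MonoidAlgebra F K)) (i i' : Fin W.L) :
    (tmat (W.ε i) (W.ε i')).rank = if i = i' then 1 else 0 := by
  classical
  by_cases hii : i = i'
  · subst hii
    rw [if_pos rfl]
    obtain ⟨c, hc⟩ : ∃ c : K → F, ∀ h, c h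
        = (W.ρ i (MonoidAlgebra.single h 1)) ⟨0, W.hf i⟩ ⟨0, W.hf i⟩ := ⟨_, fun _ => rfl⟩
    have hz : ∀ h : K, W.ε i * MonoidAlgebra.single h 1 * W.ε i = c h • W.ε i := by
      intro h
      rw [← sub_eq_zero]
      apply eq_zero_of_rho hK W
      intro j
      rw [map_sub, map_mul, map_mul, map_smul, W.ρε i j]
      by_cases hij : i = j
      · subst hij
        rw [if_pos rfl, Matrix.single_mul_mul_single, one_mul, mul_one, ← hc, sub_eq_zero,
          Matrix.smul_single, smul_eq_mul, mul_one]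
      · rw [if_neg hij, zero_mul, zero_mul, smul_zero, sub_zero]
    have hT : tmat (W.ε i) (W.ε i) = Matrix.vecMulVec (fun g => (W.ε i).coeff g) c := by
      ext g h
      rw [tmat_apply, hz h, MonoidAlgebra.coeff_smul, Finsupp.smul_apply, smul_eq_mul,
        Matrix.vecMulVec_apply, mul_comm]
    apply le_antisymm
    · rw [hT]
      exact Matrix.rank_vecMulVec_le _ _
    · by_contra hlt
      have h0 : (tmat (W.ε i) (W.ε i)).rank = 0 := by omega
      have hbot : LinearMap.range (tmat (W.ε i) (W.ε i)).mulVecLin = ⊥ := by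
        unfold Matrix.rank at h0
        exact Submodule.finrank_eq_zero.1 h0
      have hε0 : W.ε i = 0 := by
        apply MonoidAlgebra.ext
        ext g
        have h1 : (tmat (W.ε i) (W.ε i)).mulVecLin (fun s => (W.ε i).coeff s)
            ∈ LinearMap.range (tmat (W.ε i) (W.ε i)).mulVecLin := ⟨_, rfl⟩
        rw [hbot, Submodule.mem_bot] at h1
        have h2 := congrFun h1 g
        rw [Matrix.mulVecLin_apply, Matrix.mulVec, dotProduct] at h2
        rw [← coeff_mul_mul_eq_sum, W.idem i, W.idem i] at h2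
        rw [h2]
        rfl
      have h3 := W.ρε i i
      rw [if_pos rfl, hε0, map_zero] at h3
      have h4 := congrFun (congrFun h3 ⟨0, W.hf i⟩) ⟨0, W.hf i⟩
      rw [Matrix.single_apply_same, Matrix.zero_apply] at h4
      exact zero_ne_one h4
  · rw [if_neg hii]
    have hT : tmat (W.ε i) (W.ε i') = 0 := by
      ext g h
      rw [tmat_apply]
      have hz : W.ε i * MonoidAlgebra.single h 1 * W.ε i' = 0 := by
        apply eq_zero_of_rho hK W
        intro j
        rw [map_mul, map_mul, W.ρε i j, W.ρε i' j]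
        by_cases hij : i = j
        · rw [if_neg (show ¬ i' = j from fun h' => hii (hij.trans h'.symm)), mul_zero]
        · rw [if_neg hij, zero_mul, zero_mul]
      rw [hz]
      rfl
    rw [hT, Matrix.rank_zero]

/-- For a `p'`-group the Brauer lift of a matrix representation is a combination of irreducible
characters with natural coefficients. -/
theorem blift_eq_sum_irr [Fintype K] {p : ℕ} [Fact p.Prime] (hM : IsPModular p M)
    (hMp : M.IsPrime) (q : localSubring M hMp →+* F)
    (hq0 : ∀ x : localSubring M hMp, q x = 0 ↔ MemLocalIdeal M (x : ℂ))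
    (hK : ¬ p ∣ Nat.card K) (W : WData F (MonoidAlgebra F K))
    (εh : Fin W.L → MonoidAlgebra (localSubring M hMp) K)
    (hεh : ∀ i, εh i * εh i = εh i) (hεr : ∀ i, MonoidAlgebra.mapRingHom K q (εh i) = W.ε i)
    {m : ℕ} (Z : RootData M hMp m) (hall : ∀ k : K, k ^ m = 1) {f : ℕ}
    (ρ : MonoidAlgebra F K →ₐ[F] Matrix (Fin f) (Fin f) F) :
    ∃ mult : IrrCharacter K → ℕ, ∀ k : K,
      blift hMp q Z ρ k = ∑ᶠ ξ : IrrCharacter K, (mult ξ : ℂ) * (ξ : K → ℂ) k := by
  classical
  haveI := charP_resField hM hMp q hq0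
  haveI := finite_irrCharacter K
  haveI : Fintype (IrrCharacter K) := Fintype.ofFinite _
  obtain ⟨d, hd⟩ := exists_dnum hMp εh hεh
  obtain ⟨n, hn⟩ : ∃ n : Fin W.L → ℕ, ∀ i, n i = (ρ (W.ε i)).rank := ⟨_, fun _ => rfl⟩
  refine ⟨fun ξ => ∑ i, n i * d ξ i, fun k => ?_⟩
  rw [finsum_eq_sum_of_fintype]
  have hkey : ∀ ê : MonoidAlgebra (localSubring M hMp) K, ê * ê = ê →
      (((ρ (MonoidAlgebra.mapRingHom K q ê)).rank : ℕ) : ℂ)
        = ∑ ξ : IrrCharacter K, ((∑ i, n i * d ξ i : ℕ) : ℂ)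
            * pair (ξ : K → ℂ) (incl hMp ê) := by
    intro ê hê
    have hêr : MonoidAlgebra.mapRingHom K q ê * MonoidAlgebra.mapRingHom K q ê
        = MonoidAlgebra.mapRingHom K q ê := by rw [← map_mul, hê]
    have hm := W.master (fun e => ((ρ e).rank : ℤ))
      (fun e e' he he' h1 h2 => by
        show (((ρ (e + e')).rank : ℕ) : ℤ) = _
        rw [map_add, rank_add_of_orth (ρ e) (ρ e') (by rw [← map_mul, he])
          (by rw [← map_mul, he']) (by rw [← map_mul, h1, map_zero])
          (by rw [← map_mul, h2, map_zero])]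
        push_cast
        rfl)
      (fun e u v _ huv _ => by
        show (((ρ (u * e * v)).rank : ℕ) : ℤ) = _
        rw [map_mul, map_mul, rank_conj (ρ u) (ρ v) (ρ e) (by rw [← map_mul, huv, map_one])])
      (MonoidAlgebra.mapRingHom K q ê) hêr
    have hm' : (((ρ (MonoidAlgebra.mapRingHom K q ê)).rank : ℕ) : ℂ)
        = ∑ i, ((W.ρ i (MonoidAlgebra.mapRingHom K q ê)).rank : ℂ) * (n i : ℂ) := by
      have h3 : (((ρ (MonoidAlgebra.mapRingHom K q ê)).rank : ℤ) : ℂ)
          = ((∑ i, ((W.ρ i (MonoidAlgebra.mapRingHom K q ê)).rank : ℤ)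
            * ((ρ (W.ε i)).rank : ℤ) : ℤ) : ℂ) := by
        rw [← hm]
      push_cast at h3
      rw [h3]
      exact Finset.sum_congr rfl fun i _ => by rw [hn i]
    rw [hm']
    have h4 : ∀ ξ : IrrCharacter K, ((∑ i, n i * d ξ i : ℕ) : ℂ)
          * pair (ξ : K → ℂ) (incl hMp ê)
        = ∑ i, ∑ i', (n i : ℂ) * ((W.ρ i' (MonoidAlgebra.mapRingHom K q ê)).rank : ℂ)
            * ((d ξ i : ℂ) * (d ξ i' : ℂ)) := by
      intro ξ
      rw [decomp hMp q W εh hεh hεr ê hê ξ]
      push_cast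
      rw [Finset.sum_mul_sum]
      refine Finset.sum_congr rfl fun i _ => Finset.sum_congr rfl fun i' _ => ?_
      rw [hd ξ i']
      ring
    rw [Finset.sum_congr rfl fun ξ _ => h4 ξ, Finset.sum_comm]
    refine Finset.sum_congr rfl fun i _ => ?_
    rw [Finset.sum_comm]
    have h5 : ∀ i' : Fin W.L, ∑ ξ : IrrCharacter K,
          (n i : ℂ) * ((W.ρ i' (MonoidAlgebra.mapRingHom K q ê)).rank : ℂ)
            * ((d ξ i : ℂ) * (d ξ i' : ℂ))
        = (n i : ℂ) * ((W.ρ i' (MonoidAlgebra.mapRingHom K q ê)).rank : ℂ)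
            * (if i = i' then 1 else 0) := by
      intro i'
      rw [← Finset.mul_sum]
      congr 1
      have h6 := rank_tmat_eq hMp q (εh i) (εh i') (hεh i) (hεh i')
      rw [hεr i, hεr i', rank_tmat_eps hK W i i'] at h6
      have h7 : ∑ ξ : IrrCharacter K, (d ξ i : ℂ) * (d ξ i' : ℂ)
          = ∑ ξ : IrrCharacter K, pair (ξ : K → ℂ) (incl hMp (εh i))
            * pair (ξ : K → ℂ) (incl hMp (εh i')) :=
        Finset.sum_congr rfl fun ξ _ => by rw [hd ξ i, hd ξ i']
      rw [h7, ← h6]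
      split_ifs <;> simp
    rw [Finset.sum_congr rfl fun i' _ => h5 i']
    simp only [mul_ite, mul_one, mul_zero, Finset.sum_ite_eq, Finset.mem_univ, if_true]
    ring
  rw [blift_eq]
  have h8 : ∀ j ∈ Finset.range m, ((Z.ζ ^ j : localSubring M hMp) : ℂ)
        * (((ρ (MonoidAlgebra.mapRingHom K q (sp Z.ζ' Z.c m k j))).rank : ℕ) : ℂ)
      = ∑ ξ : IrrCharacter K, ((∑ i, n i * d ξ i : ℕ) : ℂ)
          * (((Z.ζ ^ j : localSubring M hMp) : ℂ)
            * pair (ξ : K → ℂ) (incl hMp (sp Z.ζ' Z.c m k j))) := by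
    intro j _
    rw [hkey _ (sp_idem Z.ζ' Z.c m k j Z.pow Z.inv (hall k)), Finset.mul_sum]
    exact Finset.sum_congr rfl fun ξ _ => by ring
  rw [Finset.sum_congr rfl h8, Finset.sum_comm]
  refine Finset.sum_congr rfl fun ξ _ => ?_
  rw [← Finset.mul_sum, ← eval_eq_sum hMp Z (ξ : K → ℂ) k (hall k)]

/-- For a `p'`-group the Brauer lift of a matrix representation is a character. -/
theorem blift_isCharacter [Fintype K] {p : ℕ} [Fact p.Prime] (hM : IsPModular p M)
    (hMp : M.IsPrime) (q : localSubring M hMp →+* F)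
    (hq0 : ∀ x : localSubring M hMp, q x = 0 ↔ MemLocalIdeal M (x : ℂ))
    (hK : ¬ p ∣ Nat.card K) (W : WData F (MonoidAlgebra F K))
    (εh : Fin W.L → MonoidAlgebra (localSubring M hMp) K)
    (hεh : ∀ i, εh i * εh i = εh i) (hεr : ∀ i, MonoidAlgebra.mapRingHom K q (εh i) = W.ε i)
    {m : ℕ} (Z : RootData M hMp m) (hall : ∀ k : K, k ^ m = 1) {f : ℕ}
    (ρ : MonoidAlgebra F K →ₐ[F] Matrix (Fin f) (Fin f) F) :
    IsCharacter K (fun k => blift hMp q Z ρ k) := by
  haveI := finite_irrCharacter K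
  obtain ⟨mult, hmult⟩ := blift_eq_sum_irr hM hMp q hq0 hK W εh hεh hεr Z hall ρ
  have h1 : (fun k => blift hMp q Z ρ k)
      = fun k => ∑ᶠ ξ : IrrCharacter K, (mult ξ : ℂ) * (ξ : K → ℂ) k := funext hmult
  rw [h1]
  exact Cfsg.Agent.Lib.CT.Ops.isCharacter_finsum_natCast_mul mult (fun ξ => (ξ : K → ℂ))
    (fun ξ => isCharacter_of_irr ξ.2)

end Coprime

section General

variable {G : Type u} [Group G] {M : Ideal AlgInt} {F : Type v} [Field F]

/-- **Brauer lifts are generalized characters.** -/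
theorem blift_generalized [Finite G] {p : ℕ} [Fact p.Prime] (hM : IsPModular p M)
    (hMp : M.IsPrime) (q : localSubring M hMp →+* F)
    (hq0 : ∀ x : localSubring M hMp, q x = 0 ↔ MemLocalIdeal M (x : ℂ))
    (hW : ∀ (H : Type u) [Group H] [Finite H], Nonempty (WData F (MonoidAlgebra F H)))
    (hlift : ∀ (H : Type u) [Group H] [Finite H] (e : MonoidAlgebra F H), e * e = e →
      ∃ ê : MonoidAlgebra (localSubring M hMp) H, ê * ê = ê ∧ MonoidAlgebra.mapRingHom H q ê = e)
    (hEL : ∀ (E : Type u) [Group E] [Finite E] (r : ℕ), r.Prime → IsElementary r E →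
      ∀ N : ℕ, (∀ g : E, (∃ k : ℕ, g ^ (p ^ k) = 1) → g ^ N = 1) →
        (∀ g : E, ¬ p ∣ orderOf g → g ^ N = g) → ∀ a b : E, (a * b) ^ N = a ^ N * b ^ N)
    {m : ℕ} (Z : RootData M hMp m) (hpm : ¬ p ∣ m) (N : ℕ)
    (hN : ∀ g : G, (g ^ N) ^ m = 1)
    (hN0 : ∀ g : G, (∃ k : ℕ, g ^ (p ^ k) = 1) → g ^ N = 1)
    (hN1 : ∀ g : G, ¬ p ∣ orderOf g → g ^ N = g)
    {f : ℕ} (ρ : MonoidAlgebra F G →ₐ[F] Matrix (Fin f) (Fin f) F) :
    IsGeneralizedCharacter G (fun g => blift hMp q Z ρ (g ^ N)) := by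
  classical
  apply Cfsg.Agent.S0164.result
  · intro g h
    show blift hMp q Z ρ ((h * g * h⁻¹) ^ N) = blift hMp q Z ρ (g ^ N)
    rw [conj_pow, blift_conj]
  · intro E r hr hEl
    have hmul := hEL E r hr hEl N
      (fun g hg => by
        obtain ⟨k, hk⟩ := hg
        apply Subtype.ext
        rw [Subgroup.coe_pow, Subgroup.coe_one]
        apply hN0 (g : G) ⟨k, ?_⟩
        rw [← Subgroup.coe_pow, hk, Subgroup.coe_one])
      (fun g hg => by
        apply Subtype.ext
        rw [Subgroup.coe_pow]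
        exact hN1 (g : G) (by rwa [Subgroup.orderOf_coe]))
    obtain ⟨π, hπ⟩ : ∃ π : E →* G, ∀ e : E, π e = (e : G) ^ N :=
      ⟨{ toFun := fun e => (e : G) ^ N
         map_one' := by rw [Subgroup.coe_one, one_pow]
         map_mul' := fun a b => by
          have h1 := congrArg Subtype.val (hmul a b)
          rw [Subgroup.coe_pow, Subgroup.coe_mul, Subgroup.coe_mul, Subgroup.coe_pow,
            Subgroup.coe_pow] at h1
          exact h1 }, fun e => rfl⟩
    obtain ⟨K, hKdef⟩ : ∃ K : Subgroup G, K = π.range := ⟨_, rfl⟩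
    have hall : ∀ k : K, k ^ m = 1 := by
      intro k
      obtain ⟨e, he⟩ : ∃ e, π e = (k : G) := by
        have h1 : (k : G) ∈ π.range := by
          rw [← hKdef]
          exact k.2
        exact h1
      apply Subtype.ext
      rw [Subgroup.coe_pow, ← he, hπ, hN]
      rfl
    have hK : ¬ p ∣ Nat.card K := by
      intro hdvd
      obtain ⟨k, hk⟩ := exists_prime_orderOf_dvd_card' p hdvd
      have h1 : orderOf k ∣ m := orderOf_dvd_of_pow_eq_one (hall k)
      rw [hk] at h1
      exact hpm h1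
    haveI : Fintype K := Fintype.ofFinite K
    obtain ⟨W⟩ := hW K
    choose εh hεh hεr using fun i => hlift K (W.ε i) (W.idem i)
    have hchar := blift_isCharacter hM hMp q hq0 hK W εh hεh hεr Z hall
      (ρ.comp (MonoidAlgebra.mapDomainAlgHom F F K.subtype))
    obtain ⟨π', hπ'⟩ : ∃ π' : E →* K, ∀ e, ((π' e : K) : G) = (e : G) ^ N :=
      ⟨π.codRestrict K (fun e => by rw [hKdef]; exact ⟨e, rfl⟩), fun e => hπ e⟩
    have h2 := Cfsg.Agent.Lib.CT.Ops.isCharacter_comp_hom π' hchar
    refine ⟨_, 0, h2, Cfsg.Agent.Lib.CT.Ops.isCharacter_zero, ?_⟩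
    funext e
    simp only [Pi.sub_apply, Pi.zero_apply, sub_zero]
    rw [blift_comp_subtype, hπ']

end General

end Cfsg.Agent.Lib.Helper75.BrauerLift
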