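import Mathlib
import Cfsg.Prelude.Def_Blocks
import Cfsg.Agent.Lib.Helper75.CentralProd
import Cfsg.Agent.Lib.Helper75.BlockOrth2

/-!
# The principal block of a central product over a `p`-group
-/

set_option autoImplicit false

namespace Cfsg.Agent.Lib.Helper75.CentralProdBlock

open Cfsg Cfsg.Agent.Lib.CT Cfsg.Agent.Lib.CT.Wedderburn Cfsg.Agent.Lib.Helper77.ClassSum
  Cfsg.Agent.Lib.Helper77.LocalRing Cfsg.Agent.Lib.Helper75.CentralProd
  Cfsg.Agent.Lib.Helper75.BlockOrth2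
open scoped ComplexConjugate

universe u
variable {G : Type u} [Group G]

theorem orderOf_eq_of_isConj {H : Type*} [Group H] {a b : H} (h : IsConj a b) :
    orderOf b = orderOf a := by
  obtain ⟨c, hc⟩ := isConj_iff.mp h
  rw [← hc]
  exact orderOf_injective (MulAut.conj c).toMonoidHom (MulAut.conj c).injective _

theorem not_dvd_orderOf_pow_ordProj [Finite G] (p : ℕ) [hp : Fact p.Prime] (g : G) :
    ¬ p ∣ orderOf (g ^ p ^ (Nat.card G).factorization p) := by
  intro hdvd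
  have h1 : (g ^ p ^ (Nat.card G).factorization p) ^
      (Nat.card G / p ^ (Nat.card G).factorization p) = 1 := by
    rw [← pow_mul, Nat.mul_div_cancel' (Nat.ordProj_dvd _ _)]
    exact pow_card_eq_one'
  have h2 := orderOf_dvd_of_pow_eq_one h1
  exact Nat.not_dvd_ordCompl hp.out Nat.card_pos.ne' (hdvd.trans h2)

/-- In a central product the character `χ` is the product of its constituents on the factors. -/
theorem factor_eq [Finite G] (U₁ U₂ : Subgroup G) [Fintype U₁] [Fintype U₂]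
    (hcomm : ∀ u ∈ U₁, ∀ v ∈ U₂, u * v = v * u) (hgen : U₁ ⊔ U₂ = ⊤) (χ : IrrCharacter G)
    (ψ₁ : IrrCharacter U₁) (ψ₂ : IrrCharacter U₂)
    (h₁ : classInner (fun u : U₁ => (χ : G → ℂ) u) (ψ₁ : U₁ → ℂ) ≠ 0)
    (h₂ : classInner (fun u : U₂ => (χ : G → ℂ) u) (ψ₂ : U₂ → ℂ) ≠ 0) :
    ∀ (u : U₁) (v : U₂), (χ : G → ℂ) ((u : G) * (v : G)) = (ψ₁ : U₁ → ℂ) u * (ψ₂ : U₂ → ℂ) v := by
  obtain ⟨φ₁, φ₂, hφ⟩ := exists_factor U₁ U₂ hcomm hgen χ
  have e1 : φ₁ = ψ₁ := by
    by_contra hne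
    apply h₁
    have hres : (fun u : U₁ => (χ : G → ℂ) u) = fun u => (φ₁ : U₁ → ℂ) u * (φ₂ : U₂ → ℂ) 1 := by
      funext u
      have := hφ u 1
      rwa [Subgroup.coe_one, mul_one] at this
    rw [hres]
    have hlin : classInner (fun u => (φ₁ : U₁ → ℂ) u * (φ₂ : U₂ → ℂ) 1) (ψ₁ : U₁ → ℂ) =
        (φ₂ : U₂ → ℂ) 1 * classInner (φ₁ : U₁ → ℂ) (ψ₁ : U₁ → ℂ) := by
      unfold classInner
      rw [Finset.mul_sum, Finset.mul_sum, Finset.mul_sum]
      exact Finset.sum_congr rfl fun u _ => by ring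
    rw [hlin, irr_orthonormal, if_neg hne, mul_zero]
  have e2 : φ₂ = ψ₂ := by
    by_contra hne
    apply h₂
    have hres : (fun v : U₂ => (χ : G → ℂ) v) = fun v => (φ₁ : U₁ → ℂ) 1 * (φ₂ : U₂ → ℂ) v := by
      funext v
      have := hφ 1 v
      rwa [Subgroup.coe_one, one_mul] at this
    rw [hres]
    have hlin : classInner (fun v => (φ₁ : U₁ → ℂ) 1 * (φ₂ : U₂ → ℂ) v) (ψ₂ : U₂ → ℂ) =
        (φ₁ : U₁ → ℂ) 1 * classInner (φ₂ : U₂ → ℂ) (ψ₂ : U₂ → ℂ) := by
      unfold classInner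
      rw [Finset.mul_sum, Finset.mul_sum, Finset.mul_sum]
      exact Finset.sum_congr rfl fun u _ => by ring
    rw [hlin, irr_orthonormal, if_neg hne, mul_zero]
  rw [← e1, ← e2]
  exact hφ

/-- Central characters of product functions multiply when the class sizes do. -/
theorem centralChar_mul (U₁ U₂ : Subgroup G) (f : G → ℂ) (f₁ : U₁ → ℂ) (f₂ : U₂ → ℂ)
    (hf : ∀ (u : U₁) (v : U₂), f ((u : G) * (v : G)) = f₁ u * f₂ v) (u : U₁) (v : U₂)
    (hidx : (Subgroup.centralizer ({(u : G) * (v : G)} : Set G)).index =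
      (Subgroup.centralizer ({u} : Set U₁)).index * (Subgroup.centralizer ({v} : Set U₂)).index) :
    centralChar f ((u : G) * (v : G)) = centralChar f₁ u * centralChar f₂ v := by
  unfold centralChar
  have h1 : f 1 = f₁ 1 * f₂ 1 := by
    have := hf 1 1
    rwa [Subgroup.coe_one, Subgroup.coe_one, mul_one] at this
  rw [hidx, hf, h1]
  push_cast
  ring

theorem centralChar_one_right {H : Type*} [Group H] (f : H → ℂ) (hf : f 1 ≠ 0) :
    centralChar f 1 = 1 := by
  unfold centralChar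
  have : Subgroup.centralizer ({1} : Set H) = ⊤ := by
    rw [Subgroup.centralizer_eq_top_iff_subset]
    intro x hx
    rw [Set.mem_singleton_iff.mp hx]
    exact Subgroup.one_mem _
  rw [this, Subgroup.index_top]
  field_simp
  simp

/-- **Principal block of a central product over a `p`-group.** -/
theorem mem_principalBlock_iff [Finite G] (p : ℕ) [hp : Fact p.Prime] (M : Ideal AlgInt)
    (hM : IsPModular p M) (U₁ U₂ : Subgroup G)
    (hcomm : ∀ u ∈ U₁, ∀ v ∈ U₂, u * v = v * u) (hgen : U₁ ⊔ U₂ = ⊤)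
    (hZ : IsPGroup p ↥(U₁ ⊓ U₂)) (χ : IrrCharacter G)
    (ψ₁ : IrrCharacter U₁) (ψ₂ : IrrCharacter U₂)
    (hfac : ∀ (u : U₁) (v : U₂),
      (χ : G → ℂ) ((u : G) * (v : G)) = (ψ₁ : U₁ → ℂ) u * (ψ₂ : U₂ → ℂ) v) :
    χ ∈ principalBlock M G ↔ (ψ₁ ∈ principalBlock M U₁ ∧ ψ₂ ∈ principalBlock M U₂) := by
  have hMp := isPrime_of_isPModular hM
  have hone : ∀ (u : U₁) (v : U₂), (fun _ : G => (1 : ℂ)) ((u : G) * (v : G)) =
      (fun _ : U₁ => (1 : ℂ)) u * (fun _ : U₂ => (1 : ℂ)) v := fun u v => by simp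
  have hψ₁ : (ψ₁ : U₁ → ℂ) 1 ≠ 0 := Cfsg.Agent.Lib.Helper77.CentralChar.irr_one_ne_zero ψ₁.2
  have hψ₂ : (ψ₂ : U₂ → ℂ) 1 ≠ 0 := Cfsg.Agent.Lib.Helper77.CentralChar.irr_one_ne_zero ψ₂.2
  constructor
  · intro hχ
    constructor
    · intro u
      have hidx := index_centralizer_mul U₁ U₂ hcomm hgen u 1 (by
        intro k₁ k₁' k₂ k₂' _ _ h2 h2' heq
        have e2 : k₂ = 1 := isConj_one_right.mp h2
        have e2' : k₂' = 1 := isConj_one_right.mp h2'
        subst e2 e2'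
        refine ⟨Subtype.ext ?_, rfl⟩
        simpa using heq)
      have h := hχ ((u : G) * ((1 : U₂) : G))
      rw [centralChar_mul U₁ U₂ _ _ _ hone u 1 hidx, centralChar_mul U₁ U₂ _ _ _ hfac u 1 hidx,
        centralChar_one_right _ hψ₂, centralChar_one_right _ one_ne_zero, mul_one, mul_one] at h
      exact h
    · intro v
      have hidx := index_centralizer_mul U₁ U₂ hcomm hgen 1 v (by
        intro k₁ k₁' k₂ k₂' h1 h1' _ _ heq
        have e1 : k₁ = 1 := isConj_one_right.mp h1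
        have e1' : k₁' = 1 := isConj_one_right.mp h1'
        subst e1 e1'
        refine ⟨rfl, Subtype.ext ?_⟩
        simpa using heq)
      have h := hχ (((1 : U₁) : G) * (v : G))
      rw [centralChar_mul U₁ U₂ _ _ _ hone 1 v hidx, centralChar_mul U₁ U₂ _ _ _ hfac 1 v hidx,
        centralChar_one_right _ hψ₁, centralChar_one_right _ one_ne_zero, one_mul, one_mul] at h
      exact h
  · rintro ⟨h₁, h₂⟩
    apply mem_principalBlock_of_pRegular p M hM
    intro g hg
    -- write g = u * v with u, v of order prime to p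
    obtain ⟨⟨u₀, v₀⟩, huv⟩ := mulHom_surjective U₁ U₂ hcomm hgen g
    rw [mulHom_apply] at huv
    simp only at huv
    set q := p ^ (Nat.card G).factorization p with hq
    have hcop : q.Coprime (orderOf g) :=
      Nat.Coprime.pow_left _ ((Nat.Prime.coprime_iff_not_dvd hp.out).mpr hg)
    obtain ⟨j, hj⟩ := exists_pow_eq_self_of_coprime hcop
    set u : U₁ := u₀ ^ (q * j) with hu
    set v : U₂ := v₀ ^ (q * j) with hv
    have hguv : (u : G) * (v : G) = g := by
      rw [hu, hv, Subgroup.coe_pow, Subgroup.coe_pow,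
        ← (show Commute (u₀ : G) (v₀ : G) from hcomm u₀ u₀.2 v₀ v₀.2).mul_pow, huv, pow_mul]
      exact hj
    have hureg : ¬ p ∣ orderOf u := by
      rw [← Subgroup.orderOf_coe, hu, Subgroup.coe_pow, pow_mul]
      exact fun h => not_dvd_orderOf_pow_ordProj p (u₀ : G) (h.trans (orderOf_pow_dvd j))
    have hvreg : ¬ p ∣ orderOf v := by
      rw [← Subgroup.orderOf_coe, hv, Subgroup.coe_pow, pow_mul]
      exact fun h => not_dvd_orderOf_pow_ordProj p (v₀ : G) (h.trans (orderOf_pow_dvd j))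
    have hidx := index_centralizer_mul U₁ U₂ hcomm hgen u v (by
      intro k₁ k₁' k₂ k₂' hk₁ hk₁' _ _ heq
      have hz : ((k₁'⁻¹ * k₁ : U₁) : G) = (k₂' : G) * (k₂ : G)⁻¹ := by
        push_cast
        rw [inv_mul_eq_iff_eq_mul, ← mul_assoc, ← heq, mul_inv_cancel_right]
      have hzU₂ : ((k₁'⁻¹ * k₁ : U₁) : G) ∈ U₂ := by
        rw [hz]
        exact U₂.mul_mem k₂'.2 (U₂.inv_mem k₂.2)
      have hcz : Commute k₁' (k₁'⁻¹ * k₁) := by
        apply Subtype.ext
        push_cast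
        have := hcomm (k₁' : G) k₁'.2 _ hzU₂
        push_cast at this
        exact this
      have hzo : (k₁'⁻¹ * k₁) ^ orderOf u = 1 := by
        have h1 : k₁ ^ orderOf u = 1 := by
          rw [← orderOf_eq_of_isConj hk₁]
          exact pow_orderOf_eq_one k₁
        have h1' : k₁' ^ orderOf u = 1 := by
          rw [← orderOf_eq_of_isConj hk₁']
          exact pow_orderOf_eq_one k₁'
        have h3 : k₁ = k₁' * (k₁'⁻¹ * k₁) := by group
        rw [h3, hcz.mul_pow, h1', one_mul] at h1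
        exact h1
      obtain ⟨k, hk⟩ := hZ ⟨((k₁'⁻¹ * k₁ : U₁) : G), ⟨(k₁'⁻¹ * k₁ : U₁).2, hzU₂⟩⟩
      have hzp : (k₁'⁻¹ * k₁) ^ p ^ k = 1 := by
        apply Subtype.ext
        have := congrArg (fun x : ↥(U₁ ⊓ U₂) => (x : G)) hk
        simpa using this
      have hd : orderOf (k₁'⁻¹ * k₁) ∣ Nat.gcd (orderOf u) (p ^ k) :=
        Nat.dvd_gcd (orderOf_dvd_of_pow_eq_one hzo) (orderOf_dvd_of_pow_eq_one hzp)
      have hc1 : Nat.gcd (orderOf u) (p ^ k) = 1 :=
        Nat.Coprime.pow_right _ ((Nat.Prime.coprime_iff_not_dvd hp.out).mpr hureg).symm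
      rw [hc1, Nat.dvd_one, orderOf_eq_one_iff, inv_mul_eq_one] at hd
      refine ⟨hd.symm, Subtype.ext ?_⟩
      rw [hd] at heq
      exact mul_left_cancel heq)
    rw [← hguv, centralChar_mul U₁ U₂ _ _ _ hone u v hidx,
      centralChar_mul U₁ U₂ _ _ _ hfac u v hidx]
    refine memLocalIdeal_mul_sub_mul hMp ?_ ?_ (h₁ u) (h₂ v)
    · unfold centralChar
      simp only [mul_one, div_one]
      exact memLocalRing_natCast hMp _
    · exact memLocalRing_of_isIntegral hMp (isIntegral_centralChar ψ₂.2 v)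

end Cfsg.Agent.Lib.Helper75.CentralProdBlock
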