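import Mathlib
import Cfsg.Agent.Lib.Helper75.BrauerLift
import Cfsg.Agent.Lib.Helper75.OTStmt
import Cfsg.Agent.Lib.Helper33.DecW1
import Cfsg.Agent.Lib.Helper1.DecW2
import Cfsg.Agent.Lib.Helper59.DecD2a
import Cfsg.Agent.Lib.Helper33.DecEL
import Cfsg.Agent.Lib.Helper26.GenChar
import Cfsg.Agent.Lib.CT.PairCount
import Cfsg.Agent.Lib.CT.Orth
import Cfsg.Agent.Lib.Helper17.BrBridge

/-!
# Decomposition data of a block

`exists_decData`: for a `p`-block `B` there are Wedderburn data of `FG`, idempotent lifts of the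
primitive idempotents, decomposition numbers `d χ i` and the set `J` of simple modules of `B`
satisfying `OTStmt.DecData`: degree formula, block support, unimodularity (every Brauer character
is an integral combination of restricted characters), `p^a` divides the degrees of the projective
indecomposable characters, and `blockRank p B ≤ |J|`.
-/

set_option autoImplicit false
set_option linter.style.haveILetI false
set_option linter.unusedSectionVars false

namespace Cfsg.Agent.Lib.Helper75.DecompBlock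

open Cfsg Module Cfsg.Agent.Lib.Helper77.LocalRing Cfsg.Agent.Lib.Helper77.CentralChar
  Cfsg.Agent.Lib.Helper77.BlockIdem
  Cfsg.Agent.Lib.Helper75.GrpAlg Cfsg.Agent.Lib.Helper75.BlockRed
  Cfsg.Agent.Lib.Helper75.TwoChar Cfsg.Agent.Lib.Helper75.IdemGram
  Cfsg.Agent.Lib.Helper75.Decomp Cfsg.Agent.Lib.Helper75.Spectral
  Cfsg.Agent.Lib.Helper75.BrauerLift Cfsg.Agent.Lib.Helper75.OTStmt
  Cfsg.Agent.Lib.CT.Wedderburn
open scoped ComplexConjugate

universe u

variable {G : Type u} [Group G] {M : Ideal AlgInt} {F : Type} [Field F]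

theorem rank_single_one {f : ℕ} (i : Fin f) :
    (Matrix.single i i (1 : F)).rank = 1 := by
  classical
  rw [← Matrix.diagonal_single, Matrix.rank_diagonal]
  rw [Fintype.card_eq_one_iff]
  refine ⟨⟨i, by rw [Pi.single_eq_same]; exact one_ne_zero⟩, ?_⟩
  rintro ⟨j, hj⟩
  apply Subtype.ext
  by_contra hne
  exact hj (Pi.single_eq_of_ne hne _)

/-- The image of a central idempotent under a surjective matrix representation is `1` or `0`. -/
theorem rho_central_idem {f : ℕ} (hf : 0 < f) {A : Type*} [Ring A] [Algebra F A]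
    (ρ : A →ₐ[F] Matrix (Fin f) (Fin f) F) (hρ : Function.Surjective ρ) (e : A)
    (he : e * e = e) (hec : ∀ x, e * x = x * e) : ρ e = 1 ∨ ρ e = 0 := by
  classical
  haveI : Nonempty (Fin f) := ⟨⟨0, hf⟩⟩
  have h1 : ρ e ∈ Set.range (Matrix.scalar (Fin f)) := by
    rw [Matrix.mem_range_scalar_iff_commute_single']
    intro i j
    obtain ⟨x, hx⟩ := hρ (Matrix.single i j 1)
    show Matrix.single i j 1 * ρ e = ρ e * Matrix.single i j 1
    rw [← hx, ← map_mul, ← map_mul, hec]
  obtain ⟨c, hc⟩ := h1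
  have h2 : ρ e * ρ e = ρ e := by rw [← map_mul, he]
  rw [← hc, ← map_mul] at h2
  have h3 : c * c = c := Matrix.scalar_inj.1 h2
  have h4 : c * (c - 1) = 0 := by rw [mul_sub, h3, mul_one, sub_self]
  rcases mul_eq_zero.1 h4 with h5 | h5
  · right
    rw [← hc, h5, map_zero]
  · left
    rw [← hc, sub_eq_zero.1 h5, map_one]

section Basic

variable [Fintype G] (hMp : M.IsPrime) (q : localSubring M hMp →+* F)
  (W : WData F (MonoidAlgebra F G)) (εh : Fin W.L → MonoidAlgebra (localSubring M hMp) G)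
  (hεh : ∀ i, εh i * εh i = εh i) (hεr : ∀ i, MonoidAlgebra.mapRingHom G q (εh i) = W.ε i)
  (d : IrrCharacter G → Fin W.L → ℕ)
  (hd : ∀ (χ : IrrCharacter G) (j : Fin W.L), pair (χ : G → ℂ) (incl hMp (εh j)) = d χ j)

include hεh hεr hd in
/-- The degree formula `χ(1) = ∑ i, d χ i * f i`. -/
theorem degree_eq (χ : IrrCharacter G) : charDegree (χ : G → ℂ) = ∑ i, d χ i * W.f i := by
  classical
  have h1 := decomp hMp q W εh hεh hεr 1 (one_mul 1) χ
  rw [map_one, pair_one] at h1
  have h2 : ∀ j, ((W.ρ j (MonoidAlgebra.mapRingHom G q 1)).rank : ℂ) = W.f j := by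
    intro j
    rw [map_one, map_one, Matrix.rank_one, Fintype.card_fin]
  rw [← char_natCast_charDegree (isCharacter_of_irr χ.2)] at h1
  have h3 : (charDegree (χ : G → ℂ) : ℂ) = ((∑ i, d χ i * W.f i : ℕ) : ℂ) := by
    rw [h1]
    push_cast
    refine Finset.sum_congr rfl fun j _ => ?_
    rw [h2, hd]
    ring
  exact_mod_cast h3

include hεh hεr hd in
/-- Block support of the decomposition numbers. -/
theorem support_eq (B : Set (IrrCharacter G)) (ê : MonoidAlgebra (localSubring M hMp) G)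
    (hê : incl hMp ê = blockIdem B) (J : Finset (Fin W.L))
    (hJ1 : ∀ i ∈ J, W.ρ i (MonoidAlgebra.mapRingHom G q ê) = 1)
    (hJ0 : ∀ i, i ∉ J → W.ρ i (MonoidAlgebra.mapRingHom G q ê) = 0)
    (χ : IrrCharacter G) (i : Fin W.L) :
    (χ ∈ B → i ∉ J → d χ i = 0) ∧ (χ ∉ B → i ∈ J → d χ i = 0) := by
  classical
  have hinj := incl_injective (G := G) hMp
  have hec : blockIdem B ∈ Subalgebra.center ℂ (MonoidAlgebra ℂ G) := blockIdem_mem_center B
  have h1 : ê * ê = ê :=
    hinj (by rw [map_mul, hê, Cfsg.Agent.Lib.Helper17.BrBridge.blockIdem_mul_self])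
  have h4 : ∀ x : MonoidAlgebra (localSubring M hMp) G, ê * x = x * ê := by
    intro x
    apply hinj
    rw [map_mul, map_mul, hê]
    exact ((Subalgebra.mem_center_iff.1 hec) _).symm
  have he : (εh i * ê) * (εh i * ê) = εh i * ê := by
    rw [mul_assoc, ← mul_assoc ê, h4 (εh i), mul_assoc (εh i) ê ê, h1, ← mul_assoc, hεh]
  have h5 := decomp hMp q W εh hεh hεr (εh i * ê) he χ
  -- the left side
  have h6 : pair (χ : G → ℂ) (incl hMp (εh i * ê))
      = if χ ∈ B then (d χ i : ℂ) else 0 := by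
    rw [map_mul, hê, (Subalgebra.mem_center_iff.1 hec) _,
      pair_mul_center χ.2 _ _ hec, omega_blockIdem, hd]
    split_ifs <;> simp
  -- the right side
  have h7 : ∑ j, ((W.ρ j (MonoidAlgebra.mapRingHom G q (εh i * ê))).rank : ℂ)
      * pair (χ : G → ℂ) (incl hMp (εh j)) = if i ∈ J then (d χ i : ℂ) else 0 := by
    rw [Finset.sum_eq_single i]
    · rw [map_mul, map_mul, hεr, W.ρε i i, if_pos rfl, hd]
      by_cases hi : i ∈ J
      · rw [hJ1 i hi, mul_one, rank_single_one, if_pos hi, Nat.cast_one, one_mul]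
      · rw [hJ0 i hi, mul_zero, Matrix.rank_zero, if_neg hi, Nat.cast_zero, zero_mul]
    · intro j _ hji
      rw [map_mul, map_mul, hεr, W.ρε i j, if_neg (Ne.symm hji), zero_mul, Matrix.rank_zero,
        Nat.cast_zero, zero_mul]
    · intro h
      exact absurd (Finset.mem_univ i) h
  rw [h6, h7] at h5
  constructor
  · intro hχ hi
    rw [if_pos hχ, if_neg hi] at h5
    exact_mod_cast h5
  · intro hχ hi
    rw [if_neg hχ, if_pos hi] at h5
    exact_mod_cast h5.symm

end Basic

/-- The exponent `N` with `g ^ N` the `p'`-part of `g`, and the `p'`-part `m` of the group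
order. -/
theorem exists_N (G : Type u) [Group G] [Finite G] (p : ℕ) [Fact p.Prime] :
    ∃ m N : ℕ, 0 < m ∧ ¬ p ∣ m ∧ (∀ g : G, IsPRegular p g → g ^ m = 1) ∧
      (∀ g : G, g ^ m = 1 → ¬ p ∣ orderOf g) ∧ (∀ g : G, (g ^ N) ^ m = 1) ∧
      (∀ g : G, (∃ k : ℕ, g ^ (p ^ k) = 1) → g ^ N = 1) ∧
      (∀ g : G, ¬ p ∣ orderOf g → g ^ N = g) := by
  have hpp : p.Prime := Fact.out
  have hn0 : Nat.card G ≠ 0 := Nat.card_pos.ne'
  obtain ⟨a, ha⟩ : ∃ a, a = (Nat.card G).factorization p := ⟨_, rfl⟩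
  obtain ⟨m, hmdef⟩ : ∃ m, m = Nat.card G / p ^ a := ⟨_, rfl⟩
  have hmul : p ^ a * m = Nat.card G := by
    rw [hmdef, ha]
    exact Nat.ordProj_mul_ordCompl_eq_self (Nat.card G) p
  have hpm : ¬ p ∣ m := by
    rw [hmdef, ha]
    exact Nat.not_dvd_ordCompl hpp hn0
  have hm : 0 < m := by
    rcases Nat.eq_zero_or_pos m with h | h
    · rw [h, mul_zero] at hmul
      exact absurd hmul.symm hn0
    · exact h
  have hcop : Nat.Coprime (p ^ a) m :=
    Nat.Coprime.pow_left a ((Nat.Prime.coprime_iff_not_dvd hpp).2 hpm)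
  obtain ⟨N, hN0, hN1⟩ := Nat.chineseRemainder hcop 0 1
  have hdvdN : p ^ a ∣ N := (Nat.modEq_zero_iff_dvd).1 hN0
  have hord : ∀ g : G, orderOf g ∣ p ^ a * m := by
    intro g
    rw [hmul]
    exact orderOf_dvd_natCard g
  have hreg : ∀ g : G, ¬ p ∣ orderOf g → orderOf g ∣ m := by
    intro g hg
    have h1 : Nat.Coprime (orderOf g) (p ^ a) :=
      Nat.Coprime.pow_right a (Nat.Coprime.symm ((Nat.Prime.coprime_iff_not_dvd hpp).2 hg))
    exact h1.dvd_of_dvd_mul_left (hord g)
  refine ⟨m, N, hm, hpm, fun g hg => ?_, fun g hg hp => ?_, fun g => ?_, fun g hg => ?_,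
    fun g hg => ?_⟩
  · exact orderOf_dvd_iff_pow_eq_one.1 (hreg g hg)
  · exact hpm (hp.trans (orderOf_dvd_of_pow_eq_one hg))
  · obtain ⟨t, ht⟩ := hdvdN
    rw [← pow_mul, ht, mul_right_comm, hmul, pow_mul, pow_card_eq_one', one_pow]
  · obtain ⟨k, hk⟩ := hg
    obtain ⟨j, -, hj⟩ := (Nat.dvd_prime_pow hpp).1 (orderOf_dvd_of_pow_eq_one hk)
    have h1 : p ^ j ∣ Nat.card G := by
      rw [← hj]
      exact orderOf_dvd_natCard g
    have h2 : j ≤ a := by
      rw [ha]
      exact (Nat.Prime.pow_dvd_iff_le_factorization hpp hn0).1 h1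
    apply orderOf_dvd_iff_pow_eq_one.1
    rw [hj]
    exact (pow_dvd_pow p h2).trans hdvdN
  · have h1 : N ≡ 1 [MOD orderOf g] := hN1.of_dvd (hreg g hg)
    have h2 := pow_eq_pow_iff_modEq.2 h1
    rw [h2, pow_one]

section Deep

variable [Fintype G] {p : ℕ} [Fact p.Prime] (hM : IsPModular p M) (hMp : M.IsPrime)
  [IsAlgClosed F] (q : localSubring M hMp →+* F)
  (hq0 : ∀ x : localSubring M hMp, q x = 0 ↔ MemLocalIdeal M (x : ℂ))
  (hqs : Function.Surjective q)
  (W : WData F (MonoidAlgebra F G)) (εh : Fin W.L → MonoidAlgebra (localSubring M hMp) G)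
  (hεh : ∀ i, εh i * εh i = εh i) (hεr : ∀ i, MonoidAlgebra.mapRingHom G q (εh i) = W.ε i)
  (d : IrrCharacter G → Fin W.L → ℕ)
  (hd : ∀ (χ : IrrCharacter G) (j : Fin W.L), pair (χ : G → ℂ) (incl hMp (εh j)) = d χ j)

include hM hq0 hqs hεh hεr hd in
/-- Unimodularity: every Brauer lift is an integral combination of characters. -/
theorem exists_unimod (i : Fin W.L) :
    ∃ z : IrrCharacter G → ℤ, ∀ i',
      ∑ᶠ χ : IrrCharacter G, z χ * (d χ i' : ℤ) = if i = i' then 1 else 0 := by
  classical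
  haveI := finite_irrCharacter G
  haveI : Fintype (IrrCharacter G) := Fintype.ofFinite _
  obtain ⟨m, N, hm, hpm, hreg, hreg', hN, hN0, hN1⟩ := exists_N G p
  obtain ⟨Z⟩ := nonempty_rootData hM hMp m hm hpm
  have hgen := blift_generalized hM hMp q hq0
    (fun H _ _ => by
      haveI : Module.Finite F (MonoidAlgebra F H) :=
        Module.Finite.equiv (MonoidAlgebra.coeffLinearEquiv (R := F) (S := F) (M := H)).symm
      exact nonempty_wdata (Cfsg.Agent.Lib.Helper1.DecW2.exists_master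
        (fun n hn P hP hP0 => Cfsg.Agent.Lib.Helper33.DecW1.exists_rank_one_sub hn P hP hP0)))
    (fun H _ _ e he => Cfsg.Agent.Lib.Helper59.DecD2a.exists_idem_lift hMp q hq0 hqs e he)
    (fun E _ _ r hr hE N' h0 h1 a b =>
      Cfsg.Agent.Lib.Helper33.DecEL.pow_mul_of_elementary r hr hE p N' h0 h1 a b)
    Z hpm N hN hN0 hN1 (W.ρ i)
  obtain ⟨z, -, hz⟩ := Cfsg.Agent.Lib.Helper26.GenChar.exists_int_mult hgen
  refine ⟨z, fun i' => ?_⟩
  have key := blift_indep hM hMp q hq0 hqs W Z hreg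
    (fun j => (∑ χ : IrrCharacter G, (z χ : ℂ) * (d χ j : ℂ)) - if i = j then 1 else 0)
    (by
      intro g hg
      have h1 := congrFun hz g
      simp only [Finset.sum_apply, Pi.smul_apply, smul_eq_mul] at h1
      rw [hN1 g (hreg' g hg)] at h1
      have h2 : ∀ χ : IrrCharacter G, (z χ : ℂ) * (χ : G → ℂ) g
          = ∑ j, (z χ : ℂ) * (d χ j : ℂ) * blift hMp q Z (W.ρ j) g := by
        intro χ
        rw [char_eq_sum_blift hMp q W εh hεh hεr Z χ g hg, Finset.mul_sum]
        refine Finset.sum_congr rfl fun j _ => ?_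
        rw [hd, mul_assoc]
      rw [Finset.sum_congr rfl fun χ _ => h2 χ, Finset.sum_comm] at h1
      simp only [sub_mul, Finset.sum_sub_distrib, Finset.sum_mul]
      rw [← h1]
      simp only [ite_mul, one_mul, zero_mul, Finset.sum_ite_eq, Finset.mem_univ, if_true,
        sub_self]) i'
  have h3 : (∑ χ : IrrCharacter G, (z χ : ℂ) * (d χ i' : ℂ)) = if i = i' then 1 else 0 :=
    sub_eq_zero.1 key
  rw [finsum_eq_sum_of_fintype]
  by_cases hii : i = i'
  · rw [if_pos hii] at h3 ⊢
    exact_mod_cast h3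
  · rw [if_neg hii] at h3 ⊢
    exact_mod_cast h3

include hM hq0 hqs hεh hεr hd in
/-- The projective indecomposable characters vanish on `p`-singular elements. -/
theorem proj_vanish [Fintype (IrrCharacter G)] (i : Fin W.L) (g : G) (hg : p ∣ orderOf g) :
    ∑ χ : IrrCharacter G, (d χ i : ℂ) * (χ : G → ℂ) g = 0 := by
  classical
  obtain ⟨m, N, hm, hpm, hreg, hreg', hN, hN0, hN1⟩ := exists_N G p
  obtain ⟨Z⟩ := nonempty_rootData hM hMp m hm hpm
  have key := blift_indep hM hMp q hq0 hqs W Z hreg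
    (fun j => ∑ χ : IrrCharacter G, (d χ j : ℂ) * conj ((χ : G → ℂ) g))
    (by
      intro h hh
      have hnc : ¬ IsConj h g := by
        intro hc
        obtain ⟨c, hc⟩ := isConj_iff.1 hc
        have h1 : orderOf g = orderOf h := by
          rw [← hc]
          exact orderOf_injective (MulAut.conj c).toMonoidHom (MulAut.conj c).injective h
        exact hreg' h hh (h1 ▸ hg)
      have h1 := Cfsg.Agent.Lib.CT.Orth.second_orthogonality_sum_of_not_isConj h g hnc
      have h2 : ∀ χ : IrrCharacter G, (χ : G → ℂ) h * conj ((χ : G → ℂ) g)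
          = ∑ j, (d χ j : ℂ) * conj ((χ : G → ℂ) g) * blift hMp q Z (W.ρ j) h := by
        intro χ
        rw [char_eq_sum_blift hMp q W εh hεh hεr Z χ h hh, Finset.sum_mul]
        refine Finset.sum_congr rfl fun j _ => ?_
        rw [hd]
        ring
      rw [Finset.sum_congr rfl fun χ _ => h2 χ, Finset.sum_comm] at h1
      rw [← h1]
      refine Finset.sum_congr rfl fun j _ => ?_
      rw [Finset.sum_mul]) i
  have h3 := congrArg conj key
  rw [map_sum, map_zero] at h3
  rw [← h3]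
  refine Finset.sum_congr rfl fun χ _ => ?_
  rw [map_mul, Complex.conj_conj, map_natCast]

include hM hq0 hqs hεh hεr hd in
/-- `p ^ a` divides the degrees of the projective indecomposable characters. -/
theorem dvd_proj_degree (i : Fin W.L) :
    p ^ (Nat.card G).factorization p
      ∣ ∑ᶠ χ : IrrCharacter G, d χ i * charDegree (χ : G → ℂ) := by
  classical
  haveI := finite_irrCharacter G
  haveI : Fintype (IrrCharacter G) := Fintype.ofFinite _
  obtain ⟨P⟩ : Nonempty (Sylow p G) := inferInstance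
  haveI : Fintype (P : Subgroup G) := Fintype.ofFinite _
  have hcard : Nat.card (P : Subgroup G) = p ^ (Nat.card G).factorization p :=
    Sylow.card_eq_multiplicity P
  choose mult hmult using fun χ : IrrCharacter G =>
    Cfsg.Agent.Lib.CT.PairCount.char_sum_subgroup (isCharacter_of_irr χ.2) (P : Subgroup G)
  have h1 : ∑ w : (P : Subgroup G), ∑ χ : IrrCharacter G, (d χ i : ℂ) * (χ : G → ℂ) (w : G)
      = ∑ χ : IrrCharacter G, (d χ i : ℂ) * (χ : G → ℂ) 1 := by
    rw [Finset.sum_eq_single (1 : (P : Subgroup G))]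
    · rfl
    · intro w _ hw
      apply proj_vanish hM hMp q hq0 hqs W εh hεh hεr d hd i
      obtain ⟨k, hk⟩ := (IsPGroup.iff_orderOf.1 P.isPGroup') w
      rw [Subgroup.orderOf_coe, hk]
      have hk0 : k ≠ 0 := by
        intro h0
        rw [h0, pow_zero, orderOf_eq_one_iff] at hk
        exact hw hk
      exact dvd_pow_self p hk0
    · intro h
      exact absurd (Finset.mem_univ _) h
  have h2 : ∑ w : (P : Subgroup G), ∑ χ : IrrCharacter G, (d χ i : ℂ) * (χ : G → ℂ) (w : G)
      = ∑ χ : IrrCharacter G, (d χ i : ℂ) * ((Nat.card (P : Subgroup G) : ℂ) * mult χ) := by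
    rw [Finset.sum_comm]
    refine Finset.sum_congr rfl fun χ _ => ?_
    rw [← Finset.mul_sum, hmult χ]
  rw [h1] at h2
  rw [finsum_eq_sum_of_fintype]
  refine ⟨∑ χ : IrrCharacter G, d χ i * mult χ, ?_⟩
  have h3 : ((∑ χ : IrrCharacter G, d χ i * charDegree (χ : G → ℂ) : ℕ) : ℂ)
      = ((p ^ (Nat.card G).factorization p * ∑ χ : IrrCharacter G, d χ i * mult χ : ℕ) : ℂ) := by
    push_cast
    rw [Finset.mul_sum]
    have h4 : ∀ χ : IrrCharacter G, (d χ i : ℂ) * (charDegree (χ : G → ℂ) : ℂ)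
        = (d χ i : ℂ) * (χ : G → ℂ) 1 := fun χ => by
      rw [char_natCast_charDegree (isCharacter_of_irr χ.2)]
    rw [Finset.sum_congr rfl fun χ _ => h4 χ, h2]
    refine Finset.sum_congr rfl fun χ _ => ?_
    rw [hcard]
    push_cast
    ring
  exact_mod_cast h3

include hM hq0 hqs hεh hεr hd in
/-- The rank of the block is at most the number of its simple modules. -/
theorem blockRank_le (B : Set (IrrCharacter G)) (J : Finset (Fin W.L))
    (hsupp : ∀ (χ : IrrCharacter G) (i : Fin W.L), χ ∈ B → i ∉ J → d χ i = 0) :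
    blockRank p B ≤ J.card := by
  classical
  obtain ⟨m, N, hm, hpm, hreg, hreg', hN, hN0, hN1⟩ := exists_N G p
  obtain ⟨Z⟩ := nonempty_rootData hM hMp m hm hpm
  obtain ⟨φ, hφ⟩ : ∃ φ : Fin W.L → G → ℂ, ∀ j g,
      φ j g = if IsPRegular p g then blift hMp q Z (W.ρ j) g else 0 := ⟨_, fun _ _ => rfl⟩
  have hsub : Submodule.span ℂ ((fun χ : IrrCharacter G => pRegularPart p (χ : G → ℂ)) '' B)
      ≤ Submodule.span ℂ ((J.image φ : Finset (G → ℂ)) : Set (G → ℂ)) := by
    rw [Submodule.span_le]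
    rintro _ ⟨χ, hχ, rfl⟩
    have h1 : pRegularPart p (χ : G → ℂ) = ∑ j ∈ J, (d χ j : ℂ) • φ j := by
      funext g
      rw [Finset.sum_apply]
      simp only [Pi.smul_apply, smul_eq_mul, hφ]
      by_cases hg : IsPRegular p g
      · have h2 : pRegularPart p (χ : G → ℂ) g = (χ : G → ℂ) g := by
          unfold pRegularPart
          rw [if_pos hg]
        rw [h2, char_eq_sum_blift hMp q W εh hεh hεr Z χ g (hreg g hg)]
        rw [← Finset.sum_subset (Finset.subset_univ J)]
        · refine Finset.sum_congr rfl fun j _ => ?_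
          rw [if_pos hg, hd]
        · intro j _ hj
          rw [hd, hsupp χ j hχ hj, Nat.cast_zero, zero_mul]
      · have h2 : pRegularPart p (χ : G → ℂ) g = 0 := by
          unfold pRegularPart
          rw [if_neg hg]
        rw [h2]
        symm
        refine Finset.sum_eq_zero fun j _ => ?_
        rw [if_neg hg, mul_zero]
    show pRegularPart p (χ : G → ℂ) ∈ _
    rw [h1]
    refine Submodule.sum_mem _ fun j hj => Submodule.smul_mem _ _ (Submodule.subset_span ?_)
    exact Finset.mem_coe.2 (Finset.mem_image_of_mem φ hj)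
  unfold blockRank
  calc Module.finrank ℂ ↥(Submodule.span ℂ
        ((fun χ : IrrCharacter G => pRegularPart p (χ : G → ℂ)) '' B))
      ≤ Module.finrank ℂ ↥(Submodule.span ℂ ((J.image φ : Finset (G → ℂ)) : Set (G → ℂ))) :=
        Submodule.finrank_mono hsub
    _ ≤ (J.image φ).card := finrank_span_finset_le_card _
    _ ≤ J.card := Finset.card_image_le

end Deep

/-- **Decomposition data of a block.** -/
theorem exists_decData [Finite G] (p : ℕ) [Fact p.Prime] (hM : IsPModular p M)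
    (hMp : M.IsPrime) [IsAlgClosed F] (q : localSubring M hMp →+* F)
    (hq0 : ∀ x : localSubring M hMp, q x = 0 ↔ MemLocalIdeal M (x : ℂ))
    (hqs : Function.Surjective q) (B : Set (IrrCharacter G)) (hB : IsPBlock M B) :
    ∃ (W : WData F (MonoidAlgebra F G))
      (εh : Fin W.L → MonoidAlgebra (localSubring M hMp) G)
      (ê : MonoidAlgebra (localSubring M hMp) G) (d : IrrCharacter G → Fin W.L → ℕ)
      (J : Finset (Fin W.L)),
      (∀ i, εh i * εh i = εh i) ∧ (∀ i, MonoidAlgebra.mapRingHom G q (εh i) = W.ε i) ∧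
      incl hMp ê = blockIdem B ∧
      (∀ (χ : IrrCharacter G) (i : Fin W.L), pair (χ : G → ℂ) (incl hMp (εh i)) = d χ i) ∧
      (∀ i ∈ J, W.ρ i (MonoidAlgebra.mapRingHom G q ê) = 1) ∧
      (∀ i, i ∉ J → W.ρ i (MonoidAlgebra.mapRingHom G q ê) = 0) ∧
      DecData p B W.L W.f d J := by
  classical
  letI : Fintype G := Fintype.ofFinite G
  haveI : Module.Finite F (MonoidAlgebra F G) :=
    Module.Finite.equiv (MonoidAlgebra.coeffLinearEquiv (R := F) (S := F) (M := G)).symm
  obtain ⟨W⟩ : Nonempty (WData F (MonoidAlgebra F G)) :=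
    nonempty_wdata (Cfsg.Agent.Lib.Helper1.DecW2.exists_master
      (fun n hn P hP hP0 => Cfsg.Agent.Lib.Helper33.DecW1.exists_rank_one_sub hn P hP hP0))
  choose εh hεh hεr using fun i : Fin W.L =>
    Cfsg.Agent.Lib.Helper59.DecD2a.exists_idem_lift hMp q hq0 hqs (W.ε i) (W.idem i)
  obtain ⟨d, hd⟩ := exists_dnum hMp εh hεh
  obtain ⟨ê, hê⟩ : ∃ ê : MonoidAlgebra (localSubring M hMp) G, incl hMp ê = blockIdem B :=
    ⟨lift hMp _ (blockIdem_mem_intSubring hMp B hB), incl_lift hMp _ _⟩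
  have hinj := incl_injective (G := G) hMp
  have hec : blockIdem B ∈ Subalgebra.center ℂ (MonoidAlgebra ℂ G) := blockIdem_mem_center B
  have h1 : ê * ê = ê :=
    hinj (by rw [map_mul, hê, Cfsg.Agent.Lib.Helper17.BrBridge.blockIdem_mul_self])
  have h4 : ∀ g : G, ê * MonoidAlgebra.single g 1 = MonoidAlgebra.single g 1 * ê := by
    intro g
    apply hinj
    rw [map_mul, map_mul, hê, incl_single_one]
    exact ((Subalgebra.mem_center_iff.1 hec) _).symm
  obtain ⟨ē, hēdef⟩ : ∃ ē, ē = MonoidAlgebra.mapRingHom G q ê := ⟨_, rfl⟩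
  have hē : ē * ē = ē := by rw [hēdef, ← map_mul, h1]
  have hēc : ∀ x, ē * x = x * ē :=
    central_of_comm_single ē fun g => by
      rw [hēdef, ← mapRingHom_single_one q g, ← map_mul, h4 g, map_mul]
  obtain ⟨J, hJ⟩ : ∃ J : Finset (Fin W.L), ∀ i, i ∈ J ↔ W.ρ i ē = 1 :=
    ⟨Finset.univ.filter fun i => W.ρ i ē = 1, fun i => by simp⟩
  have hJ1 : ∀ i ∈ J, W.ρ i (MonoidAlgebra.mapRingHom G q ê) = 1 := by
    intro i hi
    rw [← hēdef]
    exact (hJ i).1 hi
  have hJ0 : ∀ i, i ∉ J → W.ρ i (MonoidAlgebra.mapRingHom G q ê) = 0 := by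
    intro i hi
    rw [← hēdef]
    rcases rho_central_idem (W.hf i) (W.ρ i) (W.surj i) ē hē hēc with h | h
    · exact absurd ((hJ i).2 h) hi
    · exact h
  have hsupp := support_eq hMp q W εh hεh hεr d hd B ê hê J hJ1 hJ0
  refine ⟨W, εh, ê, d, J, hεh, hεr, hê, hd, hJ1, hJ0, W.hf,
    degree_eq hMp q W εh hεh hεr d hd, fun χ i => (hsupp χ i).1, fun χ i => (hsupp χ i).2,
    exists_unimod hM hMp q hq0 hqs W εh hεh hεr d hd,
    dvd_proj_degree hM hMp q hq0 hqs W εh hεh hεr d hd,
    blockRank_le hM hMp q hq0 hqs W εh hεh hεr d hd B J fun χ i => (hsupp χ i).1⟩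

end Cfsg.Agent.Lib.Helper75.DecompBlock
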