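import Mathlib
import Cfsg.Agent.Lib.Helper40.GFStmt

set_option autoImplicit false

/-!
# S5886 piece Z2 (second seat, helper75)

`|F| = 2`, `|L| = 4`, `h` additive on `L²` with `h² + h + 1 = 0`: some `x ≠ 0` has
`h (ω x) ∈ {ω h x, ω² h x}`.  With `α x = h (ω x) + ω² h x` (`L`-linear) and
`β x = h (ω x) + ω h x` (semilinear): `h = α + β`, `α² + β² + α + 1 = 0`, `α β + β α + β = 0`;
if `α, β` are injective then `α` has no eigenvector, `α² = d + t α`, and conjugating by `β`
gives `t² = t`, `d² + 1 = d + t`; each case yields an eigenvector or `β² x = 0`.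
-/

namespace Cfsg.Agent.Lib.Helper75.GFZ2

open Cfsg.Agent.Lib.Helper40.GFStmt

universe u

theorem core {L : Type u} [Field L] (hL2 : ∀ a : L, a + a = 0) (ω : L)
    (hω : ω * ω = ω + 1) (hLcases : ∀ a : L, a = 0 ∨ a = 1 ∨ a = ω ∨ a = ω + 1)
    (h : V 2 L → V 2 L) (hadd : ∀ x y, h (x + y) = h x + h y)
    (hq : ∀ x, h (h x) + h x + x = 0) :
    ∃ x : V 2 L, x ≠ 0 ∧ (h (ω • x) = ω • h x ∨ h (ω • x) = (ω + 1) • h x) := by
  by_contra hcon
  push Not at hcon
  have hv2 : ∀ v : V 2 L, v + v = 0 := by
    intro v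
    funext i
    exact hL2 (v i)
  have h0 : h 0 = 0 := by
    have h1 := hadd 0 0
    rw [add_zero] at h1
    have h2 : h 0 + h 0 = h 0 + 0 := by rw [add_zero]; exact h1.symm
    exact add_left_cancel h2
  have hω1 : (ω + 1) * (ω + 1) = ω := by linear_combination hω + hL2 (ω + 1)
  have h4 : ∀ a : L, (a * a) * (a * a) = a := by
    intro a
    rcases hLcases a with rfl | rfl | rfl | rfl
    · simp
    · simp
    · rw [hω, hω1]
    · rw [hω1, hω]
  obtain ⟨α, hα⟩ : ∃ α : V 2 L → V 2 L, ∀ x, α x = h (ω • x) + (ω + 1) • h x :=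
    ⟨_, fun _ => rfl⟩
  obtain ⟨β, hβ⟩ : ∃ β : V 2 L → V 2 L, ∀ x, β x = h (ω • x) + ω • h x :=
    ⟨_, fun _ => rfl⟩
  have hωx : ∀ x : V 2 L, h (ω • (ω • x)) = h (ω • x) + h x := by
    intro x
    rw [smul_smul, hω, add_smul, one_smul, hadd]
  have αadd : ∀ x y, α (x + y) = α x + α y := by
    intro x y
    rw [hα, hα, hα, smul_add, hadd, hadd]
    module
  have βadd : ∀ x y, β (x + y) = β x + β y := by
    intro x y
    rw [hβ, hβ, hβ, smul_add, hadd, hadd]
    module
  have α0 : α 0 = 0 := by rw [hα, smul_zero, h0, smul_zero, add_zero]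
  have β0 : β 0 = 0 := by rw [hβ, smul_zero, h0, smul_zero, add_zero]
  have αω : ∀ x, α (ω • x) = ω • α x := by
    intro x
    rw [hα, hα, hωx]
    linear_combination (norm := module) hv2 (h (ω • x)) - hv2 (ω • h x) - hω • h x
  have βω : ∀ x, β (ω • x) = (ω + 1) • β x := by
    intro x
    rw [hβ, hβ, hωx]
    linear_combination (norm := module) - hv2 (ω • h x) - hω • h x
  have αsm : ∀ (c : L) (x : V 2 L), α (c • x) = c • α x := by
    intro c x
    rcases hLcases c with rfl | rfl | rfl | rfl
    · rw [zero_smul, zero_smul, α0]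
    · rw [one_smul, one_smul]
    · exact αω x
    · rw [add_smul, one_smul, αadd, αω]
      module
  have βsm : ∀ (c : L) (x : V 2 L), β (c • x) = (c * c) • β x := by
    intro c x
    rcases hLcases c with rfl | rfl | rfl | rfl
    · rw [zero_smul, mul_zero, zero_smul, β0]
    · rw [one_smul, mul_one, one_smul]
    · rw [βω, hω]
    · rw [add_smul, one_smul, βadd, βω, hω1]
      linear_combination (norm := module) hv2 (β x)
  have hAB : ∀ x, h x = α x + β x := by
    intro x
    rw [hα, hβ]
    linear_combination (norm := module) - hv2 (h (ω • x)) - hv2 (ω • h x)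
  have hα0 : ∀ x, α x = 0 → x = 0 := by
    intro x hx
    by_contra hne
    apply (hcon x hne).2
    rw [hα] at hx
    linear_combination (norm := module) hx - hv2 ((ω + 1) • h x)
  have hβ0 : ∀ x, β x = 0 → x = 0 := by
    intro x hx
    by_contra hne
    apply (hcon x hne).1
    rw [hβ] at hx
    linear_combination (norm := module) hx - hv2 (ω • h x)
  have hPQ : ∀ x, α (α x) + β (β x) + α x + x + (α (β x) + β (α x) + β x) = 0 := by
    intro x
    have h1 := hq x
    rw [hAB (h x), hAB x, αadd, βadd] at h1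
    linear_combination (norm := module) h1
  have hR2 : ∀ x, α (β x) + β (α x) + β x = 0 := by
    intro x
    have h1 := hPQ x
    have h2 := hPQ (ω • x)
    simp only [αsm, βsm] at h2
    have hω4 := h4 ω
    linear_combination (norm := module) h2 - ω • h1 - hω4 • (β (β x)) -
      hω • (α (β x) + β (α x) + β x)
  have hR1 : ∀ x, α (α x) + β (β x) + α x + x = 0 := by
    intro x
    linear_combination (norm := module) hPQ x - hR2 x
  -- no eigenvector
  have hE : ∀ x : V 2 L, x ≠ 0 → ∀ c : L, α x ≠ c • x := by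
    intro x hx c hc
    rcases hLcases c with hc0 | hc1 | hcw | hcw1
    · rw [hc0] at hc
      exact hx (hα0 x (by rw [hc, zero_smul]))
    · rw [hc1] at hc
      have h2 := hR2 x
      rw [hc, one_smul] at h2
      have h3 : α (β x) = 0 := by linear_combination (norm := module) h2 - hv2 (β x)
      exact hx (hβ0 x (hα0 _ h3))
    · rw [hcw] at hc
      have h1 := hR1 x
      rw [hc, αsm, hc] at h1
      have h3 : β (β x) = 0 := by
        linear_combination (norm := module) h1 - hω • x - hv2 (ω • x) - hv2 x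
      exact hx (hβ0 x (hβ0 _ h3))
    · rw [hcw1] at hc
      have h1 := hR1 x
      rw [hc, αsm, hc] at h1
      have h3 : β (β x) = 0 := by
        linear_combination (norm := module) h1 - hω • x - (2 : L) • hv2 (ω • x) -
          (2 : L) • hv2 x
      exact hx (hβ0 x (hβ0 _ h3))
  -- independence
  have hLI : ∀ x : V 2 L, x ≠ 0 → ∀ s t : L, s • x + t • α x = 0 → s = 0 ∧ t = 0 := by
    intro x hx s t hst
    have ht : t = 0 := by
      by_contra ht
      apply hE x hx (-(t⁻¹ * s))
      linear_combination (norm := module) t⁻¹ • hst - (inv_mul_cancel₀ ht) • α x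
    refine ⟨?_, ht⟩
    rw [ht, zero_smul, add_zero] at hst
    rcases smul_eq_zero.mp hst with h1 | h1
    · exact h1
    · exact absurd h1 hx
  -- spanning
  have hS : ∀ x : V 2 L, x ≠ 0 → ∀ y : V 2 L, ∃ c₁ c₂ : L, y = c₁ • x + c₂ • α x := by
    intro x hx y
    have hli : LinearIndependent L ![x, α x] := by
      rw [LinearIndependent.pair_iff]
      exact hLI x hx
    have hspan := hli.span_eq_top_of_card_eq_finrank' (by
      rw [Module.finrank_fin_fun, Fintype.card_fin])
    have hy : y ∈ Submodule.span L (Set.range ![x, α x]) := by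
      rw [hspan]
      exact Submodule.mem_top
    rw [Matrix.range_cons_cons_empty, Submodule.mem_span_pair] at hy
    obtain ⟨a, b, hab⟩ := hy
    exact ⟨a, b, hab.symm⟩
  -- a nonzero vector
  obtain ⟨x₀, hx₀⟩ : ∃ x₀ : V 2 L, x₀ ≠ 0 := by
    refine ⟨fun _ => 1, fun h1 => ?_⟩
    have := congrFun h1 0
    simp at this
  obtain ⟨d, t, htd⟩ := hS x₀ hx₀ (α (α x₀))
  have hT : ∀ y, α (α y) = d • y + t • α y := by
    intro y
    obtain ⟨c₁, c₂, rfl⟩ := hS x₀ hx₀ y
    simp only [αadd, αsm, htd]
    module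
  have hαβ : ∀ y, α (β y) = β (α y) + β y := by
    intro y
    linear_combination (norm := module) hR2 y - hv2 (β (α y)) - hv2 (β y)
  have e1 : α (α (β x₀)) = (d * d) • β x₀ + (t * t) • β (α x₀) + β (α x₀) + β (α x₀) + β x₀ := by
    rw [hαβ x₀, αadd, hαβ (α x₀), hαβ x₀, hT x₀, βadd, βsm, βsm]
    module
  have e2 : α (α (β x₀)) = d • β x₀ + t • (β (α x₀) + β x₀) := by
    rw [hT (β x₀), hαβ x₀]
  have e3 : (t * t - t) • β (α x₀) + (d * d + 1 - d - t) • β x₀ = 0 := by
    linear_combination (norm := module) e2 - e1 - hv2 (β (α x₀))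
  have hInd : ∀ p r : L, p • β (α x₀) + r • β x₀ = 0 → p = 0 ∧ r = 0 := by
    intro p r hpr
    have e : β ((p * p) • α x₀ + (r * r) • x₀) = 0 := by
      rw [βadd, βsm, βsm, h4, h4]
      exact hpr
    have e' := hβ0 _ e
    have e'' : (r * r) • x₀ + (p * p) • α x₀ = 0 := by rw [add_comm]; exact e'
    obtain ⟨hr, hp⟩ := hLI x₀ hx₀ _ _ e''
    exact ⟨mul_self_eq_zero.mp hp, mul_self_eq_zero.mp hr⟩
  obtain ⟨ht, hd⟩ := hInd _ _ e3
  have ht' : t = 0 ∨ t = 1 := by
    have : t * (t - 1) = 0 := by linear_combination ht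
    rcases mul_eq_zero.mp this with h1 | h1
    · exact Or.inl h1
    · exact Or.inr (sub_eq_zero.mp h1)
  rcases ht' with rfl | rfl
  · -- t = 0 : α² = d, eigenvector of α + d²
    have hz : α (α x₀ + (d * d) • x₀) = (d * d) • (α x₀ + (d * d) • x₀) := by
      rw [αadd, αsm, hT x₀]
      linear_combination (norm := module) - (h4 d) • x₀
    by_cases hzero : α x₀ + (d * d) • x₀ = 0
    · apply hE x₀ hx₀ (d * d)
      linear_combination (norm := module) hzero - hv2 ((d * d) • x₀)
    · exact hE _ hzero (d * d) hz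
  · -- t = 1
    have hd' : d = 0 ∨ d = 1 := by
      have : d * (d - 1) = 0 := by linear_combination hd
      rcases mul_eq_zero.mp this with h1 | h1
      · exact Or.inl h1
      · exact Or.inr (sub_eq_zero.mp h1)
    rcases hd' with rfl | rfl
    · have h1 : α (α x₀ + x₀) = 0 := by
        rw [αadd, hT x₀]
        linear_combination (norm := module) hv2 (α x₀)
      have h2 := hα0 _ h1
      apply hE x₀ hx₀ 1
      linear_combination (norm := module) h2 - hv2 x₀
    · have h1 := hR1 x₀
      rw [hT x₀] at h1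
      have h3 : β (β x₀) = 0 := by
        linear_combination (norm := module) h1 - hv2 x₀ - hv2 (α x₀)
      exact hx₀ (hβ0 x₀ (hβ0 _ h3))

theorem main : Z2.{u} := by
  classical
  intro F L _ _ _ _ hF hrank h hq
  have hFfin : Finite F := Nat.finite_of_card_ne_zero (by rw [hF]; norm_num)
  have : Fintype F := Fintype.ofFinite F
  have : Fintype L := Fintype.ofFinite L
  have hF2 : (2 : F) = 0 := by
    have h1 : ((Fintype.card F : ℕ) : F) = 0 := Nat.cast_card_eq_zero F
    rw [← Nat.card_eq_fintype_card, hF] at h1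
    exact_mod_cast h1
  have hL2' : (2 : L) = 0 := by
    have h2 := congrArg (algebraMap F L) hF2
    rw [map_ofNat, map_zero] at h2
    exact h2
  have hL2 : ∀ a : L, a + a = 0 := by
    intro a
    linear_combination a * hL2'
  have hLcard : Fintype.card L = 4 := by
    rw [Module.card_eq_pow_finrank (K := F) (V := L), hrank, ← Nat.card_eq_fintype_card, hF]
    norm_num
  obtain ⟨ω, hω0, hω1⟩ : ∃ ω : L, ω ≠ 0 ∧ ω ≠ 1 := by
    by_contra hall
    push Not at hall
    have hle : Fintype.card L ≤ Fintype.card Bool :=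
      Fintype.card_le_of_injective (fun a : L => decide (a = 0)) (by
        intro a b hab
        by_cases ha : a = 0
        · by_cases hb : b = 0
          · rw [ha, hb]
          · simp [ha, hb] at hab
        · by_cases hb : b = 0
          · simp [ha, hb] at hab
          · rw [hall a ha, hall b hb])
    rw [hLcard, Fintype.card_bool] at hle
    omega
  have hcube : ∀ a : L, a ≠ 0 → a ^ 3 = 1 := by
    intro a ha
    have := FiniteField.pow_card_sub_one_eq_one a ha
    rw [hLcard] at this
    exact this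
  have hquad : ∀ a : L, a ≠ 0 → a ≠ 1 → a * a + a + 1 = 0 := by
    intro a ha0 ha1
    have h3 := hcube a ha0
    have : (a - 1) * (a * a + a + 1) = 0 := by linear_combination h3
    rcases mul_eq_zero.mp this with h1 | h1
    · exact absurd (sub_eq_zero.mp h1) ha1
    · exact h1
  have hω : ω * ω = ω + 1 := by
    linear_combination hquad ω hω0 hω1 - hL2 ω - hL2 1
  have hLcases : ∀ a : L, a = 0 ∨ a = 1 ∨ a = ω ∨ a = ω + 1 := by
    intro a
    by_cases ha0 : a = 0
    · exact Or.inl ha0
    by_cases ha1 : a = 1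
    · exact Or.inr (Or.inl ha1)
    right
    right
    have hq' := hquad a ha0 ha1
    have : (a - ω) * (a - (ω + 1)) = 0 := by
      linear_combination hq' - hL2 a - hL2 (a * ω) + hω + hL2 ω
    rcases mul_eq_zero.mp this with h1 | h1
    · exact Or.inl (sub_eq_zero.mp h1)
    · exact Or.inr (sub_eq_zero.mp h1)
  obtain ⟨x, hx, hx'⟩ := core hL2 ω hω hLcases (fun x => h x) (fun x y => map_add h x y) hq
  refine ⟨x, hx, ?_⟩
  have hv2 : ∀ v : V 2 L, v + v = 0 := by
    intro v
    funext i
    exact hL2 (v i)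
  intro a
  rcases hLcases a with ha | ha | ha | ha
  · exact ⟨0, by rw [ha, zero_smul, zero_smul, map_zero]⟩
  · exact ⟨1, by rw [ha, one_smul, one_smul]⟩
  · rw [ha]
    rcases hx' with h1 | h1
    · exact ⟨ω, h1⟩
    · exact ⟨ω + 1, h1⟩
  · rw [ha]
    have e : h ((ω + 1) • x) = h (ω • x) + h x := by
      rw [add_smul, one_smul, map_add]
    rcases hx' with h1 | h1
    · refine ⟨ω + 1, ?_⟩
      have h1' : h (ω • x) = ω • h x := h1
      rw [e, h1']
      module
    · refine ⟨ω, ?_⟩
      have h1' : h (ω • x) = (ω + 1) • h x := h1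
      rw [e, h1']
      linear_combination (norm := module) hv2 (h x)

end Cfsg.Agent.Lib.Helper75.GFZ2
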