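import Mathlib
import Cfsg.Agent.Lib.Helper75.NDStmt
import Cfsg.Agent.Lib.CT.DefectZeroBlock
import Cfsg.Agent.Lib.CT.Kernel
import Cfsg.Agent.Lib.Helper16.ZR
import Cfsg.Agent.S4964

/-!
# Piece QB of S4890: the quotient block is a block
-/

set_option autoImplicit false

namespace Cfsg.Agent.Lib.Helper75.NdQB

open Cfsg Cfsg.Agent.Lib.Helper75.NDStmt Cfsg.Agent.Lib.Helper77.LocalRing

universe u

theorem main : QB.{u} := by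
  intro G _ _ p _ M hM D _ hDp B hB
  have hMp := isPrime_of_isPModular hM
  obtain ⟨h1, h2⟩ := Cfsg.Agent.S4964.result p M hM D hDp
  obtain ⟨χ', θ, hθ, hθe⟩ := h2 B hB
  refine ⟨χ', ?_⟩
  ext ψ
  constructor
  · rintro ⟨χ, hχ, hχe⟩
    show SameBlock M (χ' : G ⧸ ⁅D, D⁆ → ℂ) (ψ : G ⧸ ⁅D, D⁆ → ℂ)
    rw [h1, ← hθe, ← hχe]
    exact Cfsg.Agent.Lib.Helper16.ZR.sameBlock_of_mem hMp hB hθ hχ
  · intro hψ
    have h : SameBlock M ((χ' : G ⧸ ⁅D, D⁆ → ℂ) ∘ QuotientGroup.mk)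
        ((ψ : G ⧸ ⁅D, D⁆ → ℂ) ∘ QuotientGroup.mk) := (h1 χ' ψ).mp hψ
    have hirr : IsIrrCharacter G ((ψ : G ⧸ ⁅D, D⁆ → ℂ) ∘ (QuotientGroup.mk : G → G ⧸ ⁅D, D⁆)) :=
      Cfsg.Agent.Lib.CT.Kernel.isIrrCharacter_inflation (N := ⁅D, D⁆) ψ.2
    refine ⟨⟨_, hirr⟩, ?_, rfl⟩
    rw [Cfsg.Agent.Lib.CT.DefectZeroBlock.eq_blockOf_of_mem hMp hB hθ]
    show SameBlock M (θ : G → ℂ) ((ψ : G ⧸ ⁅D, D⁆ → ℂ) ∘ QuotientGroup.mk)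
    rw [hθe]
    exact h

end Cfsg.Agent.Lib.Helper75.NdQB
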