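import Mathlib
import Cfsg.Agent.Lib.Helper75.NDStmt
import Cfsg.Agent.Lib.Helper16.BPLocal
import Cfsg.Agent.Lib.Helper77.BPNormal
import Cfsg.Agent.S4660

/-!
# Pieces QLE and MAXP of S4890
-/

set_option autoImplicit false

namespace Cfsg.Agent.Lib.Helper75.NdQLE

open Cfsg Cfsg.Agent.Lib.Helper75.NDStmt

universe u

theorem main : QLE.{u} := by
  intro G _ _ p _ M hM B D hDn hD Q f hQf
  classical
  let _ : Fintype G := Fintype.ofFinite G
  have hB : IsPBlock M B := hQf.2.1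
  obtain ⟨c, hmax⟩ := Cfsg.Agent.Lib.Helper16.BPLocal.exists_maximal_pair hM B hB D hD
  obtain ⟨x, hx⟩ := Cfsg.Agent.S4660.result p M hM B D Q c f hmax hQf
  have hle : Q.map (MulAut.conj x).toMonoidHom ≤ D :=
    Cfsg.Agent.Lib.Helper77.BPNormal.le_of_subpairLE ⟨_, _⟩ ⟨D, c⟩ hx
  intro q hq
  have h1 : x * q * x⁻¹ ∈ D := hle ⟨q, hq, by simp [MulAut.conj_apply]⟩
  have h2 := hDn.conj_mem _ h1 x⁻¹
  have h3 : x⁻¹ * (x * q * x⁻¹) * x⁻¹⁻¹ = q := by group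
  rwa [h3] at h2

theorem maxp : MAXP.{u} := by
  intro G _ _ p _ M hM B D hD e hpair
  classical
  let _ : Fintype G := Fintype.ofFinite G
  refine ⟨hpair, fun R g hRg hle => ?_⟩
  have hB : IsPBlock M B := hpair.2.1
  obtain ⟨c, hmax⟩ := Cfsg.Agent.Lib.Helper16.BPLocal.exists_maximal_pair hM B hB D hD
  obtain ⟨x, hx⟩ := Cfsg.Agent.S4660.result p M hM B D R c g hmax hRg
  have h1 : R.map (MulAut.conj x).toMonoidHom ≤ D :=
    Cfsg.Agent.Lib.Helper77.BPNormal.le_of_subpairLE ⟨_, _⟩ ⟨D, c⟩ hx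
  have h2 : D ≤ R := Cfsg.Agent.Lib.Helper77.BPNormal.le_of_subpairLE ⟨D, e⟩ ⟨R, g⟩ hle
  have h3 : Nat.card (R.map (MulAut.conj x).toMonoidHom) = Nat.card R :=
    Subgroup.card_map_of_injective (MulAut.conj x).injective
  have h4 : Nat.card R ≤ Nat.card D := by
    rw [← h3]
    exact Subgroup.card_le_of_le h1
  exact (Subgroup.eq_of_le_of_card_ge h2 h4).symm

end Cfsg.Agent.Lib.Helper75.NdQLE
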