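import Mathlib
import Cfsg.Agent.Lib.Helper75.NDStmt
import Cfsg.Agent.Lib.CT.DefectZeroBlock

/-!
# Piece QP2 of S4890, assembled from EXT, IND, DEFL, STB
-/

set_option autoImplicit false

namespace Cfsg.Agent.Lib.Helper75.NdQP2

open Cfsg Cfsg.Agent.Lib.Helper75.NDStmt Cfsg.Agent.Lib.Helper77.LocalRing

universe u

theorem main (hEXT : EXT.{u}) (hIND : IND.{u}) (hDEFL : DEFL.{u}) (hSTB : STB.{u}) : QP2.{u} := by
  intro G _ _ p _ M hM D _ _ hDp e he hst θ hθ hker
  classical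
  have hMp := isPrime_of_isPModular hM
  obtain ⟨η, hη⟩ := hEXT G D θ hker
  have hCn : (Subgroup.centralizer (D : Set G)).Normal := inferInstance
  have hstθ : ∀ g : G, g ∈ Ct D → IsConjCharOf (Subgroup.centralizer (D : Set G)) g
      (θ : Subgroup.centralizer (D : Set G) → ℂ) (θ : Subgroup.centralizer (D : Set G) → ℂ) →
      g ∈ D ⊔ Subgroup.centralizer (D : Set G) := by
    intro g hg hfix
    apply hst g hg
    have h := hSTB G p M hM (Subgroup.centralizer (D : Set G)) g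
      (by rw [Subgroup.normalizer_eq_top]; exact Subgroup.mem_top _) θ hfix
    rwa [← Cfsg.Agent.Lib.CT.DefectZeroBlock.eq_blockOf_of_mem hMp he hθ] at h
  obtain ⟨ψ, hψD, hψover, hψinv⟩ := hIND G D θ η hη hstθ
  have hsurj : Function.Surjective (tmap D) :=
    MonoidHom.subgroupComap_surjective_of_surjective _ _ (QuotientGroup.mk'_surjective _)
  obtain ⟨ψ', hψ'⟩ := hDEFL ↥(Ct D) ↥(Cbar D) (tmap D) hsurj ψ (by
    intro h k hk
    have hkK : (k : G) ∈ ⁅D, D⁆ := by
      have h1 : ((tmap D k : ↥(Cbar D)) : G ⧸ ⁅D, D⁆) = 1 := by rw [hk]; rfl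
      exact (QuotientGroup.eq_one_iff _).mp h1
    have hkD : (k : G) ∈ D := Subgroup.commutator_le_right D D hkK
    exact hψD h (h * k) (k : G) hkD rfl)
  refine ⟨ψ', ?_, ?_⟩
  · have h1 : (fun c : Subgroup.centralizer (D : Set G) => (ψ' : ↥(Cbar D) → ℂ) (cmap D c))
        = fun c => (ψ : ↥(Ct D) → ℂ) (cincl D c) := by
      funext c
      rw [← hψ' (cincl D c)]
      rfl
    rw [h1]
    exact hψover
  · intro x hx y y' hyy'
    obtain ⟨h, rfl⟩ := hsurj y
    have hDb : (Dbar D).Normal :=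
      Subgroup.Normal.map inferInstance _ (QuotientGroup.mk'_surjective _)
    have hCb : (Cbar D).Normal := inferInstance
    have hn : (Ct D).Normal := Subgroup.Normal.comap hCb _
    have h2 : y' = tmap D ⟨x * (h : G) * x⁻¹, hn.conj_mem h h.2 x⟩ := by
      apply Subtype.ext
      rw [hyy']
      rfl
    rw [h2, hψ', hψ']
    exact hψinv x hx h ⟨x * (h : G) * x⁻¹, hn.conj_mem h h.2 x⟩ rfl

end Cfsg.Agent.Lib.Helper75.NdQP2
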