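import Mathlib
import Cfsg.Agent.Lib.Helper75.NDStmt
import Cfsg.Agent.Lib.CT.DefectZeroBlock
import Cfsg.Agent.Lib.CT.Kernel
import Cfsg.Agent.Lib.CT.NormOne
import Cfsg.Agent.Lib.Helper16.Cover4
import Cfsg.Agent.Lib.Helper3.Irr

/-!
# Piece QP3 of S4890, assembled from COV, COV2, QB
-/

set_option autoImplicit false

namespace Cfsg.Agent.Lib.Helper75.NdQP3

open Cfsg Cfsg.Agent.Lib.Helper75.NDStmt Cfsg.Agent.Lib.Helper77.LocalRing

universe u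

theorem main (hCOV : COV.{u}) (hCOV2 : COV2.{u}) (hQB : QB.{u}) : QP3.{u} := by
  intro G _ _ p _ M hM B hB D _ _ hDp e hpair θ hθ ψ' hover
  classical
  have hMp := isPrime_of_isPModular hM
  let _ : Fintype (G ⧸ ⁅D, D⁆) := Fintype.ofFinite _
  let _ : Fintype ↥(Cbar D) := Fintype.ofFinite _
  have := Cfsg.Agent.Lib.CT.Wedderburn.finite_irrCharacter ↥(Cbar D)
  let _ : Fintype (IrrCharacter ↥(Cbar D)) := Fintype.ofFinite _
  have hDb : (Dbar D).Normal :=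
    Subgroup.Normal.map inferInstance _ (QuotientGroup.mk'_surjective _)
  have hDbp : IsPGroup p (Dbar D) := IsPGroup.map hDp _
  -- a character of the quotient over `ψ'`
  obtain ⟨χ', hχ'⟩ := Cfsg.Agent.Lib.Helper16.Cover4.exists_over (Cbar D) ψ'
  -- its inflation lies over `θ`
  have hirr : IsIrrCharacter G ((χ' : G ⧸ ⁅D, D⁆ → ℂ) ∘ (QuotientGroup.mk : G → G ⧸ ⁅D, D⁆)) :=
    Cfsg.Agent.Lib.CT.Kernel.isIrrCharacter_inflation (N := ⁅D, D⁆) χ'.2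
  have hφ : IsCharacter ↥(Cbar D) (fun y : ↥(Cbar D) => (χ' : G ⧸ ⁅D, D⁆ → ℂ) y) :=
    Cfsg.Agent.Lib.CT.Ops.isCharacter_restrict (Cbar D)
      (Cfsg.Agent.Lib.CT.Wedderburn.isCharacter_of_irr χ'.2)
  obtain ⟨m, hm, hexp⟩ := Cfsg.Agent.Lib.CT.NormOne.exists_mult_sum hφ
  choose n hn using fun ψ'' : IrrCharacter ↥(Cbar D) =>
    Cfsg.Agent.Lib.CT.Clifford.classInner_char_nat
      (Cfsg.Agent.Lib.CT.Ops.isCharacter_comp_hom (cmap D)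
        (Cfsg.Agent.Lib.CT.Wedderburn.isCharacter_of_irr ψ''.2))
      (Cfsg.Agent.Lib.CT.Wedderburn.isCharacter_of_irr θ.2)
  have h1 : (fun c : Subgroup.centralizer (D : Set G) =>
      ((χ' : G ⧸ ⁅D, D⁆ → ℂ) ∘ (QuotientGroup.mk : G → G ⧸ ⁅D, D⁆)) (c : G))
      = ∑ ψ'' : IrrCharacter ↥(Cbar D), (m ψ'' : ℂ) •
          (fun c : Subgroup.centralizer (D : Set G) => (ψ'' : ↥(Cbar D) → ℂ) (cmap D c)) := by
    funext c
    have h2 := congrFun hexp (cmap D c)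
    rw [Finset.sum_apply] at h2
    rw [Finset.sum_apply]
    exact h2
  have hkey : classInner (fun c : Subgroup.centralizer (D : Set G) =>
      ((χ' : G ⧸ ⁅D, D⁆ → ℂ) ∘ (QuotientGroup.mk : G → G ⧸ ⁅D, D⁆)) (c : G))
      (θ : Subgroup.centralizer (D : Set G) → ℂ)
      = ((∑ ψ'' : IrrCharacter ↥(Cbar D), m ψ'' * n ψ'' : ℕ) : ℂ) := by
    rw [h1, Cfsg.Agent.Lib.Helper3.Irr.classInner_sum_left, Nat.cast_sum]
    refine Finset.sum_congr rfl fun ψ'' _ => ?_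
    rw [Cfsg.Agent.Lib.Helper3.Irr.classInner_smul_left, hn ψ'', Nat.cast_mul]
  have hm' : m ψ' ≠ 0 := by
    intro h0
    apply hχ'
    rw [hm ψ', h0, Nat.cast_zero]
  have hn' : n ψ' ≠ 0 := by
    intro h0
    apply hover
    rw [hn ψ', h0, Nat.cast_zero]
  have hpos : 0 < ∑ ψ'' : IrrCharacter ↥(Cbar D), m ψ'' * n ψ'' := by
    have hle : m ψ' * n ψ' ≤ ∑ ψ'' : IrrCharacter ↥(Cbar D), m ψ'' * n ψ'' :=
      Finset.single_le_sum (f := fun ψ'' => m ψ'' * n ψ'') (fun _ _ => Nat.zero_le _)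
        (Finset.mem_univ ψ')
    have : 0 < m ψ' * n ψ' := Nat.mul_pos (Nat.pos_of_ne_zero hm') (Nat.pos_of_ne_zero hn')
    omega
  have hχB : (⟨_, hirr⟩ : IrrCharacter G) ∈ B := by
    refine hCOV2 G p M hM D hDp B e hpair θ hθ ⟨_, hirr⟩ ?_
    rw [hkey]
    exact_mod_cast hpos.ne'
  have hχ'mem : χ' ∈ quotBlock D B := ⟨⟨_, hirr⟩, hχB, rfl⟩
  have hQ := hQB G p M hM D hDp B hB
  rw [Cfsg.Agent.Lib.CT.DefectZeroBlock.eq_blockOf_of_mem hMp hQ hχ'mem]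
  exact hCOV (G ⧸ ⁅D, D⁆) p M hM (Dbar D) hDbp χ' ψ' hχ'

end Cfsg.Agent.Lib.Helper75.NdQP3
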