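import Mathlib
import Cfsg.Agent.Lib.Helper75.NDStmt
import Cfsg.Agent.Lib.Helper77.BPTransport
import Cfsg.Agent.Lib.CT.Ops

/-!
# Piece STB of S4890: an element fixing a character stabilizes its block
-/

set_option autoImplicit false

namespace Cfsg.Agent.Lib.Helper75.NdSTB

open Cfsg Cfsg.Agent.Lib.Helper75.NDStmt

universe u

theorem main : STB.{u} := by
  intro G _ _ p _ M hM N x hx ψ hfix
  refine ⟨hx, fun χ hχ => ?_⟩
  have h1 : ∀ n : G, n ∈ N → x⁻¹ * n * x ∈ N := by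
    intro n hn
    rw [Subgroup.mem_normalizer_iff] at hx
    rw [hx (x⁻¹ * n * x)]
    have : x * (x⁻¹ * n * x) * x⁻¹ = n := by group
    rw [this]
    exact hn
  have h2 : ∀ n : G, n ∈ N → x * n * x⁻¹ ∈ N := by
    intro n hn
    rw [Subgroup.mem_normalizer_iff] at hx
    exact (hx n).mp hn
  let φ : ↥N ≃* ↥N :=
    { toFun := fun n => ⟨x⁻¹ * (n : G) * x, h1 n n.2⟩
      invFun := fun n => ⟨x * (n : G) * x⁻¹, h2 n n.2⟩
      left_inv := fun n => Subtype.ext (by show x * (x⁻¹ * (n : G) * x) * x⁻¹ = n; group)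
      right_inv := fun n => Subtype.ext (by show x⁻¹ * (x * (n : G) * x⁻¹) * x = n; group)
      map_mul' := fun a b => Subtype.ext (by
        show x⁻¹ * ((a : G) * (b : G)) * x = (x⁻¹ * (a : G) * x) * (x⁻¹ * (b : G) * x)
        group) }
  have hirr : IsIrrCharacter ↥N (fun n : ↥N => (χ : ↥N → ℂ) (φ n)) :=
    Cfsg.Agent.Lib.CT.Ops.isIrrCharacter_comp_surjective φ.toMonoidHom φ.surjective χ.2
  refine ⟨⟨_, hirr⟩, ?_, ?_⟩
  · show SameBlock M (ψ : ↥N → ℂ) (fun n : ↥N => (χ : ↥N → ℂ) (φ n))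
    have h3 : SameBlock M (fun n : ↥N => (ψ : ↥N → ℂ) (φ n))
        (fun n : ↥N => (χ : ↥N → ℂ) (φ n)) :=
      (Cfsg.Agent.Lib.Helper77.BPTransport.sameBlock_pull_iff φ _ _).mpr hχ
    have h4 : (fun n : ↥N => (ψ : ↥N → ℂ) (φ n)) = (ψ : ↥N → ℂ) := by
      funext n
      refine (hfix (φ n) n ?_).symm
      show (n : G) = x * (x⁻¹ * (n : G) * x) * x⁻¹
      group
    rwa [h4] at h3
  · intro k k' hk
    show (χ : ↥N → ℂ) (φ k') = (χ : ↥N → ℂ) k
    have h5 : φ k' = k := by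
      apply Subtype.ext
      show x⁻¹ * (k' : G) * x = k
      rw [hk]
      group
    rw [h5]

end Cfsg.Agent.Lib.Helper75.NdSTB
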