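import Mathlib
import Cfsg.Agent.Lib.Helper75.DecompBlock
import Cfsg.Agent.Lib.Helper75.ResField2

/-!
# Integrality of the reduced trace of a block with equal degrees and `k(B) = |D|`

`traceInt`: from the trace formula (`TF`), the generation of the block by a lift of the primitive
idempotent (`GEN`) and the arithmetic of the decomposition data (`AR2`).
-/

set_option autoImplicit false
set_option linter.style.haveILetI false
set_option linter.unusedSectionVars false

namespace Cfsg.Agent.Lib.Helper75.OTTrace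

open Cfsg Module Cfsg.Agent.Lib.Helper77.LocalRing Cfsg.Agent.Lib.Helper77.CentralChar
  Cfsg.Agent.Lib.Helper77.BlockIdem
  Cfsg.Agent.Lib.Helper75.TwoChar Cfsg.Agent.Lib.Helper75.Decomp
  Cfsg.Agent.Lib.Helper75.DecompBlock Cfsg.Agent.Lib.Helper75.OTStmt
  Cfsg.Agent.Lib.CT.Wedderburn
open scoped ComplexConjugate

universe u

variable {G : Type u} [Group G] {M : Ideal AlgInt}

theorem traceInt (hTF : TF.{u}) (hGEN : GEN.{u}) (hAR2 : AR2.{u}) [Finite G] (p : ℕ)
    [Fact p.Prime] (hM : IsPModular p M) (B : Set (IrrCharacter G)) (hB : IsPBlock M B)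
    (D : Subgroup G) (hD : IsDefectGroup p M B D) (n : ℕ)
    (hn : ∀ χ ∈ B, charDegree (χ : G → ℂ) = n) (hk : Nat.card B = Nat.card D) :
    TraceInt M B n := by
  classical
  letI : Fintype G := Fintype.ofFinite G
  have hMp := isPrime_of_isPModular hM
  obtain ⟨F, instF, instAC, q, hq0, hqs⟩ :=
    Cfsg.Agent.Lib.Helper75.ResField2.exists_resField2 hMp hM.2.1
  letI := instF
  haveI := instAC
  obtain ⟨W, εh, ê, d, J, hεh, hεr, hê, hd, hJ1, hJ0, hdata⟩ :=
    exists_decData p hM hMp q hq0 hqs B hB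
  obtain ⟨i₀, hJeq, hd1⟩ := hAR2 G p M hM B hB D hD W.L W.f d J hdata n hn hk
  have hinj := incl_injective (G := G) hMp
  have hec : blockIdem B ∈ Subalgebra.center ℂ (MonoidAlgebra ℂ G) := blockIdem_mem_center B
  have h1 : ê * ê = ê :=
    hinj (by rw [map_mul, hê, Cfsg.Agent.Lib.Helper17.BrBridge.blockIdem_mul_self])
  have h4 : ∀ x : MonoidAlgebra (localSubring M hMp) G, ê * x = x * ê := by
    intro x
    apply hinj
    rw [map_mul, map_mul, hê]
    exact ((Subalgebra.mem_center_iff.1 hec) _).symm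
  obtain ⟨ε', hε'⟩ : ∃ ε' : MonoidAlgebra (localSubring M hMp) G, ε' = εh i₀ * ê := ⟨_, rfl⟩
  have hε'idem : ε' * ε' = ε' := by
    rw [hε', mul_assoc, ← mul_assoc ê, h4 (εh i₀), mul_assoc (εh i₀) ê ê, h1, ← mul_assoc,
      hεh]
  obtain ⟨m, a, c, hac⟩ := hGEN G M hMp F q hq0 hqs W i₀ ê ε' h1 h4
    (hJ1 i₀ (by rw [hJeq]; exact Finset.mem_singleton_self _))
    (fun i hi => hJ0 i (by rw [hJeq, Finset.mem_singleton]; exact hi))
    (by rw [hε', map_mul, hεr])
  -- the hypotheses of the trace formula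
  have hpair : ∀ χ : IrrCharacter G, pair (χ : G → ℂ) (incl hMp ε')
      = if χ ∈ B then (d χ i₀ : ℂ) else 0 := by
    intro χ
    rw [hε', map_mul, hê, (Subalgebra.mem_center_iff.1 hec) _,
      pair_mul_center χ.2 _ _ hec, omega_blockIdem, hd]
    split_ifs <;> simp
  have hp1 : ∀ χ : IrrCharacter G, χ ∈ B → pair (χ : G → ℂ) (incl hMp ε') = 1 := by
    intro χ hχ
    rw [hpair χ, if_pos hχ, hd1 χ hχ, Nat.cast_one]
  have hp0 : ∀ χ : IrrCharacter G, χ ∉ B → pair (χ : G → ℂ) (incl hMp ε') = 0 := by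
    intro χ hχ
    rw [hpair χ, if_neg hχ]
  have hsum : ∑ s, incl hMp (a s) * incl hMp ε' * incl hMp (c s) = blockIdem B := by
    rw [← hê, ← hac, map_sum]
    refine Finset.sum_congr rfl fun s _ => ?_
    rw [map_mul, map_mul]
  intro g h
  have key := hTF G B (incl hMp ε') (by rw [← map_mul, hε'idem]) hp1 hp0 m
    (fun s => incl hMp (a s)) (fun s => incl hMp (c s)) hsum (MonoidAlgebra.single g 1) h
  have hlhs : (∑ s, ∑ s', incl hMp (a s') * incl hMp ε' * incl hMp (c s)
        * MonoidAlgebra.single g (1 : ℂ) * incl hMp (a s) * incl hMp ε' * incl hMp (c s'))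
      = incl hMp (∑ s, ∑ s', a s' * ε' * c s * MonoidAlgebra.single g 1 * a s * ε' * c s') := by
    rw [map_sum]
    refine Finset.sum_congr rfl fun s _ => ?_
    rw [map_sum]
    refine Finset.sum_congr rfl fun s' _ => ?_
    simp only [map_mul, incl_single_one]
  rw [hlhs, coeff_incl] at key
  have hmem : MemLocalRing M ((Nat.card G : ℂ)⁻¹ * ∑ᶠ χ ∈ B,
      pair (χ : G → ℂ) (MonoidAlgebra.single g 1)
        * ((χ : G → ℂ) 1 * conj ((χ : G → ℂ) h))) := by
    rw [← key]
    exact (mem_localSubring hMp).1 (Subtype.property _)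
  haveI := finite_irrCharacter G
  have heq : (n : ℂ) / (Nat.card G : ℂ)
        * ∑ᶠ χ ∈ B, (χ : G → ℂ) g * conj ((χ : G → ℂ) h)
      = (Nat.card G : ℂ)⁻¹ * ∑ᶠ χ ∈ B, pair (χ : G → ℂ) (MonoidAlgebra.single g 1)
        * ((χ : G → ℂ) 1 * conj ((χ : G → ℂ) h)) := by
    rw [div_eq_mul_inv, mul_comm (n : ℂ), mul_assoc, mul_finsum_mem]
    congr 1
    refine finsum_mem_congr rfl fun χ hχ => ?_
    rw [pair_single, one_mul, ← char_natCast_charDegree (isCharacter_of_irr χ.2), hn χ hχ]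
    ring
  rw [heq]
  exact hmem

end Cfsg.Agent.Lib.Helper75.OTTrace
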