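import Mathlib
import Cfsg.Agent.Lib.Helper75.OTTrace
import Cfsg.Agent.Lib.Helper16.Defect

/-!
# Equal degrees force a trivial inertial quotient (assembly)

`card_eq`: in a block all of whose characters have height zero and the same degree,
`k(B) = |D|` (from the arithmetic of the decomposition data `AR` and the bound `K1`).

`forward`: equal degrees and abelian defect group force the inertial quotient to be trivial.
-/

set_option autoImplicit false
set_option linter.style.haveILetI false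
set_option linter.unusedSectionVars false

namespace Cfsg.Agent.Lib.Helper75.OTFinal

open Cfsg Module Cfsg.Agent.Lib.Helper77.LocalRing Cfsg.Agent.Lib.Helper77.CentralChar
  Cfsg.Agent.Lib.Helper77.BlockIdem
  Cfsg.Agent.Lib.Helper75.TwoChar Cfsg.Agent.Lib.Helper75.Decomp
  Cfsg.Agent.Lib.Helper75.DecompBlock Cfsg.Agent.Lib.Helper75.OTStmt
  Cfsg.Agent.Lib.Helper75.OTTrace Cfsg.Agent.Lib.CT.Wedderburn

universe u

variable {G : Type u} [Group G] {M : Ideal AlgInt}

theorem card_eq (hAR : AR.{u}) (hK1 : K1.{u}) [Finite G] (p : ℕ) [Fact p.Prime]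
    (hM : IsPModular p M) (B : Set (IrrCharacter G)) (hB : IsPBlock M B) (D : Subgroup G)
    (hD : IsDefectGroup p M B D) (h0 : ∀ χ ∈ B, blockHeight p B (χ : G → ℂ) = 0) (n : ℕ)
    (hn : ∀ χ ∈ B, charDegree (χ : G → ℂ) = n) : Nat.card B = Nat.card D := by
  classical
  have hpp : p.Prime := Fact.out
  have hMp := isPrime_of_isPModular hM
  haveI := finite_irrCharacter G
  obtain ⟨F, instF, instAC, q, hq0, hqs⟩ :=
    Cfsg.Agent.Lib.Helper75.ResField2.exists_resField2 hMp hM.2.1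
  letI := instF
  haveI := instAC
  obtain ⟨W, εh, ê, dn, J, -, -, -, -, -, -, hdata⟩ :=
    exists_decData p hM hMp q hq0 hqs B hB
  obtain ⟨χ₀, hχ₀⟩ := Cfsg.Agent.Lib.Helper16.ZR.isPBlock_nonempty hMp hB
  have hnpos : 0 < n := by
    rw [← hn χ₀ hχ₀]
    exact irr_charDegree_pos χ₀.2
  obtain ⟨a, ha⟩ : ∃ a, (Nat.card G).factorization p = a := ⟨_, rfl⟩
  obtain ⟨dd, hdd⟩ : ∃ dd, blockDefect p B = dd := ⟨_, rfl⟩
  have hcardD : Nat.card D = p ^ dd := by
    rw [← hdd]
    exact Cfsg.Agent.Lib.Helper16.Defect.card_defectGroup p hM B hB D hD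
  obtain ⟨hfac, v, hv0, -, hlv, hsum⟩ := hAR G p M hM B hB D hD W.L W.f dn J hdata a dd ha
    hcardD n (fun χ hχ => by rw [hn χ hχ]) (fun g' hg' => by rw [← hn χ₀ hχ₀]; exact hg' χ₀ hχ₀)
  have hK := hK1 G p M hM B hB h0
  rw [hdd] at hK
  -- the sum of squares
  have hsq : ∑ᶠ χ ∈ B, charDegree (χ : G → ℂ) ^ 2 = Nat.card B * n ^ 2 := by
    rw [finsum_mem_congr rfl fun χ hχ => by rw [hn χ hχ],
      finsum_mem_eq_finite_toFinset_sum _ (Set.toFinite B), Finset.sum_const, smul_eq_mul,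
      ← Set.ncard_eq_toFinset_card B, Nat.card_coe_set_eq]
  rw [hsq] at hsum
  -- arithmetic
  have hdvd : p ^ (a - dd) ∣ n := by
    rw [← hfac]
    exact Nat.ordProj_dvd n p
  obtain ⟨u, hu⟩ := hdvd
  have hpa : 0 < p ^ (a - dd) := pow_pos hpp.pos _
  have hu0 : 0 < u := by
    rcases Nat.eq_zero_or_pos u with h | h
    · rw [h, mul_zero] at hu
      omega
    · exact h
  have hdiv : n / p ^ (a - dd) = u := by
    rw [hu, Nat.mul_div_cancel_left u hpa]
  rw [hdiv] at hsum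
  have hle : dd ≤ a := by
    rw [← ha]
    apply (Nat.Prime.pow_dvd_iff_le_factorization hpp Nat.card_pos.ne').1
    rw [← hcardD]
    exact Subgroup.card_subgroup_dvd_card D
  have hexp : 2 * a - dd = 2 * (a - dd) + dd := by omega
  have hkv : Nat.card B = p ^ dd * v := by
    have h1 : Nat.card B * (p ^ (a - dd) * u) ^ 2 = p ^ (2 * (a - dd) + dd) * u ^ 2 * v := by
      rw [← hu, ← hexp]
      exact hsum
    have h2 : (p ^ (a - dd) * u) ^ 2 * Nat.card B = (p ^ (a - dd) * u) ^ 2 * (p ^ dd * v) := by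
      rw [mul_comm, h1]
      ring
    exact Nat.eq_of_mul_eq_mul_left (pow_pos (Nat.mul_pos hpa hu0) 2) h2
  have hv1 : v = 1 := by
    have h1 : (p ^ dd * v) ^ 2 ≤ p ^ (2 * dd) * v := by
      rw [← hkv]
      exact hK.trans (Nat.mul_le_mul_left _ hlv)
    have h2 : p ^ (2 * dd) * (v * v) ≤ p ^ (2 * dd) * v := by
      calc p ^ (2 * dd) * (v * v) = (p ^ dd * v) ^ 2 := by ring
        _ ≤ p ^ (2 * dd) * v := h1
    have h3 : v * v ≤ v := Nat.le_of_mul_le_mul_left h2 (pow_pos hpp.pos _)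
    have h4 : v ≤ 1 := by
      by_contra h
      have h5 : 2 ≤ v := by omega
      nlinarith
    omega
  rw [hkv, hv1, mul_one, hcardD]

theorem forward (hTF : TF.{u}) (hGEN : GEN.{u}) (hAR : AR.{u}) (hAR2 : AR2.{u}) (hN1 : N1.{u})
    (hN2 : N2.{u}) (hK1 : K1.{u}) (hBR : BR.{u}) [Finite G] (p : ℕ) [Fact p.Prime]
    (hM : IsPModular p M) (B : Set (IrrCharacter G)) (hB : IsPBlock M B) (D : Subgroup G)
    (hD : IsDefectGroup p M B D) (hab : ∀ x ∈ D, ∀ y ∈ D, x * y = y * x)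
    (h0 : ∀ χ ∈ B, blockHeight p B (χ : G → ℂ) = 0)
    (c : Set (IrrCharacter (Subgroup.centralizer (D : Set G))))
    (hmax : IsMaximalBrauerPair p M B D c) (n : ℕ)
    (hn : ∀ χ ∈ B, charDegree (χ : G → ℂ) = n) :
    ∀ x ∈ Subgroup.normalizer (D : Set G),
      StabilizesBlock (Subgroup.centralizer (D : Set G)) c x →
      x ∈ Subgroup.centralizer (D : Set G) := by
  have hkD := card_eq hAR hK1 p hM B hB D hD h0 n hn
  have hT := traceInt hTF hGEN hAR2 p hM B hB D hD n hn hkD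
  have h1 := hN1 G p M hM B hB D hD n hn hT
  have h2 := hN2 G p M hM B hB D hD h1
  exact hBR G p M hM B D c hmax hab hkD h2

end Cfsg.Agent.Lib.Helper75.OTFinal
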