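import Mathlib
import Cfsg.Agent.Lib.Helper75.OTStmt
import Cfsg.Agent.Lib.Helper75.ResField2
import Cfsg.Agent.Lib.Helper75.BlockRed

/-!
# S4889, piece BRA: the inertial quotient is trivial (assembly of the Brauer map pieces)
-/

set_option autoImplicit false
set_option linter.style.haveILetI false
set_option linter.unusedSectionVars false

namespace Cfsg.Agent.Lib.Helper75.OtBRA

open Cfsg Module Cfsg.Agent.Lib.Helper77.LocalRing Cfsg.Agent.Lib.Helper77.CentralChar
  Cfsg.Agent.Lib.Helper77.ClassSum Cfsg.Agent.Lib.Helper77.BlockIdem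
  Cfsg.Agent.Lib.Helper77.BPBasic Cfsg.Agent.Lib.Helper77.BPMax
  Cfsg.Agent.Lib.Helper77.BPConj
  Cfsg.Agent.Lib.Helper75.TwoChar Cfsg.Agent.Lib.Helper75.BlockAlg
  Cfsg.Agent.Lib.Helper75.GrpAlg Cfsg.Agent.Lib.Helper75.BlockRed
  Cfsg.Agent.Lib.Helper75.Decomp Cfsg.Agent.Lib.Helper75.OTStmt

universe u

variable {G : Type u} [Group G] {F : Type} [Field F]

theorem coeff_sum_single [Fintype G] (c : G → F) (h : G) :
    (∑ g, c g • MonoidAlgebra.single g (1 : F)).coeff h = c h := by
  classical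
  rw [MonoidAlgebra.coeff_sum, Finsupp.finsetSum_apply, Finset.sum_eq_single h]
  · rw [MonoidAlgebra.coeff_smul, Finsupp.smul_apply, MonoidAlgebra.coeff_single,
      Finsupp.single_eq_same, smul_eq_mul, mul_one]
  · intro g _ hg
    rw [MonoidAlgebra.coeff_smul, Finsupp.smul_apply, MonoidAlgebra.coeff_single,
      Finsupp.single_eq_of_ne hg.symm, smul_zero]
  · intro hn
    exact absurd (Finset.mem_univ h) hn

open Classical in
/-- Truncation to a subgroup as a linear map. -/
noncomputable def truncL [Fintype G] (C : Subgroup G) :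
    MonoidAlgebra F G →ₗ[F] MonoidAlgebra F G where
  toFun w := ∑ g : G, (if g ∈ C then w.coeff g else 0) • MonoidAlgebra.single g (1 : F)
  map_add' a b := by
    rw [← Finset.sum_add_distrib]
    refine Finset.sum_congr rfl fun g _ => ?_
    rw [← add_smul]
    congr 1
    split_ifs
    · rw [MonoidAlgebra.coeff_add, Finsupp.add_apply]
    · rw [add_zero]
  map_smul' r a := by
    rw [RingHom.id_apply, Finset.smul_sum]
    refine Finset.sum_congr rfl fun g _ => ?_
    rw [smul_smul]
    congr 1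
    split_ifs
    · rw [MonoidAlgebra.coeff_smul, Finsupp.smul_apply, smul_eq_mul]
    · rw [mul_zero]

open Classical in
theorem coeff_truncL [Fintype G] (C : Subgroup G) (w : MonoidAlgebra F G) (h : G) :
    (truncL C w).coeff h = if h ∈ C then w.coeff h else 0 :=
  coeff_sum_single _ h

theorem isTrunc_truncL [Fintype G] (C : Subgroup G) (w : MonoidAlgebra F G) :
    IsTrunc C w (truncL C w) := by
  classical
  refine ⟨fun g hg => ?_, fun g hg => ?_⟩
  · rw [coeff_truncL, if_pos hg]
  · rw [coeff_truncL, if_neg hg]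

/-- `InWc` as a submodule. -/
def wcSub (C : Subgroup G) (ε : MonoidAlgebra F G) : Submodule F (MonoidAlgebra F G) where
  carrier := {v | InWc C ε v}
  add_mem' := by
    rintro a b ⟨ha1, ha2, ha3⟩ ⟨hb1, hb2, hb3⟩
    refine ⟨fun g hg => ?_, fun y hy => ?_, ?_⟩
    · rw [MonoidAlgebra.coeff_add, Finsupp.add_apply, ha1 g hg, hb1 g hg, add_zero]
    · rw [mul_add, add_mul, ha2 y hy, hb2 y hy]
    · rw [mul_add, ha3, hb3]
  zero_mem' := by
    refine ⟨fun g _ => rfl, fun y _ => ?_, ?_⟩
    · rw [mul_zero, zero_mul]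
    · rw [mul_zero]
  smul_mem' := by
    rintro r a ⟨ha1, ha2, ha3⟩
    refine ⟨fun g hg => ?_, fun y hy => ?_, ?_⟩
    · rw [MonoidAlgebra.coeff_smul, Finsupp.smul_apply, ha1 g hg, smul_zero]
    · rw [mul_smul_comm, smul_mul_assoc, ha2 y hy]
    · rw [mul_smul_comm, ha3]

theorem mem_wcSub (C : Subgroup G) (ε v : MonoidAlgebra F G) :
    v ∈ wcSub C ε ↔ InWc C ε v := Iff.rfl

/-- Conjugation by `x` in coefficients. -/
theorem coeff_conj_single (x : G) (v : MonoidAlgebra F G) (g : G) :
    (MonoidAlgebra.single x (1 : F) * v * MonoidAlgebra.single x⁻¹ (1 : F)).coeff g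
      = v.coeff (x⁻¹ * g * x) := by
  simp only [MonoidAlgebra.coeff_mul_single_apply, MonoidAlgebra.coeff_single_mul_apply, mul_one,
    one_mul, inv_inv, mul_assoc]

/-- An element whose coefficients are invariant under conjugation by `y` commutes with `y`. -/
theorem comm_single_of_coeff (y : G) (v : MonoidAlgebra F G)
    (h : ∀ g, v.coeff (y⁻¹ * g * y) = v.coeff g) :
    MonoidAlgebra.single y (1 : F) * v = v * MonoidAlgebra.single y (1 : F) := by
  apply MonoidAlgebra.ext
  ext g
  simp only [MonoidAlgebra.coeff_mul_single_apply, MonoidAlgebra.coeff_single_mul_apply, mul_one,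
    one_mul]
  have h1 := h (g * y⁻¹)
  rw [show y⁻¹ * (g * y⁻¹) * y = y⁻¹ * g by group] at h1
  exact h1

theorem conj_eq_of_coeff (x : G) (v : MonoidAlgebra F G)
    (h : ∀ g, v.coeff (x⁻¹ * g * x) = v.coeff g) :
    MonoidAlgebra.single x (1 : F) * v * MonoidAlgebra.single x⁻¹ (1 : F) = v := by
  apply MonoidAlgebra.ext
  ext g
  rw [coeff_conj_single, h]

theorem conj_mul (x : G) (a b : MonoidAlgebra F G) :
    MonoidAlgebra.single x (1 : F) * (a * b) * MonoidAlgebra.single x⁻¹ (1 : F)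
      = (MonoidAlgebra.single x (1 : F) * a * MonoidAlgebra.single x⁻¹ (1 : F))
        * (MonoidAlgebra.single x (1 : F) * b * MonoidAlgebra.single x⁻¹ (1 : F)) := by
  have h1 : MonoidAlgebra.single x⁻¹ (1 : F) * MonoidAlgebra.single x (1 : F) = 1 := by
    rw [MonoidAlgebra.single_mul_single, inv_mul_cancel, mul_one, MonoidAlgebra.one_def]
  calc MonoidAlgebra.single x (1 : F) * (a * b) * MonoidAlgebra.single x⁻¹ (1 : F)
      = MonoidAlgebra.single x (1 : F) * a * 1 * b * MonoidAlgebra.single x⁻¹ (1 : F) := by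
        rw [mul_one, mul_assoc (MonoidAlgebra.single x (1 : F)) a b]
    _ = _ := by
        rw [← h1]
        simp only [mul_assoc]

theorem main (hBRI : BRI.{u}) (hLOC : LOC.{u}) (hBRW : BRW.{u}) (hBRX : BRX.{u})
    (hBRD : BRD.{u}) : BR.{u} := by
  intro G _ _ p _ M hM B D c hmax hab hk hN2 x hxN hst
  by_contra hxC
  classical
  have hMp := isPrime_of_isPModular hM
  letI : Fintype G := Fintype.ofFinite G
  obtain ⟨F, instF, instAC, q, hq0, hqs⟩ :=
    Cfsg.Agent.Lib.Helper75.ResField2.exists_resField2 hMp hM.2.1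
  letI := instF
  haveI : Module.Finite F (MonoidAlgebra F G) :=
    Module.Finite.equiv (MonoidAlgebra.coeffLinearEquiv (R := F) (S := F) (M := G)).symm
  have hB : IsPBlock M B := hmax.1.2.1
  have hc : IsPBlock M c := hmax.1.1.2
  have hDp : IsPGroup p D := hmax.1.1.1
  have hxNC : x ∈ Subgroup.normalizer ((Subgroup.centralizer (D : Set G) : Subgroup G) : Set G) :=
    normalizer_le_normalizer_centralizer D hxN
  obtain ⟨ê, hê⟩ : ∃ ê : MonoidAlgebra (localSubring M hMp) G, incl hMp ê = blockIdem B :=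
    ⟨lift hMp _ (blockIdem_mem_intSubring hMp B hB), incl_lift hMp _ _⟩
  obtain ⟨hεs, hεC, hεR⟩ := ext_blockIdem_mem hMp (Subgroup.centralizer (D : Set G)) c hc
  obtain ⟨ε', hε'⟩ : ∃ ε' : MonoidAlgebra (localSubring M hMp) G,
      incl hMp ε' = ext (Subgroup.centralizer (D : Set G)) (blockIdem c) := ⟨lift hMp _ hεR, incl_lift hMp _ _⟩
  obtain ⟨ē, hēdef⟩ : ∃ ē, ē = MonoidAlgebra.mapRingHom G q ê := ⟨_, rfl⟩
  obtain ⟨eb, hebdef⟩ : ∃ eb, eb = MonoidAlgebra.mapRingHom G q ε' := ⟨_, rfl⟩
  have hinj := incl_injective (G := G) hMp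
  have hebcoeff : ∀ g, eb.coeff g = q (ε'.coeff g) := fun g => by
    rw [hebdef, MonoidAlgebra.coeff_mapRingHom]
  have hε'coeff : ∀ g, ((ε'.coeff g : localSubring M hMp) : ℂ)
      = (ext (Subgroup.centralizer (D : Set G)) (blockIdem c)).coeff g := fun g => by rw [← hε', coeff_incl]
  have heb_supp : ∀ g, g ∉ Subgroup.centralizer (D : Set G) → eb.coeff g = 0 := by
    intro g hg
    rw [hebcoeff]
    have h1 : ε'.coeff g = 0 :=
      Subtype.ext (by rw [hε'coeff, coeff_ext_of_not_mem _ _ hg]; rfl)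
    rw [h1, map_zero]
  have heb_inv : ∀ y : G, (∀ g, (ext (Subgroup.centralizer (D : Set G)) (blockIdem c)).coeff (y⁻¹ * g * y)
      = (ext (Subgroup.centralizer (D : Set G)) (blockIdem c)).coeff g) → ∀ g, eb.coeff (y⁻¹ * g * y) = eb.coeff g := by
    intro y hy g
    rw [hebcoeff, hebcoeff]
    congr 1
    apply Subtype.ext
    rw [hε'coeff, hε'coeff, hy]
  have heb_C : ∀ y ∈ Subgroup.centralizer (D : Set G), ∀ g, eb.coeff (y⁻¹ * g * y) = eb.coeff g := by
    intro y hy
    apply heb_inv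
    intro g
    have h1 := (mem_fixedSubring.1 hεC) y⁻¹ (inv_mem hy) g
    rwa [inv_inv] at h1
  have heb_x : ∀ g, eb.coeff (x⁻¹ * g * x) = eb.coeff g := by
    apply heb_inv
    intro g
    have h1 := (stabilizesBlock_iff_conjA _ x hxNC c).1 hst
    have h2 := congrArg (fun z : MonoidAlgebra ℂ G => z.coeff g) h1
    simp only [coeff_conjA] at h2
    exact h2
  have heb_idem : eb * eb = eb := by
    rw [hebdef, ← map_mul]
    congr 1
    apply hinj
    rw [map_mul, hε']
    exact Cfsg.Agent.Lib.Helper77.BPIdem.ext_blockIdem_mul_self hM _ c hc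
  obtain ⟨Φ, hΦ⟩ : ∃ Φ : ↥(centE F ē) →ₗ[F] MonoidAlgebra F G,
      ∀ w, Φ w = truncL (Subgroup.centralizer (D : Set G)) (w : MonoidAlgebra F G) * eb :=
    ⟨(LinearMap.mulRight F eb).comp ((truncL (Subgroup.centralizer (D : Set G))).comp (centE F ē).subtype), fun w => rfl⟩
  have hΦinj : Function.Injective Φ := by
    rw [← LinearMap.ker_eq_bot, LinearMap.ker_eq_bot']
    intro w hw
    rw [hΦ] at hw
    apply Subtype.ext
    have hw2 := (mem_centE ē (w : MonoidAlgebra F G)).1 w.2
    exact hBRI G p M hM hMp F q hq0 hqs B D c hmax hN2 ê ε' hê hε' (w : MonoidAlgebra F G)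
      (truncL _ (w : MonoidAlgebra F G)) hw2.1 (by rw [← hēdef]; exact hw2.2)
      (isTrunc_truncL _ _) (by rw [← hebdef]; exact hw)
  obtain ⟨V, hV⟩ : ∃ V : Submodule F (MonoidAlgebra F G), V = LinearMap.range Φ := ⟨_, rfl⟩
  have hVfin : Module.finrank F V = Module.finrank F ↥(centE F ē) := by
    rw [hV]
    exact LinearMap.finrank_range_of_inj hΦinj
  have hBd := hBRD G M hMp F q hqs B ê hê
  rw [← hēdef] at hBd
  have hTcomm : ∀ (w : MonoidAlgebra F G), (∀ z, w * z = z * w) → ∀ y : G,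
      (∀ g, g ∈ Subgroup.centralizer (D : Set G) ↔ y⁻¹ * g * y ∈ Subgroup.centralizer (D : Set G)) →
      ∀ g, (truncL (Subgroup.centralizer (D : Set G)) w).coeff (y⁻¹ * g * y) = (truncL (Subgroup.centralizer (D : Set G)) w).coeff g := by
    intro w hw y hy g
    rw [coeff_truncL, coeff_truncL]
    by_cases hg : g ∈ Subgroup.centralizer (D : Set G)
    · rw [if_pos hg, if_pos ((hy g).1 hg)]
      have h1 := coeff_conj_of_central w hw y⁻¹ g
      rwa [inv_inv] at h1
    · rw [if_neg hg, if_neg (fun h => hg ((hy g).2 h))]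
  have hnorm : ∀ y : G, y ∈ Subgroup.normalizer ((Subgroup.centralizer (D : Set G) : Subgroup G) : Set G) →
      ∀ g, g ∈ Subgroup.centralizer (D : Set G) ↔ y⁻¹ * g * y ∈ Subgroup.centralizer (D : Set G) := by
    intro y hy g
    have h1 := Subgroup.mem_normalizer_iff.1 (inv_mem hy) g
    rwa [inv_inv] at h1
  have hVW : V ≤ wcSub (Subgroup.centralizer (D : Set G)) eb := by
    intro v hv
    rw [hV] at hv
    obtain ⟨w, rfl⟩ := hv
    rw [hΦ, mem_wcSub]
    have hw2 := (mem_centE ē (w : MonoidAlgebra F G)).1 w.2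
    have hTy : ∀ y ∈ Subgroup.centralizer (D : Set G), MonoidAlgebra.single y (1 : F) * truncL (Subgroup.centralizer (D : Set G)) (w : MonoidAlgebra F G)
        = truncL (Subgroup.centralizer (D : Set G)) (w : MonoidAlgebra F G) * MonoidAlgebra.single y (1 : F) :=
      fun y hy => comm_single_of_coeff y _
        (hTcomm _ hw2.1 y (hnorm y (Subgroup.le_normalizer hy)))
    have hey : ∀ y ∈ Subgroup.centralizer (D : Set G), MonoidAlgebra.single y (1 : F) * eb
        = eb * MonoidAlgebra.single y (1 : F) :=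
      fun y hy => comm_single_of_coeff y _ (heb_C y hy)
    have heT : eb * truncL (Subgroup.centralizer (D : Set G)) (w : MonoidAlgebra F G)
        = truncL (Subgroup.centralizer (D : Set G)) (w : MonoidAlgebra F G) * eb := by
      show eb * (∑ g : G, (if g ∈ Subgroup.centralizer (D : Set G) then (w : MonoidAlgebra F G).coeff g else 0)
          • MonoidAlgebra.single g (1 : F))
        = (∑ g : G, (if g ∈ Subgroup.centralizer (D : Set G) then (w : MonoidAlgebra F G).coeff g else 0)
          • MonoidAlgebra.single g (1 : F)) * eb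
      rw [Finset.mul_sum, Finset.sum_mul]
      refine Finset.sum_congr rfl fun g _ => ?_
      by_cases hg : g ∈ Subgroup.centralizer (D : Set G)
      · rw [if_pos hg, mul_smul_comm, smul_mul_assoc, hey g hg]
      · rw [if_neg hg, zero_smul, mul_zero, zero_mul]
    refine ⟨?_, ?_, ?_⟩
    · intro g hg
      rw [coeff_mul_eq_sum]
      refine Finset.sum_eq_zero fun h _ => ?_
      by_cases hh : h ∈ Subgroup.centralizer (D : Set G)
      · have h1 : g * h⁻¹ ∉ Subgroup.centralizer (D : Set G) := fun h1 => hg (by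
          have h2 := (Subgroup.centralizer (D : Set G)).mul_mem h1 hh
          rwa [inv_mul_cancel_right] at h2)
        rw [coeff_truncL, if_neg h1, zero_mul]
      · rw [heb_supp h hh, mul_zero]
    · intro y hy
      rw [← mul_assoc, hTy y hy, mul_assoc, hey y hy, mul_assoc]
    · rw [← mul_assoc, heT, mul_assoc, heb_idem]
  have hVx : ∀ v ∈ V, MonoidAlgebra.single x (1 : F) * v * MonoidAlgebra.single x⁻¹ (1 : F)
      = v := by
    intro v hv
    rw [hV] at hv
    obtain ⟨w, rfl⟩ := hv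
    rw [hΦ]
    have hw2 := (mem_centE ē (w : MonoidAlgebra F G)).1 w.2
    rw [conj_mul, conj_eq_of_coeff x eb heb_x,
      conj_eq_of_coeff x _ (hTcomm _ hw2.1 x (hnorm x hxNC))]
  obtain ⟨v₀, hv₀W, hv₀x⟩ := hBRX G p M hM hMp F q hq0 D hDp hab c hc ε' hε' x hxN hxC
  rw [← hebdef] at hv₀W
  have hv₀V : v₀ ∉ V := fun h => hv₀x (hVx v₀ h)
  have hVlt : V < wcSub (Subgroup.centralizer (D : Set G)) eb :=
    lt_of_le_of_ne hVW (fun h => hv₀V (by rw [h]; exact (mem_wcSub _ _ _).2 hv₀W))
  have h1 : Module.finrank F V < Module.finrank F ↥(wcSub (Subgroup.centralizer (D : Set G)) eb) :=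
    Submodule.finrank_lt_finrank_of_lt hVlt
  have h2 : Module.finrank F ↥(wcSub (Subgroup.centralizer (D : Set G)) eb) ≤ Nat.card c :=
    hBRW G M hMp F q hqs (Subgroup.centralizer (D : Set G)) c ε' hε' (wcSub (Subgroup.centralizer (D : Set G)) eb)
      (fun v hv => by rw [← hebdef]; exact hv)
  have h3 := hLOC G p M hM B D c hmax hab
  omega

end Cfsg.Agent.Lib.Helper75.OtBRA
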