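import Mathlib
import Cfsg.Agent.Lib.Helper75.GaloisBlock
import Cfsg.Agent.Lib.Helper16.Cover3
import Cfsg.Agent.Lib.Helper16.Induced

/-!
# Principal `2`-blocks and normal subgroups of odd index

For `N` normal of odd index in `G`, `θ ∈ Irr(N)` under `χ ∈ Irr(G)`, with `χ` fixed by a Galois
automorphism inverting the odd roots of unity: `χ` lies in the principal `2`-block of `G` iff `θ`
lies in the principal `2`-block of `N`.
-/

set_option autoImplicit false

namespace Cfsg.Agent.Lib.Helper75.RealBlock3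

open Cfsg Cfsg.Agent.Lib.Helper77.LocalRing Cfsg.Agent.Lib.CT.Wedderburn
  Cfsg.Agent.Lib.Helper77.BlockIdem Cfsg.Agent.Lib.Helper77.CentralChar
  Cfsg.Agent.Lib.CT.DefectZeroBlock Cfsg.Agent.Lib.Helper77.IdemTrace
  Cfsg.Agent.Lib.Helper75.NumMinMax Cfsg.Agent.Lib.Helper75.RealBlock
  Cfsg.Agent.Lib.Helper75.RealBlock2 Cfsg.Agent.Lib.Helper75.GaloisBlock
open scoped ComplexConjugate

universe u
variable {G : Type u} [Group G]

open Classical in
/-- Most general form of `RealBlock.omega_blockIdem_sub_coeff_one`: the hypotheses on `φ` and on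
the idempotent coefficients are only required at elements of odd order, and the vanishing of the
central character only at the nontrivial real elements of odd order. -/
theorem omega_blockIdem_sub_coeff_one'' [Fintype G] {M : Ideal AlgInt} (hM : IsPModular 2 M)
    (B : Set (IrrCharacter G)) (hB : IsPBlock M B)
    (hBinv : ∀ g, ¬ 2 ∣ orderOf g → blockCoeff B g⁻¹ = blockCoeff B g) (φ : IrrCharacter G)
    (hφ1 : ∀ x, ¬ 2 ∣ orderOf x →
      MemLocalIdeal M (centralChar (φ : G → ℂ) x⁻¹ - centralChar (φ : G → ℂ) x))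
    (hφ2 : ∀ x, ¬ 2 ∣ orderOf x → x ≠ 1 → IsConj x x⁻¹ →
      MemLocalIdeal M (centralChar (φ : G → ℂ) x)) :
    MemLocalIdeal M (omega (φ : G → ℂ) (blockIdem B) - blockCoeff B 1) := by
  have hMp := isPrime_of_isPModular hM
  have : Fact (Nat.Prime 2) := ⟨Nat.prime_two⟩
  rw [omega_eq_sum_classes φ _ (blockIdem_mem_center B)]
  have hout : ∀ g : G, IsConj (ConjClasses.mk g).out g := fun g =>
    ConjClasses.mk_eq_mk_iff_isConj.mp (Quotient.out_eq _)
  set τ : ConjClasses G → ConjClasses G := fun c => ConjClasses.mk (c.out)⁻¹ with hτdef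
  have hτ : ∀ c, τ (τ c) = c := by
    intro c
    have h1 : IsConj (ConjClasses.mk (c.out)⁻¹).out (c.out)⁻¹ := hout _
    have h2 : IsConj ((ConjClasses.mk (c.out)⁻¹).out)⁻¹ c.out := by
      obtain ⟨x, hx⟩ := isConj_iff.mp h1
      exact isConj_iff.mpr ⟨x, by rw [← conj_inv, hx, inv_inv]⟩
    show ConjClasses.mk ((ConjClasses.mk (c.out)⁻¹).out)⁻¹ = c
    rw [ConjClasses.mk_eq_mk_iff_isConj.mpr h2]
    exact Quotient.out_eq c
  set a₀ : ConjClasses G := ConjClasses.mk 1 with ha₀def
  have hout1 : a₀.out = 1 := isConj_one_left.mp (hout 1)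
  have ha₀ : τ a₀ = a₀ := by
    show ConjClasses.mk (a₀.out)⁻¹ = a₀
    rw [hout1, inv_one]
  have hcoeffR : ∀ g : G, MemLocalRing M (blockCoeff B g) :=
    blockCoeff_memLocalRing 2 M hM B hB
  have hωR : ∀ g : G, MemLocalRing M (centralChar (φ : G → ℂ) g) := fun g =>
    memLocalRing_of_isIntegral hMp
      (Cfsg.Agent.Lib.Helper80.Integrality.isIntegral_centralChar φ _)
  have key := sum_involution_mem hM τ hτ
    (fun c => blockCoeff B c.out * centralChar (φ : G → ℂ) c.out)
    (fun c => memLocalRing_mul hMp (hcoeffR _) (hωR _)) (by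
      intro c
      have hc' : IsConj (τ c).out (c.out)⁻¹ := hout _
      show MemLocalIdeal M (blockCoeff B (τ c).out * centralChar (φ : G → ℂ) (τ c).out -
        blockCoeff B c.out * centralChar (φ : G → ℂ) c.out)
      rw [← Cfsg.Agent.Lib.Helper16.MinMax.blockCoeff_eq_of_isConj B hc',
        ← Cfsg.Agent.Lib.Helper16.MinMax.centralChar_eq_of_isConj φ hc']
      by_cases hsing : 2 ∣ orderOf c.out
      · rw [Cfsg.Agent.Lib.Helper77.OsimaVanish.blockCoeff_eq_zero_of_singular 2 M hM B hB _
            hsing,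
          Cfsg.Agent.Lib.Helper77.OsimaVanish.blockCoeff_eq_zero_of_singular 2 M hM B hB
            (c.out)⁻¹ (by rw [orderOf_inv]; exact hsing), zero_mul, zero_mul, sub_self]
        exact memLocalIdeal_zero hMp
      · rw [hBinv _ hsing, ← mul_sub]
        exact memLocalIdeal_mul_left hMp (hcoeffR _) (hφ1 _ hsing)) a₀ ha₀ (by
      intro c hfix hne
      show MemLocalIdeal M (blockCoeff B c.out * centralChar (φ : G → ℂ) c.out)
      have hg1 : c.out ≠ 1 := by
        intro h1
        apply hne
        rw [ha₀def, ← h1]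
        exact (Quotient.out_eq c).symm
      have hconj : IsConj c.out (c.out)⁻¹ := by
        have h3 : ConjClasses.mk (c.out)⁻¹ = ConjClasses.mk c.out := by
          rw [show ConjClasses.mk c.out = c from Quotient.out_eq c]
          exact hfix
        exact (ConjClasses.mk_eq_mk_iff_isConj.mp h3).symm
      by_cases hsing : 2 ∣ orderOf c.out
      · rw [Cfsg.Agent.Lib.Helper77.OsimaVanish.blockCoeff_eq_zero_of_singular 2 M hM B hB _ hsing,
          zero_mul]
        exact memLocalIdeal_zero hMp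
      · exact memLocalIdeal_mul_left hMp (hcoeffR _) (hφ2 _ hsing hg1 hconj))
  have hF0 : blockCoeff B a₀.out * centralChar (φ : G → ℂ) a₀.out = blockCoeff B 1 := by
    rw [hout1]
    have h1 : centralChar (φ : G → ℂ) 1 = 1 := by
      unfold centralChar
      have htop : Subgroup.centralizer ({1} : Set G) = ⊤ := by
        ext z
        simp [Subgroup.mem_centralizer_iff]
      rw [htop, Subgroup.index_top, Nat.cast_one, one_mul, div_self (irr_one_ne_zero φ.2)]
    rw [h1, mul_one]
  simp only [hF0] at key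
  exact key

/-- An element conjugate to its inverse lies in every normal subgroup of odd index. -/
theorem mem_of_isConj_inv [Finite G] (N : Subgroup G) [N.Normal] (hidx : Odd N.index) (g : G)
    (hc : IsConj g g⁻¹) : g ∈ N := by
  obtain ⟨x, hx⟩ := isConj_iff.mp hc
  set q : G ⧸ N := QuotientGroup.mk g with hq
  set y : G ⧸ N := QuotientGroup.mk x with hy
  have hyq : y * q * y⁻¹ = q⁻¹ := by
    rw [hq, hy, ← QuotientGroup.mk_inv, ← QuotientGroup.mk_mul, ← QuotientGroup.mk_mul, hx,
      QuotientGroup.mk_inv]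
  have hcard : Nat.card (G ⧸ N) = N.index := rfl
  have h2 : Commute (y ^ 2) q := by
    show y ^ 2 * q = q * y ^ 2
    have h3 : y * q = q⁻¹ * y := by rw [← hyq]; group
    have h4 : y * q⁻¹ = q * y := by
      have : y * q⁻¹ * y⁻¹ = q := by
        rw [← inv_inj, mul_inv_rev, mul_inv_rev, inv_inv, inv_inv, ← mul_assoc, hyq]
      calc y * q⁻¹ = (y * q⁻¹ * y⁻¹) * y := by group
        _ = q * y := by rw [this]
    rw [pow_two, mul_assoc, h3, ← mul_assoc, h4, mul_assoc]
  obtain ⟨j, hj⟩ := hidx
  have hy1 : (y ^ 2) ^ (j + 1) = y := by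
    rw [← pow_mul, show 2 * (j + 1) = (2 * j + 1) + 1 by ring, pow_succ, ← hj, ← hcard,
      pow_card_eq_one', one_mul]
  have h5 : Commute y q := by
    rw [← hy1]
    exact h2.pow_left _
  have hqq : q = q⁻¹ := by
    rw [← hyq, h5.eq, mul_inv_cancel_right]
  have hq2 : q ^ 2 = 1 := by
    rw [pow_two]
    nth_rewrite 2 [hqq]
    exact mul_inv_cancel q
  have hq1 : q = 1 := by
    have h6 : orderOf q ∣ 2 := orderOf_dvd_of_pow_eq_one hq2
    have h7 : orderOf q ∣ N.index := by
      rw [← hcard]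
      exact orderOf_dvd_natCard q
    have h8 : orderOf q = 1 := by
      rcases (Nat.dvd_prime Nat.prime_two).mp h6 with h | h
      · exact h
      · exfalso
        rw [h] at h7
        exact (Nat.not_even_iff_odd.mpr ⟨j, hj⟩) (even_iff_two_dvd.mpr h7)
    exact orderOf_eq_one_iff.mp h8
  exact (QuotientGroup.eq_one_iff g).mp hq1

theorem exists_triv : ∃ t : IrrCharacter G, (t : G → ℂ) = fun _ => 1 :=
  ⟨⟨_, Cfsg.Agent.Lib.CT.Ops.isIrrCharacter_one⟩, rfl⟩

open Cfsg.Agent.Lib.Helper16.Normal Cfsg.Agent.Lib.Helper16.Cover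
  Cfsg.Agent.Lib.Helper16.Cover3 Cfsg.Agent.Lib.Helper16.Over Cfsg.Agent.Lib.Helper16.Induced
  Cfsg.Agent.Lib.CT.Clifford

/-- If `χ` lies over a member `θ` of the principal block of the normal subgroup `N`, then the
central character of `χ` at the elements of `N` is congruent to the class size. -/
theorem centralChar_sub_index_mem [Fintype G] {M : Ideal AlgInt} (hMp : M.IsPrime)
    (N : Subgroup G) [Fintype N] (hN : N.Normal) (χ : IrrCharacter G) (θ : IrrCharacter N)
    (hover : classInner (fun n : N => (χ : G → ℂ) n) (θ : N → ℂ) ≠ 0)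
    (hθ : θ ∈ principalBlock M N) (n : N) :
    MemLocalIdeal M (centralChar (χ : G → ℂ) (n : G) -
      ((Subgroup.centralizer ({(n : G)} : Set G)).index : ℂ)) := by
  obtain ⟨tG, htG⟩ := exists_triv (G := G)
  obtain ⟨tN, htN⟩ := exists_triv (G := N)
  have h1 := centralChar_eq_induced_of_constituent N hN χ θ hover n
  have hovt : classInner (fun n : N => (tG : G → ℂ) n) (tN : N → ℂ) ≠ 0 := by
    have h : (fun n : N => (tG : G → ℂ) n) = (tN : N → ℂ) := by rw [htG, htN]
    rw [h, irr_orthonormal, if_pos rfl]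
    exact one_ne_zero
  have h2 := centralChar_eq_induced_of_constituent N hN tG tN hovt n
  have h3 : centralChar (tG : G → ℂ) (n : G) =
      ((Subgroup.centralizer ({(n : G)} : Set G)).index : ℂ) := by
    simp [centralChar, htG]
  obtain ⟨R, -, hsum⟩ := inducedCentralChar_eq_sum_reps N (n : G)
  rw [h1, ← h3, h2, hsum (θ : N → ℂ) (fun x k => char_isClassFunction (isCharacter_of_irr θ.2) x k),
    hsum (tN : N → ℂ) (fun x k => char_isClassFunction (isCharacter_of_irr tN.2) x k),
    ← Finset.sum_sub_distrib]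
  refine memLocalIdeal_sum hMp _ _ fun r _ => ?_
  have h4 := hθ r
  rw [htN]
  exact memLocalIdeal_sub_comm h4

/-- **Principal `2`-blocks and normal subgroups of odd index** (Galois-fixed characters). -/
theorem mem_principalBlock_iff [Fintype G] (M : Ideal AlgInt) (hM : IsPModular 2 M)
    (N : Subgroup G) [hN : N.Normal] [Fintype N] (hidx : Odd N.index) (k : ℕ)
    (hk : Nat.Coprime k (Nat.card G)) (hk₂ : ∀ g : G, Odd (orderOf g) → g ^ k = g⁻¹)
    (θ : IrrCharacter N) (χ : IrrCharacter G)
    (hχ : ∀ g : G, (χ : G → ℂ) (g ^ k) = (χ : G → ℂ) g)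
    (hover : classInner (fun n : N => (χ : G → ℂ) n) (θ : N → ℂ) ≠ 0) :
    χ ∈ principalBlock M G ↔ θ ∈ principalBlock M N := by
  classical
  have : Fact (Nat.Prime 2) := ⟨Nat.prime_two⟩
  have hMp := isPrime_of_isPModular hM
  obtain ⟨tG, htG⟩ := exists_triv (G := G)
  obtain ⟨tN, htN⟩ := exists_triv (G := N)
  constructor
  · intro hχB
    have hS : GStable N hN (principalBlock M N) := by
      intro θ' hθ' g
      have h1 : SameBlock M (tN : N → ℂ) (θ' : N → ℂ) := by rw [htN]; exact hθ'
      have h2 := sameBlock_cI N hN g tN θ' h1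
      have h3 : (cI N hN g tN : N → ℂ) = fun _ => 1 := by
        funext n
        rw [cI_apply, htN]
      rw [h3] at h2
      exact h2
    have hSR : ∀ n : N, MemLocalRing M (blockCoeff (principalBlock M N) n) := fun n =>
      blockCoeff_memLocalRing 2 M hM _ ⟨tN, by rw [htN]; rfl⟩ n
    have hsame : SameBlock M (tG : G → ℂ) (χ : G → ℂ) := by rw [htG]; exact hχB
    have htNS : tN ∈ principalBlock M N := by
      show SameBlock M (fun _ : N => (1 : ℂ)) (tN : N → ℂ)
      rw [htN]
      intro g
      rw [sub_self]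
      exact memLocalIdeal_zero hMp
    have hovt : classInner (fun n : N => (tG : G → ℂ) n) (tN : N → ℂ) ≠ 0 := by
      have h : (fun n : N => (tG : G → ℂ) n) = (tN : N → ℂ) := by rw [htG, htN]
      rw [h, irr_orthonormal, if_pos rfl]
      exact one_ne_zero
    obtain ⟨θ', hθ'S, hθ'⟩ := over_of_sameBlock hMp N hN (principalBlock M N) hS hSR tG χ hsame
      ⟨tN, htNS, hovt⟩
    obtain ⟨g, hg⟩ := exists_conj_of_constituent N hN χ.2 θ'.2 θ.2 hθ' hover
    have hθeq : θ = cI N hN g θ' := Subtype.ext hg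
    rw [hθeq]
    exact hS θ' hθ'S g
  · intro hθB
    set B : Set (IrrCharacter G) := blockOf M (χ : G → ℂ) with hBdef
    have hB : IsPBlock M B := isPBlock_blockOf χ
    have hχB : χ ∈ B := Cfsg.Agent.Lib.Helper77.DefectClass.self_mem_blockOf hMp χ
    have hpkχ : pk k hk χ = χ := Subtype.ext (funext hχ)
    have hstab := pk_mem_blockOf_of_fixed 2 M hM k hk χ hpkχ
    have hodd : ∀ g : G, ¬ 2 ∣ orderOf g → g ^ k = g⁻¹ := fun g hg =>
      hk₂ g (Nat.not_even_iff_odd.mp (fun h => hg (even_iff_two_dvd.mp h)))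
    have hBinv : ∀ g, ¬ 2 ∣ orderOf g → blockCoeff B g⁻¹ = blockCoeff B g := by
      intro g hg
      rw [← hodd g hg]
      exact blockCoeff_pow_of_stable k hk B hstab g
    have hχ1 : ∀ x, ¬ 2 ∣ orderOf x → MemLocalIdeal M
        (centralChar (χ : G → ℂ) x⁻¹ - centralChar (χ : G → ℂ) x) := by
      intro x hx
      have h1 : centralChar (χ : G → ℂ) x⁻¹ = centralChar (χ : G → ℂ) x := by
        unfold centralChar
        rw [centralizer_inv, ← hodd x hx, hχ]
      rw [h1, sub_self]
      exact memLocalIdeal_zero hMp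
    have hχ2 : ∀ x, ¬ 2 ∣ orderOf x → x ≠ 1 → IsConj x x⁻¹ →
        MemLocalIdeal M (centralChar (χ : G → ℂ) x) := by
      intro x hx hx1 hc
      have hxN : x ∈ N := mem_of_isConj_inv N hidx x hc
      have h1 := centralChar_sub_index_mem hMp N hN χ θ hover hθB ⟨x, hxN⟩
      have h2 : MemLocalIdeal M ((Subgroup.centralizer ({x} : Set G)).index : ℂ) :=
        memLocalIdeal_natCast_of_dvd hM (two_dvd_index_of_isConj_inv x hx hx1 hc)
      have h3 := memLocalIdeal_add hMp h1 h2
      rwa [sub_add_cancel] at h3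
    have ht1 : ∀ x, ¬ 2 ∣ orderOf x → MemLocalIdeal M
        (centralChar (tG : G → ℂ) x⁻¹ - centralChar (tG : G → ℂ) x) := by
      intro x _
      have h : centralChar (tG : G → ℂ) x⁻¹ = centralChar (tG : G → ℂ) x := by
        unfold centralChar
        rw [centralizer_inv, htG]
      rw [h, sub_self]
      exact memLocalIdeal_zero hMp
    have ht2 : ∀ x, ¬ 2 ∣ orderOf x → x ≠ 1 → IsConj x x⁻¹ →
        MemLocalIdeal M (centralChar (tG : G → ℂ) x) := by
      intro x hx hx1 hc
      have h : centralChar (tG : G → ℂ) x =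
          ((Subgroup.centralizer ({x} : Set G)).index : ℂ) := by
        simp [centralChar, htG]
      rw [h]
      exact memLocalIdeal_natCast_of_dvd hM (two_dvd_index_of_isConj_inv x hx hx1 hc)
    have h1 := omega_blockIdem_sub_coeff_one'' hM B hB hBinv χ hχ1 hχ2
    have h2 := omega_blockIdem_sub_coeff_one'' hM B hB hBinv tG ht1 ht2
    rw [omega_blockIdem, if_pos hχB] at h1
    rw [omega_blockIdem] at h2
    by_cases htB : tG ∈ B
    · have h3 : SameBlock M (χ : G → ℂ) (tG : G → ℂ) := htB
      rw [htG] at h3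
      exact sameBlock_symm h3
    · rw [if_neg htB, zero_sub] at h2
      have h3 := memLocalIdeal_sub hMp h1 h2
      rw [sub_neg_eq_add, sub_add_cancel] at h3
      exact absurd h3 (not_memLocalIdeal_one hMp)

end Cfsg.Agent.Lib.Helper75.RealBlock3
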