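import Mathlib
import Cfsg.Agent.Lib.Helper39.TLStmt

set_option autoImplicit false

/-!
# S4404 piece CASE1 (second seat, helper75)
-/

namespace Cfsg.Agent.Lib.Helper75.TLCASE1

open Cfsg Cfsg.Agent.Lib.Helper39.TLStmt

universe u

/-- an element of order dividing 3 normalizing a group of order 4 and fixing a nonidentity
element of it centralizes it -/
theorem fix_all {S : Type u} [Group S] (W : Subgroup S) (hcard : Nat.card W = 4) (a : S)
    (ha3 : a ^ 3 = 1) (hnorm : ∀ w ∈ W, a * w * a⁻¹ ∈ W) (w₀ : S) (hw₀ : w₀ ∈ W)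
    (hw₀1 : w₀ ≠ 1) (hfix : a * w₀ * a⁻¹ = w₀) : ∀ w ∈ W, a * w * a⁻¹ = w := by
  classical
  intro w hw
  by_contra hne
  have hinj : ∀ u v : S, a * u * a⁻¹ = a * v * a⁻¹ → u = v := by
    intro u v h
    have h2 := mul_right_cancel h
    exact mul_left_cancel h2
  have h1 : a * 1 * a⁻¹ = 1 := by simp
  have hw1 : w ≠ 1 := by
    rintro rfl
    exact hne h1
  have hww0 : w ≠ w₀ := by
    rintro rfl
    exact hne hfix
  have hφw1 : a * w * a⁻¹ ≠ 1 := fun h => hw1 (hinj _ _ (h.trans h1.symm))
  have hφww0 : a * w * a⁻¹ ≠ w₀ := fun h => hww0 (hinj _ _ (h.trans hfix.symm))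
  have hfin : (W : Set S).Finite := by
    have : Finite ↥W := Nat.finite_of_card_ne_zero (by rw [hcard]; norm_num)
    exact Set.toFinite _
  have hsub : ((({1, w₀, w, a * w * a⁻¹} : Finset S) : Set S)) ⊆ (W : Set S) := by
    intro v hv
    simp only [Finset.coe_insert, Finset.coe_singleton, Set.mem_insert_iff,
      Set.mem_singleton_iff] at hv
    rcases hv with rfl | rfl | rfl | rfl
    · exact W.one_mem
    · exact hw₀
    · exact hw
    · exact hnorm w hw
  have hc4 : ({1, w₀, w, a * w * a⁻¹} : Finset S).card = 4 := by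
    rw [Finset.card_insert_of_notMem, Finset.card_insert_of_notMem,
      Finset.card_insert_of_notMem, Finset.card_singleton]
    · simp only [Finset.mem_singleton]
      exact fun h => hne h.symm
    · simp only [Finset.mem_insert, Finset.mem_singleton, not_or]
      exact ⟨fun h => hww0 h.symm, fun h => hφww0 h.symm⟩
    · simp only [Finset.mem_insert, Finset.mem_singleton, not_or]
      exact ⟨fun h => hw₀1 h.symm, fun h => hw1 h.symm, fun h => hφw1 h.symm⟩
  have hWn : (W : Set S).ncard = 4 := by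
    rw [← hcard]
    exact (Nat.card_coe_set_eq (W : Set S)).symm
  have heq : ((({1, w₀, w, a * w * a⁻¹} : Finset S) : Set S)) = (W : Set S) := by
    apply Set.eq_of_subset_of_ncard_le hsub _ hfin
    rw [Set.ncard_coe_finset, hc4, hWn]
  have hmem : a * (a * w * a⁻¹) * a⁻¹ ∈ (W : Set S) := hnorm _ (hnorm w hw)
  rw [← heq] at hmem
  simp only [Finset.coe_insert, Finset.coe_singleton, Set.mem_insert_iff,
    Set.mem_singleton_iff] at hmem
  have h3 : a * (a * (a * w * a⁻¹) * a⁻¹) * a⁻¹ = w := by
    have : a * (a * (a * w * a⁻¹) * a⁻¹) * a⁻¹ = a ^ 3 * w * (a ^ 3)⁻¹ := by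
      simp only [pow_succ, pow_zero, one_mul, mul_inv_rev, mul_assoc]
    rw [this, ha3]
    simp
  rcases hmem with h | h | h | h
  · exact hφw1 (hinj _ _ (h.trans h1.symm))
  · exact hφww0 (hinj _ _ (h.trans hfix.symm))
  · rw [h] at h3
    exact hne h3
  · exact hne (hinj _ _ h)

theorem main (hN : NormA.{u}) : Case1.{u} := by
  classical
  intro S _ _ M _ hM T A hT hAT hTA hA hA27 x W hxT hR hcyc
  have hAcomm : ∀ a ∈ A, ∀ b ∈ A, a * b = b * a := by
    intro a ha b hb
    have h := hA.1.is_comm.comm (⟨a, ha⟩ : A) ⟨b, hb⟩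
    exact congrArg Subtype.val h
  have hnormW : ∀ a ∈ A, ∀ w ∈ W, a * w * a⁻¹ ∈ W := by
    intro a ha w hw
    have h := hN S M hM T A hT hAT hTA hAcomm x W hxT hR a ha
    rw [← h]
    exact ⟨w, hw, rfl⟩
  -- a nonidentity element of W
  have hWfin : Finite ↥W := Nat.finite_of_card_ne_zero (by rw [hR.card]; norm_num)
  obtain ⟨w₀, hw₀, hw₀1⟩ : ∃ w₀ ∈ W, w₀ ≠ 1 := by
    by_contra hcon
    push Not at hcon
    have : W = ⊥ := by
      rw [eq_bot_iff]
      intro w hw
      exact Subgroup.mem_bot.mpr (hcon w hw)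
    rw [this] at hR
    have := hR.card
    simp at this
  have hAfin : Finite ↥A := Nat.finite_of_card_ne_zero (by rw [hA27]; norm_num)
  -- the stabilizer of w₀ lies in the centralizer
  have hstab : ∀ a ∈ A, a * w₀ * a⁻¹ = w₀ → a ∈ A ⊓ Subgroup.centralizer (W : Set S) := by
    intro a ha hfix
    refine Subgroup.mem_inf.mpr ⟨ha, ?_⟩
    rw [Subgroup.mem_centralizer_iff]
    intro w hw
    have h := fix_all W hR.card a (hA.2 a ha) (hnormW a ha) w₀ hw₀ hw₀1 hfix w hw
    calc w * a = (a * w * a⁻¹) * a := by rw [h]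
      _ = a * w := by group
  -- K is cyclic of exponent 3, hence of order at most 3
  set K : Subgroup S := A ⊓ Subgroup.centralizer (W : Set S) with hK
  have hKfin : Finite ↥K := inferInstance
  have hK3 : Nat.card ↥K ≤ 3 := by
    obtain ⟨g, hg⟩ := hcyc.exists_generator
    have hg3 : g ^ 3 = 1 := by
      apply Subtype.ext
      rw [Subgroup.coe_pow]
      exact hA.2 g.1 g.2.1
    have hord : orderOf g ≤ 3 := Nat.le_of_dvd (by norm_num) (orderOf_dvd_of_pow_eq_one hg3)
    have : Nat.card ↥K = orderOf g := by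
      rw [← Nat.card_zpowers g]
      have : Subgroup.zpowers g = ⊤ := by
        rw [eq_top_iff]
        intro k _
        exact hg k
      rw [this, Subgroup.card_top]
    omega
  -- counting: |A| ≤ 3 |K|
  have hcount : Nat.card ↥A ≤ 3 * Nat.card ↥K := by
    have : Fintype S := Fintype.ofFinite _
    have : Fintype ↥A := Fintype.ofFinite _
    have : Fintype ↥K := Fintype.ofFinite _
    rw [Nat.card_eq_fintype_card, Nat.card_eq_fintype_card]
    let f : ↥A → S := fun a => (a : S) * w₀ * (a : S)⁻¹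
    have himg : (Finset.univ.image f).card ≤ 3 := by
      have hsub : Finset.univ.image f ⊆ (Set.toFinset ((W : Set S) \ {1})) := by
        intro v hv
        rw [Finset.mem_image] at hv
        obtain ⟨a, -, rfl⟩ := hv
        rw [Set.mem_toFinset]
        refine ⟨hnormW a a.2 w₀ hw₀, ?_⟩
        intro h
        apply hw₀1
        have h' : (a : S) * w₀ * (a : S)⁻¹ = 1 := h
        have : w₀ = (a : S)⁻¹ * ((a : S) * w₀ * (a : S)⁻¹) * (a : S) := by group
        rw [this, h']
        simp
      have hc : (Set.toFinset ((W : Set S) \ {1})).card = 3 := by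
        rw [Set.toFinset_card, ← Nat.card_eq_fintype_card, Nat.card_coe_set_eq,
          Set.ncard_sdiff_singleton_of_mem W.one_mem]
        have : (W : Set S).ncard = 4 := by
          rw [← hR.card]
          exact (Nat.card_coe_set_eq (W : Set S)).symm
        rw [this]
      calc (Finset.univ.image f).card ≤ (Set.toFinset ((W : Set S) \ {1})).card :=
            Finset.card_le_card hsub
        _ = 3 := hc
    have hfib : ∀ v ∈ Finset.univ.image f,
        (Finset.univ.filter (fun a : ↥A => f a = v)).card ≤ Fintype.card ↥K := by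
      intro v hv
      rw [Finset.mem_image] at hv
      obtain ⟨a₀, -, rfl⟩ := hv
      have hmemK : ∀ a : ↥A, f a = f a₀ → (a₀ : S)⁻¹ * (a : S) ∈ K := by
        intro a h
        apply hstab _ (A.mul_mem (A.inv_mem a₀.2) a.2)
        have h' : (a : S) * w₀ * (a : S)⁻¹ = (a₀ : S) * w₀ * (a₀ : S)⁻¹ := h
        calc (a₀ : S)⁻¹ * (a : S) * w₀ * ((a₀ : S)⁻¹ * (a : S))⁻¹
            = (a₀ : S)⁻¹ * ((a : S) * w₀ * (a : S)⁻¹) * (a₀ : S) := by group
          _ = w₀ := by rw [h']; group
      rw [← Finset.card_univ]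
      apply Finset.card_le_card_of_injOn
        (fun a : ↥A => if h : f a = f a₀ then (⟨(a₀ : S)⁻¹ * (a : S), hmemK a h⟩ : ↥K) else 1)
      · intro a _
        exact Finset.mem_univ _
      · intro a ha b hb hab
        have ha' : f a = f a₀ := by simpa using ha
        have hb' : f b = f a₀ := by simpa using hb
        simp only [dif_pos ha', dif_pos hb'] at hab
        have h2 : (a₀ : S)⁻¹ * (a : S) = (a₀ : S)⁻¹ * (b : S) := congrArg Subtype.val hab
        exact Subtype.ext (mul_left_cancel h2)
    calc Fintype.card ↥A = (Finset.univ : Finset ↥A).card := Finset.card_univ.symm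
      _ ≤ Fintype.card ↥K * (Finset.univ.image f).card :=
          Finset.card_le_mul_card_image _ _ hfib
      _ ≤ Fintype.card ↥K * 3 := Nat.mul_le_mul_left _ himg
      _ = 3 * Fintype.card ↥K := Nat.mul_comm _ _
  rw [hA27] at hcount
  omega

end Cfsg.Agent.Lib.Helper75.TLCASE1
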