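import Mathlib
import Cfsg.Agent.Lib.Helper39.TLStmt

set_option autoImplicit false

/-!
# S4404 piece PW7 (helper75)

`Y` a 7-group normalized by the reflection `x` (with `W`): `#Y ≤ 7 * #(Y ∩ C(W))`.

Key lemma (`keyK`): if `W ≤ U ≤ M`, `#U ≤ 16`, `L = Y ∩ N` where `N` is the group of elements
normalizing `U` and acting trivially on `M / U`, `V₂ = [M, L]`, then every `Y`-conjugate `W'` of
`W` inside `U` is `W`, or `#V₂ = 8` and `W, W' ≤ V₂`.  Hence all conjugates of `W` lie in a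
group `B` of order at most 8, normalized by `Y`, and the image of `Y` in `Sym(B)` has order at
most 7.
-/

namespace Cfsg.Agent.Lib.Helper75.TLPW7

open Cfsg Cfsg.Agent.Lib.Helper39.TLStmt

universe u

/-! ## Generalities -/

theorem pow2_cases (n : ℕ) (hn4 : n ≤ 4) (hmod : 2 ^ n ≡ 1 [MOD 7]) :
    2 ^ n = 1 ∨ 2 ^ n = 8 := by
  unfold Nat.ModEq at hmod
  interval_cases n <;> omega

theorem seven_pow_le (k : ℕ) (h : 7 ^ k ∣ Nat.factorial 8) : 7 ^ k ≤ 7 := by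
  by_contra hcon
  push Not at hcon
  have hk2 : 2 ≤ k := by
    by_contra h2
    push Not at h2
    interval_cases k <;> omega
  have h49 : 7 ^ 2 ∣ Nat.factorial 8 := (pow_dvd_pow 7 hk2).trans h
  have h8 : Nat.factorial 8 = 40320 := by decide
  rw [h8] at h49
  omega

theorem mem_sup_dec {G : Type u} [Group G] (A B : Subgroup G)
    (h : ∀ a ∈ A, ∀ b ∈ B, a * b = b * a) {g : G} (hg : g ∈ A ⊔ B) :
    ∃ a ∈ A, ∃ b ∈ B, g = a * b := by
  rw [Subgroup.sup_eq_closure] at hg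
  induction hg using Subgroup.closure_induction with
  | mem x hx =>
    rcases hx with hx | hx
    · exact ⟨x, hx, 1, B.one_mem, (mul_one x).symm⟩
    · exact ⟨1, A.one_mem, x, hx, (one_mul x).symm⟩
  | one => exact ⟨1, A.one_mem, 1, B.one_mem, (mul_one 1).symm⟩
  | mul x y _ _ ihx ihy =>
    obtain ⟨a, ha, b, hb, rfl⟩ := ihx
    obtain ⟨a', ha', b', hb', rfl⟩ := ihy
    refine ⟨a * a', A.mul_mem ha ha', b * b', B.mul_mem hb hb', ?_⟩
    calc a * b * (a' * b') = a * (b * a') * b' := by group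
      _ = a * (a' * b) * b' := by rw [h a' ha' b hb]
      _ = a * a' * (b * b') := by group
  | inv x _ ih =>
    obtain ⟨a, ha, b, hb, rfl⟩ := ih
    refine ⟨a⁻¹, A.inv_mem ha, b⁻¹, B.inv_mem hb, ?_⟩
    rw [mul_inv_rev, h a⁻¹ (A.inv_mem ha) b⁻¹ (B.inv_mem hb)]

/-- `#(H ⊔ K) * #(H ⊓ K) ≤ #H * #K` for elementwise commuting subgroups -/
theorem card_sup_mul_inf_le {G : Type u} [Group G] [Finite G] (H K : Subgroup G)
    (hcomm : ∀ a ∈ H, ∀ b ∈ K, a * b = b * a) :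
    Nat.card ↥(H ⊔ K) * Nat.card ↥(H ⊓ K) ≤ Nat.card ↥H * Nat.card ↥K := by
  classical
  rw [← Nat.card_prod, ← Nat.card_prod]
  have hdec : ∀ g : ↥(H ⊔ K), ∃ a ∈ H, ∃ b ∈ K, (g : G) = a * b :=
    fun g => mem_sup_dec H K hcomm g.2
  choose hh hhH kk hkK hg using hdec
  apply Nat.card_le_card_of_injective
    (fun p : ↥(H ⊔ K) × ↥(H ⊓ K) =>
      ((⟨hh p.1 * (p.2 : G), H.mul_mem (hhH _) p.2.2.1⟩ : ↥H),
        (⟨(p.2 : G)⁻¹ * kk p.1, K.mul_mem (K.inv_mem p.2.2.2) (hkK _)⟩ : ↥K)))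
  intro p q hpq
  simp only [Prod.mk.injEq, Subtype.mk.injEq] at hpq
  obtain ⟨h1, h2⟩ := hpq
  have e1 : (p.1 : G) = (q.1 : G) := by
    calc (p.1 : G) = hh p.1 * kk p.1 := hg _
      _ = (hh p.1 * (p.2 : G)) * ((p.2 : G)⁻¹ * kk p.1) := by group
      _ = (hh q.1 * (q.2 : G)) * ((q.2 : G)⁻¹ * kk q.1) := by rw [h1, h2]
      _ = hh q.1 * kk q.1 := by group
      _ = (q.1 : G) := (hg _).symm
  have e1' : p.1 = q.1 := Subtype.ext e1
  rw [e1'] at h1
  have e2 : (p.2 : G) = (q.2 : G) := mul_left_cancel h1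
  exact Prod.ext e1' (Subtype.ext e2)

/-- `#H * #K ≤ #U` if `H ∩ K = 1` and `H, K ≤ U` -/
theorem card_mul_le_of_inf_bot {G : Type u} [Group G] [Finite G] (H K U : Subgroup G)
    (hHU : H ≤ U) (hKU : K ≤ U) (hbot : H ⊓ K = ⊥) :
    Nat.card ↥H * Nat.card ↥K ≤ Nat.card ↥U := by
  rw [← Nat.card_prod]
  apply Nat.card_le_card_of_injective
    (fun p : ↥H × ↥K => (⟨(p.1 : G) * (p.2 : G), U.mul_mem (hHU p.1.2) (hKU p.2.2)⟩ : ↥U))
  intro p q hpq
  simp only [Subtype.mk.injEq] at hpq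
  have hmem : (q.1 : G)⁻¹ * (p.1 : G) ∈ H ⊓ K := by
    refine Subgroup.mem_inf.mpr ⟨H.mul_mem (H.inv_mem q.1.2) p.1.2, ?_⟩
    have : (q.1 : G)⁻¹ * (p.1 : G) = (q.2 : G) * (p.2 : G)⁻¹ := by
      calc (q.1 : G)⁻¹ * (p.1 : G) = (q.1 : G)⁻¹ * ((p.1 : G) * (p.2 : G)) * (p.2 : G)⁻¹ := by
            group
        _ = (q.1 : G)⁻¹ * ((q.1 : G) * (q.2 : G)) * (p.2 : G)⁻¹ := by rw [hpq]
        _ = (q.2 : G) * (p.2 : G)⁻¹ := by group
    rw [this]
    exact K.mul_mem q.2.2 (K.inv_mem p.2.2)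
  rw [hbot, Subgroup.mem_bot] at hmem
  have e1 : (p.1 : G) = (q.1 : G) := by
    have := congrArg (fun z => (q.1 : G) * z) hmem
    simpa using this
  have e2 : (p.2 : G) = (q.2 : G) := by
    rw [e1] at hpq
    exact mul_left_cancel hpq
  exact Prod.ext (Subtype.ext e1) (Subtype.ext e2)

theorem conj_mem_closure {G : Type u} [Group G] (s : Set G) (z : G)
    (hs : ∀ w ∈ s, z * w * z⁻¹ ∈ s) :
    ∀ v ∈ Subgroup.closure s, z * v * z⁻¹ ∈ Subgroup.closure s := by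
  intro v hv
  induction hv using Subgroup.closure_induction with
  | mem a ha => exact Subgroup.subset_closure (hs a ha)
  | one => simp
  | mul a b _ _ iha ihb =>
    have : z * (a * b) * z⁻¹ = (z * a * z⁻¹) * (z * b * z⁻¹) := by group
    rw [this]
    exact Subgroup.mul_mem _ iha ihb
  | inv a _ iha =>
    have : z * a⁻¹ * z⁻¹ = (z * a * z⁻¹)⁻¹ := by group
    rw [this]
    exact Subgroup.inv_mem _ iha

/-! ## The group `N_U` -/

/-- elements normalizing `U` and acting trivially on `M / U` -/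
def NU {G : Type u} [Group G] (M U : Subgroup G) : Subgroup G where
  carrier := {g | (∀ u ∈ U, g * u * g⁻¹ ∈ U) ∧ (∀ u ∈ U, g⁻¹ * u * g ∈ U) ∧
    ∀ m ∈ M, g * m * g⁻¹ * m⁻¹ ∈ U}
  mul_mem' := by
    intro a b ha hb
    refine ⟨?_, ?_, ?_⟩
    · intro u hu
      have : a * b * u * (a * b)⁻¹ = a * (b * u * b⁻¹) * a⁻¹ := by group
      rw [this]
      exact ha.1 _ (hb.1 u hu)
    · intro u hu
      have : (a * b)⁻¹ * u * (a * b) = b⁻¹ * (a⁻¹ * u * a) * b := by group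
      rw [this]
      exact hb.2.1 _ (ha.2.1 u hu)
    · intro m hm
      have : a * b * m * (a * b)⁻¹ * m⁻¹ = a * (b * m * b⁻¹ * m⁻¹) * a⁻¹ * (a * m * a⁻¹ * m⁻¹) := by
        group
      rw [this]
      exact U.mul_mem (ha.1 _ (hb.2.2 m hm)) (ha.2.2 m hm)
  one_mem' := by
    refine ⟨?_, ?_, ?_⟩
    · intro u hu
      simpa using hu
    · intro u hu
      simpa using hu
    · intro m _
      simp
  inv_mem' := by
    intro a ha
    refine ⟨?_, ?_, ?_⟩
    · intro u hu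
      simpa using ha.2.1 u hu
    · intro u hu
      simpa using ha.1 u hu
    · intro m hm
      have : a⁻¹ * m * a⁻¹⁻¹ * m⁻¹ = a⁻¹ * (a * m * a⁻¹ * m⁻¹)⁻¹ * a := by group
      rw [this]
      exact ha.2.1 _ (U.inv_mem (ha.2.2 m hm))

theorem mem_NU {G : Type u} [Group G] (M U : Subgroup G) (g : G) :
    g ∈ NU M U ↔ (∀ u ∈ U, g * u * g⁻¹ ∈ U) ∧ (∀ u ∈ U, g⁻¹ * u * g ∈ U) ∧
      ∀ m ∈ M, g * m * g⁻¹ * m⁻¹ ∈ U := Iff.rfl

/-- `V₂ = [M, Y ∩ N_U]` -/
def V2 {G : Type u} [Group G] (M Y U : Subgroup G) : Subgroup G :=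
  Subgroup.closure {w : G | ∃ g ∈ Y ⊓ NU M U, ∃ m ∈ M, w = g * m * g⁻¹ * m⁻¹}

theorem V2_le {G : Type u} [Group G] (M Y U : Subgroup G) : V2 M Y U ≤ U := by
  unfold V2
  rw [Subgroup.closure_le]
  rintro w ⟨g, hg, m, hm, rfl⟩
  exact ((mem_NU M U g).mp (Subgroup.mem_inf.mp hg).2).2.2 m hm

/-- `V₂` is invariant under every element normalizing `Y ∩ N_U` -/
theorem V2_conj {G : Type u} [Group G] (M Y U : Subgroup G) [M.Normal] (z : G)
    (hz : ∀ g ∈ Y ⊓ NU M U, z * g * z⁻¹ ∈ Y ⊓ NU M U) :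
    ∀ v ∈ V2 M Y U, z * v * z⁻¹ ∈ V2 M Y U := by
  unfold V2
  apply conj_mem_closure
  rintro w ⟨g, hg, m, hm, rfl⟩
  refine ⟨z * g * z⁻¹, hz g hg, z * m * z⁻¹, ‹M.Normal›.conj_mem m hm z, ?_⟩
  group

/-! ## Reflections -/

theorem refl_conj_mem {G : Type u} [Group G] (M : Subgroup G) (x : G) (W : Subgroup G)
    (hR : IsRefl M x W) (U : Subgroup G) (hWU : W ≤ U) (hUM : U ≤ M) :
    ∀ u ∈ U, x * u * x⁻¹ ∈ U := by
  intro u hu
  have : x * u * x⁻¹ = (x * u * x⁻¹ * u⁻¹) * u := by group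
  rw [this]
  exact U.mul_mem (hWU (hR.comm u (hUM hu))) hu

theorem refl_conj_mem' {G : Type u} [Group G] (M : Subgroup G) [M.Normal] (x : G)
    (W : Subgroup G) (hR : IsRefl M x W) (U : Subgroup G) (hWU : W ≤ U) (hUM : U ≤ M) :
    ∀ u ∈ U, x⁻¹ * u * x ∈ U := by
  intro u hu
  have hm : x⁻¹ * u * x ∈ M := by
    have := ‹M.Normal›.conj_mem u (hUM hu) x⁻¹
    simpa using this
  have h1 : x * (x⁻¹ * u * x) * x⁻¹ * (x⁻¹ * u * x)⁻¹ ∈ U := hWU (hR.comm _ hm)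
  have h2 : x⁻¹ * u * x = (x * (x⁻¹ * u * x) * x⁻¹ * (x⁻¹ * u * x)⁻¹)⁻¹ * u := by group
  rw [h2]
  exact U.mul_mem (U.inv_mem h1) hu

theorem refl_mem_NU {G : Type u} [Group G] (M : Subgroup G) [M.Normal] (x : G)
    (W : Subgroup G) (hR : IsRefl M x W) (U : Subgroup G) (hWU : W ≤ U) (hUM : U ≤ M) :
    x ∈ NU M U :=
  ⟨refl_conj_mem M x W hR U hWU hUM, refl_conj_mem' M x W hR U hWU hUM,
    fun m hm => hWU (hR.comm m hm)⟩

/-- an `x`-invariant subgroup meets `W` trivially or contains it -/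
theorem refl_inf {G : Type u} [Group G] [Finite G] (M : Subgroup G) (x : G) (W : Subgroup G)
    (hR : IsRefl M x W) (V : Subgroup G) (hV : ∀ v ∈ V, x * v * x⁻¹ ∈ V) :
    W ⊓ V = ⊥ ∨ W ≤ V := by
  by_cases hbot : W ⊓ V = ⊥
  · exact Or.inl hbot
  right
  have hdvd : Nat.card ↥(W ⊓ V) ∣ 4 := by
    rw [← hR.card]
    exact Subgroup.card_dvd_of_le inf_le_left
  have hle : Nat.card ↥(W ⊓ V) ≤ 4 := Nat.le_of_dvd (by norm_num) hdvd
  have hpos : 0 < Nat.card ↥(W ⊓ V) := Nat.card_pos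
  have hne1 : Nat.card ↥(W ⊓ V) ≠ 1 := by
    intro h
    exact hbot ((Subgroup.card_eq_one).mp h)
  have hcases : Nat.card ↥(W ⊓ V) = 2 ∨ Nat.card ↥(W ⊓ V) = 4 := by
    interval_cases h : Nat.card ↥(W ⊓ V) <;> simp_all
  rcases hcases with h2 | h4
  · exfalso
    obtain ⟨t, ht1, htu⟩ := (Nat.card_eq_two_iff' (1 : ↥(W ⊓ V))).mp h2
    have htW : (t : G) ∈ W := t.2.1
    have htV : (t : G) ∈ V := t.2.2
    have hxt : x * (t : G) * x⁻¹ ∈ W ⊓ V := by
      refine Subgroup.mem_inf.mpr ⟨?_, hV _ htV⟩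
      have : x * (t : G) * x⁻¹ = (x * (t : G) * x⁻¹ * (t : G)⁻¹) * (t : G) := by group
      rw [this]
      exact W.mul_mem (hR.comm _ (hR.le htW)) htW
    have hne : (⟨x * (t : G) * x⁻¹, hxt⟩ : ↥(W ⊓ V)) ≠ 1 := by
      intro h
      apply ht1
      have h' : x * (t : G) * x⁻¹ = 1 := congrArg Subtype.val h
      apply Subtype.ext
      have : (t : G) = x⁻¹ * (x * (t : G) * x⁻¹) * x := by group
      rw [this, h']
      simp
    have heq := htu _ hne
    have hfix : x * (t : G) * x⁻¹ = (t : G) := congrArg Subtype.val heq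
    have := hR.fix _ htW hfix
    exact ht1 (Subtype.ext this)
  · have : W ⊓ V = W := by
      apply Subgroup.eq_of_le_of_card_ge inf_le_left
      rw [h4, hR.card]
    rw [← this]
    exact inf_le_right

theorem mem_map_conj {G : Type u} [Group G] (W : Subgroup G) (y w : G) (hw : w ∈ W) :
    y * w * y⁻¹ ∈ W.map (MulAut.conj y).toMonoidHom :=
  ⟨w, hw, by simp⟩

/-! ## The key lemma -/

theorem keyK (hCop : Cop.{u}) (hC : Conj.{u}) (hE : ReflEq.{u}) {G : Type u} [Group G] [Finite G]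
    (M : Subgroup G) [M.Normal] (hM : IsElementaryAbelian 2 M) (Y : Subgroup G)
    (hY : IsPGroup 7 ↥Y) (x : G) (W : Subgroup G) (hR : IsRefl M x W)
    (hxY : ∀ y ∈ Y, x * y * x⁻¹ ∈ Y) (U : Subgroup G) (hUM : U ≤ M) (hWU : W ≤ U)
    (hU16 : Nat.card ↥U ≤ 16) (y : G) (hy : y ∈ Y)
    (hW'U : W.map (MulAut.conj y).toMonoidHom ≤ U) :
    W.map (MulAut.conj y).toMonoidHom = W ∨
      (Nat.card ↥(V2 M Y U) = 8 ∧ W ≤ V2 M Y U ∧
        W.map (MulAut.conj y).toMonoidHom ≤ V2 M Y U) := by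
  have : Fact (Nat.Prime 7) := ⟨by norm_num⟩
  have hR' : IsRefl M (y * x * y⁻¹) (W.map (MulAut.conj y).toMonoidHom) := hC G M x W y hR
  have hxN : x ∈ NU M U := refl_mem_NU M x W hR U hWU hUM
  have hx'N : y * x * y⁻¹ ∈ NU M U := refl_mem_NU M _ _ hR' U hW'U hUM
  have hcY : y * x * y⁻¹ * x⁻¹ ∈ Y := by
    have h1 : x * y⁻¹ * x⁻¹ ∈ Y := hxY _ (Y.inv_mem hy)
    have : y * x * y⁻¹ * x⁻¹ = y * (x * y⁻¹ * x⁻¹) := by group
    rw [this]
    exact Y.mul_mem hy h1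
  have hcN : y * x * y⁻¹ * x⁻¹ ∈ NU M U := (NU M U).mul_mem hx'N ((NU M U).inv_mem hxN)
  have hcL : y * x * y⁻¹ * x⁻¹ ∈ Y ⊓ NU M U := Subgroup.mem_inf.mpr ⟨hcY, hcN⟩
  -- x and x' normalize L
  have hxL : ∀ g ∈ Y ⊓ NU M U, x * g * x⁻¹ ∈ Y ⊓ NU M U := by
    intro g hg
    exact Subgroup.mem_inf.mpr ⟨hxY g (Subgroup.mem_inf.mp hg).1,
      (NU M U).mul_mem ((NU M U).mul_mem hxN (Subgroup.mem_inf.mp hg).2)
        ((NU M U).inv_mem hxN)⟩
  have hx'L : ∀ g ∈ Y ⊓ NU M U, (y * x * y⁻¹) * g * (y * x * y⁻¹)⁻¹ ∈ Y ⊓ NU M U := by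
    intro g hg
    refine Subgroup.mem_inf.mpr ⟨?_, (NU M U).mul_mem
      ((NU M U).mul_mem hx'N (Subgroup.mem_inf.mp hg).2) ((NU M U).inv_mem hx'N)⟩
    have hgY := (Subgroup.mem_inf.mp hg).1
    have h1 : y⁻¹ * g * y ∈ Y := Y.mul_mem (Y.mul_mem (Y.inv_mem hy) hgY) hy
    have h2 := hxY _ h1
    have : (y * x * y⁻¹) * g * (y * x * y⁻¹)⁻¹ = y * (x * (y⁻¹ * g * y) * x⁻¹) * y⁻¹ := by
      group
    rw [this]
    exact Y.mul_mem (Y.mul_mem hy h2) (Y.inv_mem hy)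
  -- V₂
  have hVU : V2 M Y U ≤ U := V2_le M Y U
  have hVM : V2 M Y U ≤ M := hVU.trans hUM
  have hVx : ∀ v ∈ V2 M Y U, x * v * x⁻¹ ∈ V2 M Y U := V2_conj M Y U x hxL
  have hVx' : ∀ v ∈ V2 M Y U, (y * x * y⁻¹) * v * (y * x * y⁻¹)⁻¹ ∈ V2 M Y U :=
    V2_conj M Y U _ hx'L
  have hVL : ∀ g ∈ Y ⊓ NU M U, ∀ v ∈ V2 M Y U, g * v * g⁻¹ ∈ V2 M Y U := by
    intro g hg
    apply V2_conj M Y U g
    intro h hh
    exact (Y ⊓ NU M U).mul_mem ((Y ⊓ NU M U).mul_mem hg hh) ((Y ⊓ NU M U).inv_mem hg)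
  -- L has odd order
  have hLp : IsPGroup 7 ↥(Y ⊓ NU M U) := hY.to_le inf_le_left
  have hLodd : Odd (Nat.card ↥(Y ⊓ NU M U)) := by
    obtain ⟨n, hn⟩ := IsPGroup.iff_card.mp hLp
    rw [hn]
    exact Odd.pow (by decide)
  -- fixed points of L on V are trivial
  have hfixV : ∀ v ∈ V2 M Y U, (∀ g ∈ Y ⊓ NU M U, g * v * g⁻¹ = v) → v = 1 := by
    intro v hv hfix
    exact hCop G M hM (Y ⊓ NU M U) hLodd v (hVM hv) hfix hv
  -- counting mod 7
  have hmod : Nat.card ↥(V2 M Y U) ≡ 1 [MOD 7] := by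
    let _ : MulAction ↥(Y ⊓ NU M U) ↥(V2 M Y U) :=
      { smul := fun g v => ⟨(g : G) * (v : G) * (g : G)⁻¹, hVL g g.2 v v.2⟩
        one_smul := fun v => Subtype.ext (by
          show ((1 : ↥(Y ⊓ NU M U)) : G) * (v : G) * ((1 : ↥(Y ⊓ NU M U)) : G)⁻¹ = (v : G)
          simp)
        mul_smul := fun g h v => Subtype.ext (by
          show ((g * h : ↥(Y ⊓ NU M U)) : G) * (v : G) * ((g * h : ↥(Y ⊓ NU M U)) : G)⁻¹ =
            (g : G) * ((h : G) * (v : G) * (h : G)⁻¹) * (g : G)⁻¹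
          rw [Subgroup.coe_mul]
          group) }
    have h := hLp.card_modEq_card_fixedPoints ↥(V2 M Y U)
    have hfp : Nat.card ↥(MulAction.fixedPoints ↥(Y ⊓ NU M U) ↥(V2 M Y U)) = 1 := by
      rw [Nat.card_eq_one_iff_unique]
      refine ⟨⟨?_⟩, ⟨⟨1, ?_⟩⟩⟩
      · intro a b
        have ha : (a : ↥(V2 M Y U)) = 1 := by
          apply Subtype.ext
          apply hfixV _ a.1.2
          intro g hg
          have := a.2 ⟨g, hg⟩
          exact congrArg Subtype.val this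
        have hb : (b : ↥(V2 M Y U)) = 1 := by
          apply Subtype.ext
          apply hfixV _ b.1.2
          intro g hg
          have := b.2 ⟨g, hg⟩
          exact congrArg Subtype.val this
        exact Subtype.ext (ha.trans hb.symm)
      · intro g
        apply Subtype.ext
        show (g : G) * ((1 : ↥(V2 M Y U)) : G) * (g : G)⁻¹ = ((1 : ↥(V2 M Y U)) : G)
        simp
    rw [hfp] at h
    exact h
  -- the order of V is a power of 2
  have hV2 : IsPGroup 2 ↥(V2 M Y U) := by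
    intro v
    refine ⟨1, ?_⟩
    apply Subtype.ext
    rw [pow_one, Subgroup.coe_pow]
    exact hM.2 _ (hVM v.2)
  obtain ⟨n, hn⟩ := IsPGroup.iff_card.mp hV2
  have hVle : Nat.card ↥(V2 M Y U) ≤ 16 := (Subgroup.card_le_of_le hVU).trans hU16
  have hn4 : n ≤ 4 := by
    by_contra hcon
    push Not at hcon
    have : 2 ^ 5 ≤ 2 ^ n := Nat.pow_le_pow_right (by norm_num) hcon
    omega
  have hcases : Nat.card ↥(V2 M Y U) = 1 ∨ Nat.card ↥(V2 M Y U) = 8 := by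
    rw [hn] at hmod ⊢
    exact pow2_cases n hn4 hmod
  rcases hcases with h1 | h8
  · left
    -- c centralizes M
    have hVbot : V2 M Y U = ⊥ := Subgroup.card_eq_one.mp h1
    have hcM : ∀ m ∈ M, (y * x * y⁻¹ * x⁻¹) * m * (y * x * y⁻¹ * x⁻¹)⁻¹ = m := by
      intro m hm
      have hmem : (y * x * y⁻¹ * x⁻¹) * m * (y * x * y⁻¹ * x⁻¹)⁻¹ * m⁻¹ ∈ V2 M Y U :=
        Subgroup.subset_closure ⟨_, hcL, m, hm, rfl⟩
      rw [hVbot, Subgroup.mem_bot] at hmem
      calc (y * x * y⁻¹ * x⁻¹) * m * (y * x * y⁻¹ * x⁻¹)⁻¹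
          = ((y * x * y⁻¹ * x⁻¹) * m * (y * x * y⁻¹ * x⁻¹)⁻¹ * m⁻¹) * m := by group
        _ = m := by rw [hmem, one_mul]
    have hact : ∀ m ∈ M, (y * x * y⁻¹) * m * (y * x * y⁻¹)⁻¹ = x * m * x⁻¹ := by
      intro m hm
      have hxm : x * m * x⁻¹ ∈ M := ‹M.Normal›.conj_mem m hm x
      have : (y * x * y⁻¹) * m * (y * x * y⁻¹)⁻¹ =
          (y * x * y⁻¹ * x⁻¹) * (x * m * x⁻¹) * (y * x * y⁻¹ * x⁻¹)⁻¹ := by group
      rw [this, hcM _ hxm]
    exact hE G M hM _ x _ W hR' hR hact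
  · right
    refine ⟨h8, ?_, ?_⟩
    · rcases refl_inf M x W hR (V2 M Y U) hVx with hb | hle
      · exfalso
        have := card_mul_le_of_inf_bot W (V2 M Y U) U hWU hVU hb
        rw [hR.card, h8] at this
        omega
      · exact hle
    · rcases refl_inf M _ _ hR' (V2 M Y U) hVx' with hb | hle
      · exfalso
        have := card_mul_le_of_inf_bot _ (V2 M Y U) U hW'U hVU hb
        rw [hR'.card, h8] at this
        omega
      · exact hle

/-! ## The piece -/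

theorem main (hCop : Cop.{u}) (hC : Conj.{u}) (hE : ReflEq.{u}) : PW7.{u} := by
  classical
  intro S _ _ M _ hM Y Q hY hQ x W hxQ hR hxY
  have : Fact (Nat.Prime 7) := ⟨by norm_num⟩
  have hMcomm : ∀ a ∈ M, ∀ b ∈ M, a * b = b * a := by
    intro a ha b hb
    exact congrArg Subtype.val (hM.1.is_comm.comm (⟨a, ha⟩ : M) ⟨b, hb⟩)
  have hconjM : ∀ y : S, W.map (MulAut.conj y).toMonoidHom ≤ M := by
    intro y w hw
    obtain ⟨w0, hw0, rfl⟩ := hw
    have := ‹M.Normal›.conj_mem w0 (hR.le hw0) y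
    simpa using this
  have hconjcard : ∀ y : S, Nat.card ↥(W.map (MulAut.conj y).toMonoidHom) = 4 :=
    fun y => (hC S M x W y hR).card
  have hsup16 : ∀ y : S, Nat.card ↥(W ⊔ W.map (MulAut.conj y).toMonoidHom) ≤ 16 := by
    intro y
    have h := card_sup_mul_inf_le W (W.map (MulAut.conj y).toMonoidHom)
      (fun a ha b hb => hMcomm a (hR.le ha) b (hconjM y hb))
    rw [hR.card, hconjcard y] at h
    have hpos : 0 < Nat.card ↥(W ⊓ W.map (MulAut.conj y).toMonoidHom) := Nat.card_pos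
    nlinarith
  -- a group of order at most 8 containing W and normalized by Y
  obtain ⟨B, hWB, hB8, hBnorm⟩ : ∃ B : Subgroup S, W ≤ B ∧ Nat.card ↥B ≤ 8 ∧
      ∀ y ∈ Y, ∀ b ∈ B, y * b * y⁻¹ ∈ B := by
    by_cases hall : ∀ y ∈ Y, W.map (MulAut.conj y).toMonoidHom = W
    · refine ⟨W, le_refl _, by rw [hR.card]; norm_num, ?_⟩
      intro y hy b hb
      have := mem_map_conj W y b hb
      rw [hall y hy] at this
      exact this
    · push Not at hall
      obtain ⟨y₁, hy₁, hne₁⟩ := hall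
      have hUM : W ⊔ W.map (MulAut.conj y₁).toMonoidHom ≤ M := sup_le hR.le (hconjM y₁)
      rcases keyK hCop hC hE M hM Y hY x W hR hxY (W ⊔ W.map (MulAut.conj y₁).toMonoidHom) hUM
        le_sup_left (hsup16 y₁) y₁ hy₁ le_sup_right with h | ⟨h8, hWV, hW₁V⟩
      · exact absurd h hne₁
      have hBU : V2 M Y (W ⊔ W.map (MulAut.conj y₁).toMonoidHom) =
          W ⊔ W.map (MulAut.conj y₁).toMonoidHom :=
        le_antisymm (V2_le M Y _) (sup_le hWV hW₁V)
      have hBM : V2 M Y (W ⊔ W.map (MulAut.conj y₁).toMonoidHom) ≤ M := (V2_le M Y _).trans hUM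
      -- all conjugates lie in B
      have hBconj : ∀ y ∈ Y, W.map (MulAut.conj y).toMonoidHom ≤
          V2 M Y (W ⊔ W.map (MulAut.conj y₁).toMonoidHom) := by
        intro y hy
        by_cases hyW : W.map (MulAut.conj y).toMonoidHom = W
        · rw [hyW]
          exact hWV
        rcases keyK hCop hC hE M hM Y hY x W hR hxY (W ⊔ W.map (MulAut.conj y).toMonoidHom)
          (sup_le hR.le (hconjM y)) le_sup_left (hsup16 y) y hy le_sup_right with
          h | ⟨h8', hWV', hWyV'⟩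
        · exact absurd h hyW
        have hinf : W ⊓ W.map (MulAut.conj y).toMonoidHom ≠ ⊥ := by
          intro hbot
          have := card_mul_le_of_inf_bot W (W.map (MulAut.conj y).toMonoidHom)
            (V2 M Y (W ⊔ W.map (MulAut.conj y).toMonoidHom)) hWV' hWyV' hbot
          rw [hR.card, hconjcard y, h8'] at this
          omega
        have hU3 : Nat.card ↥(V2 M Y (W ⊔ W.map (MulAut.conj y₁).toMonoidHom) ⊔
            W.map (MulAut.conj y).toMonoidHom) ≤ 16 := by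
          have h := card_sup_mul_inf_le (V2 M Y (W ⊔ W.map (MulAut.conj y₁).toMonoidHom))
            (W.map (MulAut.conj y).toMonoidHom)
            (fun a ha b hb => hMcomm a (hBM ha) b (hconjM y hb))
          rw [h8, hconjcard y] at h
          have h2 : 2 ≤ Nat.card ↥(V2 M Y (W ⊔ W.map (MulAut.conj y₁).toMonoidHom) ⊓
              W.map (MulAut.conj y).toMonoidHom) := by
            have hne : V2 M Y (W ⊔ W.map (MulAut.conj y₁).toMonoidHom) ⊓
                W.map (MulAut.conj y).toMonoidHom ≠ ⊥ := by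
              intro hb
              apply hinf
              rw [eq_bot_iff] at hb ⊢
              exact (inf_le_inf_right _ hWV).trans hb
            have := (Subgroup.one_lt_card_iff_ne_bot (H := V2 M Y (W ⊔
              W.map (MulAut.conj y₁).toMonoidHom) ⊓ W.map (MulAut.conj y).toMonoidHom)).mpr hne
            omega
          nlinarith
        have hU3M : V2 M Y (W ⊔ W.map (MulAut.conj y₁).toMonoidHom) ⊔
            W.map (MulAut.conj y).toMonoidHom ≤ M := sup_le hBM (hconjM y)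
        rcases keyK hCop hC hE M hM Y hY x W hR hxY _ hU3M (hWV.trans le_sup_left) hU3 y₁ hy₁
          (hW₁V.trans le_sup_left) with h | ⟨h83, hWV3, hW₁V3⟩
        · exact absurd h hne₁
        rcases keyK hCop hC hE M hM Y hY x W hR hxY _ hU3M (hWV.trans le_sup_left) hU3 y hy
          le_sup_right with h | ⟨-, -, hWyV3⟩
        · exact absurd h hyW
        have hBle : V2 M Y (W ⊔ W.map (MulAut.conj y₁).toMonoidHom) ≤
            V2 M Y (V2 M Y (W ⊔ W.map (MulAut.conj y₁).toMonoidHom) ⊔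
              W.map (MulAut.conj y).toMonoidHom) := by
          conv_lhs => rw [hBU]
          exact sup_le hWV3 hW₁V3
        have hBeq := Subgroup.eq_of_le_of_card_ge hBle (by rw [h83, h8])
        rw [hBeq]
        exact hWyV3
      refine ⟨V2 M Y (W ⊔ W.map (MulAut.conj y₁).toMonoidHom), hWV, h8.le, ?_⟩
      intro y hy b hb
      rw [hBU] at hb
      obtain ⟨w, hw, w', hw', rfl⟩ := mem_sup_dec W (W.map (MulAut.conj y₁).toMonoidHom)
        (fun a ha b hb => hMcomm a (hR.le ha) b (hconjM y₁ hb)) hb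
      obtain ⟨w₁, hw₁, rfl⟩ := hw'
      have e : y * (w * (MulAut.conj y₁).toMonoidHom w₁) * y⁻¹ =
          (y * w * y⁻¹) * ((y * y₁) * w₁ * (y * y₁)⁻¹) := by
        simp only [MulEquiv.coe_toMonoidHom, MulAut.conj_apply]
        group
      rw [e]
      exact Subgroup.mul_mem _ (hBconj y hy (mem_map_conj W y w hw))
        (hBconj (y * y₁) (Y.mul_mem hy hy₁) (mem_map_conj W (y * y₁) w₁ hw₁))
  -- the action of Y on B
  have hBnorm' : ∀ g : ↥Y, ∀ b : ↥B, (g : S) * (b : S) * (g : S)⁻¹ ∈ B :=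
    fun g b => hBnorm g g.2 b b.2
  let _ : MulAction ↥Y ↥B :=
    { smul := fun g b => ⟨(g : S) * (b : S) * (g : S)⁻¹, hBnorm' g b⟩
      one_smul := fun b => Subtype.ext (by
        show ((1 : ↥Y) : S) * (b : S) * ((1 : ↥Y) : S)⁻¹ = (b : S)
        simp)
      mul_smul := fun g h b => Subtype.ext (by
        show ((g * h : ↥Y) : S) * (b : S) * ((g * h : ↥Y) : S)⁻¹ =
          (g : S) * ((h : S) * (b : S) * (h : S)⁻¹) * (g : S)⁻¹
        rw [Subgroup.coe_mul]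
        group) }
  have hsmul : ∀ (g : ↥Y) (b : ↥B), ((g • b : ↥B) : S) = (g : S) * (b : S) * (g : S)⁻¹ :=
    fun _ _ => rfl
  have hcardY : Nat.card ↥(MulAction.toPermHom ↥Y ↥B).ker *
      Nat.card ↥(MulAction.toPermHom ↥Y ↥B).range = Nat.card ↥Y := by
    rw [← Subgroup.index_ker (MulAction.toPermHom ↥Y ↥B)]
    exact Subgroup.card_mul_index _
  have hrange7 : IsPGroup 7 ↥(MulAction.toPermHom ↥Y ↥B).range :=
    hY.of_surjective (MulAction.toPermHom ↥Y ↥B).rangeRestrict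
      (MulAction.toPermHom ↥Y ↥B).rangeRestrict_surjective
  obtain ⟨k, hk⟩ := IsPGroup.iff_card.mp hrange7
  have hdvd : Nat.card ↥(MulAction.toPermHom ↥Y ↥B).range ∣ Nat.factorial 8 := by
    have h1 : Nat.card ↥(MulAction.toPermHom ↥Y ↥B).range ∣ Nat.card (Equiv.Perm ↥B) :=
      Subgroup.card_subgroup_dvd_card _
    rw [Nat.card_perm] at h1
    exact h1.trans (Nat.factorial_dvd_factorial hB8)
  have hr7 : Nat.card ↥(MulAction.toPermHom ↥Y ↥B).range ≤ 7 := by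
    rw [hk] at hdvd ⊢
    exact seven_pow_le k hdvd
  have hmemK : ∀ g : ↥(MulAction.toPermHom ↥Y ↥B).ker,
      ((g : ↥Y) : S) ∈ Y ⊓ Subgroup.centralizer (W : Set S) := by
    intro g
    refine Subgroup.mem_inf.mpr ⟨g.1.2, ?_⟩
    rw [Subgroup.mem_centralizer_iff]
    intro w hw
    have hg : MulAction.toPermHom ↥Y ↥B g.1 = 1 := MonoidHom.mem_ker.mp g.2
    have h1 := congrArg (fun σ : Equiv.Perm ↥B => ((σ ⟨w, hWB hw⟩ : ↥B) : S)) hg
    simp only [MulAction.toPermHom_apply, MulAction.toPerm_apply, Equiv.Perm.coe_one, id_eq]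
      at h1
    rw [hsmul] at h1
    have h2 : ((g : ↥Y) : S) * w * ((g : ↥Y) : S)⁻¹ = w := h1
    calc w * ((g : ↥Y) : S) = (((g : ↥Y) : S) * w * ((g : ↥Y) : S)⁻¹) * ((g : ↥Y) : S) := by
          rw [h2]
      _ = ((g : ↥Y) : S) * w := by group
  have hker : Nat.card ↥(MulAction.toPermHom ↥Y ↥B).ker ≤
      Nat.card ↥(Y ⊓ Subgroup.centralizer (W : Set S)) := by
    apply Nat.card_le_card_of_injective
      (fun g : ↥(MulAction.toPermHom ↥Y ↥B).ker =>
        (⟨((g : ↥Y) : S), hmemK g⟩ : ↥(Y ⊓ Subgroup.centralizer (W : Set S))))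
    intro a b hab
    have h1 : ((a : ↥Y) : S) = ((b : ↥Y) : S) :=
      congrArg (fun z : ↥(Y ⊓ Subgroup.centralizer (W : Set S)) => (z : S)) hab
    exact Subtype.ext (Subtype.ext h1)
  calc Nat.card ↥Y = Nat.card ↥(MulAction.toPermHom ↥Y ↥B).ker *
        Nat.card ↥(MulAction.toPermHom ↥Y ↥B).range := hcardY.symm
    _ ≤ Nat.card ↥(Y ⊓ Subgroup.centralizer (W : Set S)) * 7 := Nat.mul_le_mul hker hr7
    _ = 7 * Nat.card ↥(Y ⊓ Subgroup.centralizer (W : Set S)) := Nat.mul_comm _ _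

end Cfsg.Agent.Lib.Helper75.TLPW7
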